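import Cfsg.Agent.Lib.Phan.Lift

/-!
# The completion theorem: a compatible system of `SU₃`'s gives a homomorphism from `SU_n`
-/

set_option autoImplicit false
set_option linter.unusedSectionVars false
set_option linter.unusedSimpArgs false
set_option linter.unusedVariables false

namespace Cfsg.Agent.Lib.Phan

open Matrix Cfsg Cfsg.Agent.Lib.HermForm Cfsg.Agent.Lib.SUGen Cfsg.Agent.Lib.FFNorm Cfsg.Agent.Lib

variable {F : Type*} [Field F] [Fintype F] {q : ℕ}

section

variable (hF : Fintype.card F = q ^ 2)
include hF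

theorem bl_bl' {i j t k l n : ℕ} (ht : i + j = t) (h : i + k ≤ n) (h' : j + l ≤ k) (h'' : t + l ≤ n) (A : SU l F q) :
    bl hF h (bl hF h' A) = bl hF h'' A := by
  subst ht
  exact bl_bl hF h h' h'' A

theorem bl_self {n : ℕ} (h : 0 + n ≤ n) (A : SU n F q) : bl hF h A = A := by
  apply SU_ext
  intro v
  have h1 : ∀ w : Fin n → F, w ∘ sh h = w := by
    intro w
    funext a
    simp only [Function.comp]
    congr 1
    exact Fin.ext (by simp [sh_val])
  have h2 := act_bl_comp hF h A v
  rw [h1, h1] at h2
  exact h2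

/-- Disjoint blocks commute. -/
theorem emb_comm {k l n : ℕ} {κ : Fin k → Fin n} {κ' : Fin l → Fin n} (hκ : Function.Injective κ)
    (hκ' : Function.Injective κ') (hd : ∀ a b, κ a ≠ κ' b) (A : SU k F q) (B : SU l F q) :
    emb hF hκ A * emb hF hκ' B = emb hF hκ' B * emb hF hκ A := by
  have h1 : ∀ y : Fin k → F, ex κ y ∘ κ' = 0 := by
    intro y
    funext b
    exact ex_off (fun ⟨a, ha⟩ => hd a b ha) y
  have h2 : ∀ y : Fin l → F, ex κ' y ∘ κ = 0 := by
    intro y
    funext a
    exact ex_off (fun ⟨b, hb⟩ => hd a b hb.symm) y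
  have h3 : ∀ y : Fin k → F, ∀ x : Fin n → F, (x + ex κ y) ∘ κ' = x ∘ κ' := by
    intro y x
    funext b
    have := congrFun (h1 y) b
    simp only [Function.comp, Pi.add_apply, Pi.zero_apply] at this ⊢
    rw [this, add_zero]
  have h4 : ∀ y : Fin l → F, ∀ x : Fin n → F, (x + ex κ' y) ∘ κ = x ∘ κ := by
    intro y x
    funext a
    have := congrFun (h2 y) a
    simp only [Function.comp, Pi.add_apply, Pi.zero_apply] at this ⊢
    rw [this, add_zero]
  apply SU_ext
  intro x
  rw [act_mul, act_mul, act_emb hF hκ' B x, act_emb hF hκ A x, act_emb hF hκ, act_emb hF hκ', h4, h3]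
  abel

end

/-- The completion theorem. -/
theorem completion (hF : Fintype.card F = q ^ 2) (hq : 4 ≤ q) {G : Type*} [Group G] :
    ∀ n : ℕ, 3 ≤ n → ∀ (ps : ℕ → SU 2 F q →* G) (ph : ℕ → SU 3 F q →* G),
      (∀ i, i + 3 ≤ n → ∀ x, ph i (bl hF (i := 0) (by omega) x) = ps i x) →
      (∀ i, i + 3 ≤ n → ∀ x, ph i (bl hF (i := 1) (by omega) x) = ps (i + 1) x) →
      (∀ i j, i + 2 ≤ j → j + 2 ≤ n → ∀ x y, ps i x * ps j y = ps j y * ps i x) →
      ∃ f : SU n F q →* G, (∀ i (h : i + 3 ≤ n) x, f (bl hF h x) = ph i x) ∧
        (∀ i (h : i + 2 ≤ n) x, f (bl hF h x) = ps i x) := by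
  -- the second property follows from the first
  have second : ∀ (n : ℕ) (ps : ℕ → SU 2 F q →* G) (ph : ℕ → SU 3 F q →* G) (hn : 3 ≤ n),
      (∀ i, i + 3 ≤ n → ∀ x, ph i (bl hF (i := 0) (by omega) x) = ps i x) →
      (∀ i, i + 3 ≤ n → ∀ x, ph i (bl hF (i := 1) (by omega) x) = ps (i + 1) x) →
      ∀ f : SU n F q →* G, (∀ i (h : i + 3 ≤ n) x, f (bl hF h x) = ph i x) →
        ∀ i (h : i + 2 ≤ n) x, f (bl hF h x) = ps i x := by
    intro n ps ph hn ha hb f hf i h x
    by_cases h3 : i + 3 ≤ n
    · rw [← ha i h3 x, ← hf i h3, bl_bl' hF (by omega : i + 0 = i) h3 (by omega) h]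
    · obtain ⟨i', rfl⟩ : ∃ i', i = i' + 1 := ⟨i - 1, by omega⟩
      have h4 : i' + 3 ≤ n := by omega
      rw [← hb i' h4 x, ← hf i' h4, bl_bl' hF (rfl : i' + 1 = i' + 1) h4 (by omega) h]
  intro n hn
  induction n, hn using Nat.le_induction with
  | base =>
    intro ps ph ha hb hc
    have h1 : ∀ i (h : i + 3 ≤ 3) x, ph 0 (bl hF h x) = ph i x := by
      intro i h x
      obtain rfl : i = 0 := by omega
      rw [bl_self hF]
    exact ⟨ph 0, h1, second 3 ps ph le_rfl ha hb _ h1⟩
  | succ n hn ih =>
    obtain ⟨k, rfl⟩ : ∃ k, n = k + 3 := ⟨n - 3, by omega⟩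
    intro ps ph ha hb hc
    obtain ⟨fL, hLa, hLb⟩ := ih ps ph (fun i hi => ha i (by omega)) (fun i hi => hb i (by omega))
      (fun i j h1 h2 => hc i j h1 (by omega))
    obtain ⟨fR, hRa, hRb⟩ := ih (fun i => ps (i + 1)) (fun i => ph (i + 1))
      (fun i hi => ha (i + 1) (by omega)) (fun i hi => hb (i + 1) (by omega))
      (fun i j h1 h2 => hc (i + 1) (j + 1) (by omega) (by omega))
    -- agreement on the overlap
    have hover : ∀ w : SU (k + 2) F q, fL (jR hF (k + 2) w) = fR (jL hF (k + 2) w) := by
      have hX : (fL.comp (jR hF (k + 2))).eqLocus (fR.comp (jL hF (k + 2))) = ⊤ := by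
        apply gen_blocks hF hq (k + 2) (by omega)
        intro i h A
        change fL (jR hF (k + 2) (bl hF h A)) = fR (jL hF (k + 2) (bl hF h A))
        rw [bl_bl' hF (show 1 + i = i + 1 by omega) (by omega) h (by omega),
          bl_bl' hF (show 0 + i = i by omega) (by omega) h (by omega), hLb, hRb]
      intro w
      have : w ∈ (fL.comp (jR hF (k + 2))).eqLocus (fR.comp (jL hF (k + 2))) := by rw [hX]; trivial
      exact this
    have hcommG : ∀ (u : SU 2 F q) (w : SU (k + 2) F q), ps 0 u * fR (jR hF (k + 2) w) = fR (jR hF (k + 2) w) * ps 0 u := by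
      intro u
      have hX : (Subgroup.centralizer {ps 0 u}).comap (fR.comp (jR hF (k + 2))) = ⊤ := by
        apply gen_blocks hF hq (k + 2) (by omega)
        intro i h A
        rw [Subgroup.mem_comap, Subgroup.mem_centralizer_singleton_iff]
        change fR (jR hF (k + 2) (bl hF h A)) * ps 0 u = ps 0 u * fR (jR hF (k + 2) (bl hF h A))
        rw [bl_bl' hF (show 1 + i = i + 1 by omega) (by omega) h (by omega), hRb]
        exact (hc 0 (i + 1 + 1) (by omega) (by omega) u A).symm
      intro w
      have : w ∈ (Subgroup.centralizer {ps 0 u}).comap (fR.comp (jR hF (k + 2))) := by rw [hX]; trivial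
      rw [Subgroup.mem_comap, Subgroup.mem_centralizer_singleton_iff] at this
      exact this.symm
    -- the group
    let σL : SU (k + 3) F q →* G × SU (k + 3 + 1) F q := fL.prod (jL hF (k + 3))
    let σR : SU (k + 3) F q →* G × SU (k + 3 + 1) F q := fR.prod (jR hF (k + 3))
    let Γ : Subgroup (G × SU (k + 3 + 1) F q) := σL.range ⊔ σR.range
    let τL : SU (k + 3) F q →* Γ := σL.codRestrict Γ (fun x => Subgroup.mem_sup_left ⟨x, rfl⟩)
    let τR : SU (k + 3) F q →* Γ := σR.codRestrict Γ (fun x => Subgroup.mem_sup_right ⟨x, rfl⟩)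
    let π : Γ →* SU (k + 3 + 1) F q := (MonoidHom.snd _ _).comp Γ.subtype
    let D : StepDat hF k Γ :=
      { π := π
        τL := τL
        τR := τR
        hL := fun x => rfl
        hR := fun x => rfl
        hLR := by
          intro x y h
          apply Subtype.ext
          apply Prod.ext
          · change fL x = fR y
            have hx : act x (Pi.single 0 1) = Pi.single 0 1 := by
              apply ex_inj (sh_inj (i := 0) (k := k + 3) (n := k + 3 + 1) (by omega))
              have he0 : ex (sh (i := 0) (k := k + 3) (n := k + 3 + 1) (by omega)) (Pi.single 0 1) =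
                  (Pi.single 0 1 : Fin (k + 3 + 1) → F) := by
                rw [ex_single (sh_inj _)]
                rfl
              have h1 := act_bl_ex hF (i := 0) (k := k + 3) (n := k + 3 + 1) (by omega) x (Pi.single 0 1)
              rw [he0] at h1
              rw [← h1, he0]
              change act (jL hF (k + 3) x) _ = _
              rw [h, jR_fix hF]
            obtain ⟨w, rfl⟩ := exists_jR hF (m := k + 2) hx
            have h2 : y = jL hF (k + 2) w := by
              apply bl_injective hF (i := 1) (k := k + 3) (n := k + 3 + 1) (by omega)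
              rw [← h]
              change _ = bl hF (i := 1) (k := k + 3) (n := k + 3 + 1) (by omega) (bl hF (i := 0) (by omega) w)
              change bl hF (i := 0) (k := k + 3) (n := k + 3 + 1) (by omega) (bl hF (i := 1) (by omega) w) = _
              rw [bl_bl' hF (show 0 + 1 = 1 by omega) (by omega) (by omega) (by omega),
                bl_bl' hF (show 1 + 0 = 1 by omega) (by omega) (by omega) (by omega)]
            rw [h2]
            exact hover w
          · exact h
        hcomm := by
          intro u y hy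
          obtain ⟨w, rfl⟩ := exists_jR hF (m := k + 2) hy
          apply Subtype.ext
          apply Prod.ext
          · change fL (bl hF _ u) * fR (jR hF (k + 2) w) = fR (jR hF (k + 2) w) * fL (bl hF _ u)
            rw [hLb]
            exact hcommG u w
          · change jL hF (k + 3) (bl hF _ u) * jR hF (k + 3) (jR hF (k + 2) w) =
              jR hF (k + 3) (jR hF (k + 2) w) * jL hF (k + 3) (bl hF _ u)
            rw [bl_bl hF (by omega) (by omega) (by omega), bl_bl hF (by omega) (by omega) (by omega)]
            apply emb_comm hF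
            intro a b h
            have := congrArg Fin.val h
            simp only [sh_val] at this
            have := a.2
            omega
        hgen := by
          intro X hL hR
          have h1 : Γ ≤ X.map Γ.subtype := by
            refine sup_le ?_ ?_
            · rintro _ ⟨x, rfl⟩
              exact ⟨τL x, hL x, rfl⟩
            · rintro _ ⟨x, rfl⟩
              exact ⟨τR x, hR x, rfl⟩
          rw [eq_top_iff]
          intro g _
          obtain ⟨h, hh, hg⟩ := h1 g.2
          have : h = g := Subtype.ext hg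
          rwa [← this] }
    have hinj : Function.Injective π := D.π_injective hq
    have hsurj : Function.Surjective π := by
      have hr : π.range = ⊤ := by
        apply gen_LR hF (m := k + 3) (by omega) hq
        · intro A
          exact ⟨τL A, rfl⟩
        · intro A
          exact ⟨τR A, rfl⟩
      exact MonoidHom.range_eq_top.1 hr
    let e : Γ ≃* SU (k + 3 + 1) F q := MulEquiv.ofBijective π ⟨hinj, hsurj⟩
    let f : SU (k + 3 + 1) F q →* G :=
      (MonoidHom.fst _ _).comp (Γ.subtype.comp e.symm.toMonoidHom)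
    have hfL : ∀ x, f (jL hF (k + 3) x) = fL x := by
      intro x
      have : e.symm (jL hF (k + 3) x) = τL x := by
        rw [MulEquiv.symm_apply_eq]
        rfl
      change ((e.symm (jL hF (k + 3) x) : Γ) : G × SU (k + 3 + 1) F q).1 = _
      rw [this]
      rfl
    have hfR : ∀ x, f (jR hF (k + 3) x) = fR x := by
      intro x
      have : e.symm (jR hF (k + 3) x) = τR x := by
        rw [MulEquiv.symm_apply_eq]
        rfl
      change ((e.symm (jR hF (k + 3) x) : Γ) : G × SU (k + 3 + 1) F q).1 = _
      rw [this]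
      rfl
    have h3 : ∀ i (h : i + 3 ≤ k + 3 + 1) x, f (bl hF h x) = ph i x := by
      intro i h x
      by_cases h4 : i + 3 ≤ k + 3
      · rw [← bl_bl' hF (show 0 + i = i by omega) (by omega) h4 h, hfL, hLa]
      · obtain ⟨i', rfl⟩ : ∃ i', i = i' + 1 := ⟨i - 1, by omega⟩
        rw [← bl_bl' hF (show 1 + i' = i' + 1 by omega) (by omega) (show i' + 3 ≤ k + 3 by omega) h, hfR, hRa]
    exact ⟨f, h3, second _ ps ph (by omega) ha hb f h3⟩

end Cfsg.Agent.Lib.Phan
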