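import Cfsg.Agent.S0281
import Cfsg.Agent.Lib.AutPSL.NTwo
import Cfsg.Agent.Lib.AutPSU.FieldAut
import Cfsg.Agent.Lib.AutOrthFrob
import Cfsg.Agent.Lib.OrthoFourMinus
import Cfsg.Agent.Lib.HermLines
import Cfsg.Agent.Lib.Phan.Completion

/-!
# Automorphisms of `SU₂(q)` normalizing the diagonal torus
-/

set_option autoImplicit false
set_option linter.unusedSectionVars false
set_option linter.unusedSimpArgs false
set_option linter.unusedVariables false

namespace Cfsg.Agent.Lib.Phan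

open Matrix Cfsg Cfsg.Agent.Lib.HermForm Cfsg.Agent.Lib.SUGen Cfsg.Agent.Lib.FFNorm Cfsg.Agent.Lib
open scoped commutatorElement

variable {F : Type*} [Field F] [Fintype F] {q : ℕ}

section Phi

open Cfsg.Agent.S0281 Cfsg.Agent.Lib.UnitarySU in
/-- The isomorphism `SL₂(K) ≃ SU₂(F)`, with its matrix form. -/
theorem exists_Phi {K : Type*} [Field K] [Fintype K] (hF : Fintype.card F = q ^ 2)
    (hK : Fintype.card K = q) (ι : K →+* F) :
    ∃ (P P' : Matrix (Fin 2) (Fin 2) F) (Φ : Matrix.SpecialLinearGroup (Fin 2) K ≃* SU 2 F q),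
      P * P' = 1 ∧ ∀ g, (((Φ g : SU 2 F q) : Matrix.SpecialLinearGroup (Fin 2) F) : Matrix (Fin 2) (Fin 2) F) =
        P * (g : Matrix (Fin 2) (Fin 2) K).map ι * P' := by
  classical
  have hq := Cfsg.Agent.Lib.HermCount.two_le_q hF
  obtain ⟨α, α', c, s, h1, h2, hne, hs0, hs, hc0, h3⟩ := exists_data hF
  set P : Matrix (Fin 2) (Fin 2) F := !![α, c * α'; 1, c] with hP
  have hPdet : P.det ≠ 0 := by
    rw [hP, Matrix.det_fin_two_of]
    have : α * c - c * α' * 1 = c * (α - α') := by ring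
    rw [this]
    exact mul_ne_zero hc0 (sub_ne_zero.2 hne)
  have hPinv : P * P⁻¹ = 1 := Matrix.mul_nonsing_inv _ (isUnit_iff_ne_zero.2 hPdet)
  have hunit : ∀ g : Matrix.SpecialLinearGroup (Fin 2) K, ∀ u v : Fin 2 → F,
      hermForm 2 F q (conjMat P ι g *ᵥ u) (conjMat P ι g *ᵥ v) = hermForm 2 F q u v := by
    intro g u v
    have hu : ∀ w : Fin 2 → F, conjMat P ι g *ᵥ w = P *ᵥ ((g.1.map ι) *ᵥ (P⁻¹ *ᵥ w)) := by
      intro w
      simp only [conjMat, Matrix.mulVec_mulVec, Matrix.mul_assoc]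
    have hw : ∀ w : Fin 2 → F, w = P *ᵥ (P⁻¹ *ᵥ w) := by
      intro w
      rw [Matrix.mulVec_mulVec, hPinv, Matrix.one_mulVec]
    rw [hu, hu]
    rw [herm_P hF h1 h2 h3 hs, brk_G hF hK ι g, ← herm_P hF h1 h2 h3 hs, ← hw, ← hw]
  let Φ0 : Matrix.SpecialLinearGroup (Fin 2) K → SU 2 F q := fun g =>
    SUofMatrix (conjMat P ι g) (conjMat_det hPdet ι g) (hunit g)
  let Φ : Matrix.SpecialLinearGroup (Fin 2) K →* SU 2 F q := MonoidHom.mk' Φ0 (by
    intro g h
    apply Subtype.ext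
    apply Subtype.ext
    exact conjMat_mul hPdet ι g h)
  have hinj : Function.Injective Φ := by
    intro g h hgh
    have h4 : conjMat P ι g = conjMat P ι h := by
      have := congrArg (fun x : SU 2 F q => (x.1.1 : Matrix (Fin 2) (Fin 2) F)) hgh
      exact this
    have h5 : g.1.map ι = h.1.map ι := by
      have hinv : P⁻¹ * P = 1 := Matrix.nonsing_inv_mul _ (isUnit_iff_ne_zero.2 hPdet)
      have h6 : P⁻¹ * (P * g.1.map ι * P⁻¹) * P = P⁻¹ * (P * h.1.map ι * P⁻¹) * P := by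
        rw [show P * g.1.map ι * P⁻¹ = conjMat P ι g from rfl,
          show P * h.1.map ι * P⁻¹ = conjMat P ι h from rfl, h4]
      have h7 : ∀ A : Matrix (Fin 2) (Fin 2) F, P⁻¹ * (P * A * P⁻¹) * P = A := by
        intro A
        calc P⁻¹ * (P * A * P⁻¹) * P = (P⁻¹ * P) * A * (P⁻¹ * P) := by simp only [Matrix.mul_assoc]
          _ = A := by rw [hinv, Matrix.one_mul, Matrix.mul_one]
      rwa [h7, h7] at h6
    apply Subtype.ext
    ext a b
    have := congrFun (congrFun h5 a) b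
    exact ι.injective this
  have hcard : Nat.card (Matrix.SpecialLinearGroup (Fin 2) K) = Nat.card (SU 2 F q) := by
    obtain ⟨e⟩ := Cfsg.Agent.S0281.result hF hK
    exact (Nat.card_congr e.toEquiv).symm
  have hbij : Function.Bijective Φ := by
    rw [Nat.bijective_iff_injective_and_card]
    exact ⟨hinj, hcard⟩
  exact ⟨P, P⁻¹, MulEquiv.ofBijective Φ hbij, hPinv, fun g => rfl⟩

theorem comm_central {G : Type*} [Group G] {x y z w : G} (hz : z ∈ Subgroup.center G)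
    (hw : w ∈ Subgroup.center G) : ⁅x * z, y * w⁆ = ⁅x, y⁆ := by
  have hz' : ∀ g, g * z = z * g := fun g => Subgroup.mem_center_iff.1 hz g
  have hw' : ∀ g, g * w = w * g := fun g => Subgroup.mem_center_iff.1 hw g
  rw [commutatorElement_def, commutatorElement_def, hz' x, hw' y]
  have hzi : ∀ g, g * z⁻¹ = z⁻¹ * g := fun g => Subgroup.mem_center_iff.1 (Subgroup.inv_mem _ hz) g
  calc z * x * (w * y) * (z * x)⁻¹ * (w * y)⁻¹ = z * x * (w * y) * x⁻¹ * (z⁻¹ * (y⁻¹ * w⁻¹)) := by group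
    _ = z * x * (w * y) * x⁻¹ * ((y⁻¹ * w⁻¹) * z⁻¹) := by rw [← hzi]
    _ = z * (x * (w * y) * x⁻¹ * y⁻¹ * w⁻¹) * z⁻¹ := by group
    _ = x * (w * y) * x⁻¹ * y⁻¹ * w⁻¹ := by
        rw [← hz' (x * (w * y) * x⁻¹ * y⁻¹ * w⁻¹)]; group
    _ = x * (y * w) * x⁻¹ * y⁻¹ * w⁻¹ := by rw [hw' y]
    _ = x * y * (w * (x⁻¹ * y⁻¹)) * w⁻¹ := by group
    _ = x * y * ((x⁻¹ * y⁻¹) * w) * w⁻¹ := by rw [← hw']
    _ = x * y * x⁻¹ * y⁻¹ := by group

/-- An automorphism of `SL₂(K)` is induced by a semilinear map. -/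
theorem aut_SL2 {K : Type*} [Field K] [Fintype K] {p f : ℕ} (hp : p.Prime) (hf : 1 ≤ f)
    (hK : Fintype.card K = p ^ f) (hK4 : 4 ≤ Fintype.card K)
    (θ : Matrix.SpecialLinearGroup (Fin 2) K ≃* Matrix.SpecialLinearGroup (Fin 2) K) :
    ∃ (g : GL (Fin 2) K) (τ : K ≃+* K), ∀ s, θ s = AutPSL.slMap g τ s := by
  obtain ⟨g, τ, hgτ⟩ := AutPSL.aut_two hp hf hK (AutPSL.psAut θ)
  refine ⟨g, τ, ?_⟩
  have hcen : ∀ s, (AutPSL.slMap g τ s)⁻¹ * θ s ∈ Subgroup.center (Matrix.SpecialLinearGroup (Fin 2) K) := by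
    intro s
    have h1 := congrArg (fun β => β (QuotientGroup.mk s)) hgτ
    simp only [AutPSL.psAut_mk, AutPSL.csAut_mk] at h1
    exact (QuotientGroup.eq.1 h1.symm)
  have hcomm : commutator (Matrix.SpecialLinearGroup (Fin 2) K) ≤
      MonoidHom.eqLocus θ.toMonoidHom (AutPSL.slMap g τ).toMonoidHom := by
    rw [commutator_def, Subgroup.commutator_le]
    intro a _ b _
    change θ ⁅a, b⁆ = AutPSL.slMap g τ ⁅a, b⁆
    have ha : θ a = AutPSL.slMap g τ a * ((AutPSL.slMap g τ a)⁻¹ * θ a) := by group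
    have hb : θ b = AutPSL.slMap g τ b * ((AutPSL.slMap g τ b)⁻¹ * θ b) := by group
    rw [map_commutatorElement, map_commutatorElement, ha, hb, comm_central (hcen a) (hcen b)]
  rw [OrthoFourMinus.sl2_perfect hK4] at hcomm
  intro s
  exact hcomm (Subgroup.mem_top s)

theorem frob_pow_apply (p : ℕ) [Fact p.Prime] {K : Type*} [Field K] [CharP K p] [Finite K] (i : ℕ) (y : K) :
    ((frobeniusEquiv K p) ^ i) y = y ^ (p ^ i) := by
  induction i generalizing y with
  | zero => simp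
  | succ i ih =>
    have h0 : ∀ z : K, frobeniusEquiv K p z = z ^ p := fun _ => rfl
    rw [pow_succ, RingAut.mul_apply, h0, ih, ← pow_mul, pow_succ']

/-- Extension of an automorphism of a subfield. -/
theorem exists_extend {K : Type*} [Field K] [Fintype K] {p f : ℕ} (hp : p.Prime) (hf : 1 ≤ f)
    [CharP K p] (hK : Fintype.card K = p ^ f) (ι : K →+* F) (τ : K ≃+* K) :
    ∃ σ : F ≃+* F, ∀ a, σ (ι a) = ι (τ a) := by
  classical
  haveI : Fact p.Prime := ⟨hp⟩
  haveI : CharP F p := charP_of_injective_ringHom ι.injective p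
  have hτ := AutOrthOut.frob_gen hK hf τ
  haveI : Finite (K ≃+* K) := by
    have hc := Cfsg.Agent.Lib.AutPSL.card_ringAut hK hf
    exact Nat.finite_of_card_ne_zero (by omega)
  have hτ' : τ ∈ Submonoid.powers (frobeniusEquiv K p) :=
    (mem_powers_iff_mem_zpowers).2 hτ
  obtain ⟨k, rfl⟩ := hτ'
  refine ⟨(frobeniusEquiv F p) ^ k, fun a => ?_⟩
  rw [frob_pow_apply, frob_pow_apply, map_pow]

/-- The subfield of `x` with `x ^ q = x`, as a type with the required properties. -/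
theorem exists_subfield (hF : Fintype.card F = q ^ 2) :
    ∃ (K : Subfield F) (_ : Fintype K), Fintype.card K = q := by
  classical
  refine ⟨(frobQ hF).eqLocusField (RingHom.id F), inferInstance, ?_⟩
  rw [← Nat.card_eq_fintype_card]
  exact (Nat.card_congr (Equiv.subtypeEquivRight fun x => Iff.rfl)).trans (HermLines.card_fixed hF)

/-- Matrix form of an automorphism of `SU₂`. -/
theorem aut_su2_mat (hF : Fintype.card F = q ^ 2) (hq : 4 ≤ q) (θ : SU 2 F q ≃* SU 2 F q) :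
    ∃ (M M' : Matrix (Fin 2) (Fin 2) F) (σ : F ≃+* F), M * M' = 1 ∧
      ∀ x : SU 2 F q, (((θ x : SU 2 F q) : Matrix.SpecialLinearGroup (Fin 2) F) : Matrix (Fin 2) (Fin 2) F) =
        M * ((x : Matrix.SpecialLinearGroup (Fin 2) F) : Matrix (Fin 2) (Fin 2) F).map σ * M' := by
  classical
  obtain ⟨K, _, hK⟩ := exists_subfield hF
  set ι : K →+* F := K.subtype with hι
  obtain ⟨P, P', Φ, hPP, hΦ⟩ := exists_Phi hF hK ι
  obtain ⟨p, hpc⟩ := CharP.exists K
  obtain ⟨f, hp, hqf⟩ := FiniteField.card K p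
  have hK4 : 4 ≤ Fintype.card K := by rw [hK]; exact hq
  obtain ⟨g, τ, hgτ⟩ := aut_SL2 hp f.pos hqf hK4 (Φ.trans (θ.trans Φ.symm))
  obtain ⟨σ, hσ⟩ := exists_extend (F := F) hp f.pos hqf ι τ
  have hPP' : P' * P = 1 := mul_eq_one_comm.1 hPP
  have hPσ : P'.map σ * P.map σ = 1 := by
    rw [← Matrix.map_mul, hPP', Matrix.map_one _ (map_zero σ) (map_one σ)]
  have hgg : (g : Matrix (Fin 2) (Fin 2) K) * ((g⁻¹ : GL (Fin 2) K) : Matrix (Fin 2) (Fin 2) K) = 1 := by
    rw [← Units.val_mul, mul_inv_cancel, Units.val_one]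
  have hgι : (g : Matrix (Fin 2) (Fin 2) K).map ι * ((g⁻¹ : GL (Fin 2) K) : Matrix (Fin 2) (Fin 2) K).map ι = 1 := by
    rw [← Matrix.map_mul, hgg, Matrix.map_one _ (map_zero ι) (map_one ι)]
  refine ⟨P * (g : Matrix (Fin 2) (Fin 2) K).map ι * P'.map σ,
    P.map σ * ((g⁻¹ : GL (Fin 2) K) : Matrix (Fin 2) (Fin 2) K).map ι * P', σ, ?_, ?_⟩
  · calc P * (g : Matrix (Fin 2) (Fin 2) K).map ι * P'.map σ *
          (P.map σ * ((g⁻¹ : GL (Fin 2) K) : Matrix (Fin 2) (Fin 2) K).map ι * P')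
        = P * (g : Matrix (Fin 2) (Fin 2) K).map ι * (P'.map σ * P.map σ) *
          ((g⁻¹ : GL (Fin 2) K) : Matrix (Fin 2) (Fin 2) K).map ι * P' := by simp only [Matrix.mul_assoc]
      _ = P * ((g : Matrix (Fin 2) (Fin 2) K).map ι * ((g⁻¹ : GL (Fin 2) K) : Matrix (Fin 2) (Fin 2) K).map ι) * P' := by
          rw [hPσ, Matrix.mul_one]; simp only [Matrix.mul_assoc]
      _ = 1 := by rw [hgι, Matrix.mul_one, hPP]
  · intro x
    obtain ⟨s, rfl⟩ := Φ.surjective x
    have h1 : θ (Φ s) = Φ (AutPSL.slMap g τ s) := by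
      rw [← hgτ s]
      simp
    rw [h1, hΦ, hΦ, AutPSL.slMap_coe]
    set S := (s : Matrix (Fin 2) (Fin 2) K) with hS
    have h2 : (S.map ι).map σ = (S.map τ).map ι := by
      ext a b
      simp only [Matrix.map_apply]
      exact hσ _
    rw [Matrix.map_mul, Matrix.map_mul, Matrix.map_mul, Matrix.map_mul, h2]
    calc P * ((g : Matrix (Fin 2) (Fin 2) K).map ι * (S.map τ).map ι *
            ((g⁻¹ : GL (Fin 2) K) : Matrix (Fin 2) (Fin 2) K).map ι) * P'
        = P * (g : Matrix (Fin 2) (Fin 2) K).map ι * 1 * (S.map τ).map ι * 1 *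
            ((g⁻¹ : GL (Fin 2) K) : Matrix (Fin 2) (Fin 2) K).map ι * P' := by
          simp only [Matrix.mul_one, Matrix.mul_assoc]
      _ = _ := by
          rw [← hPσ]
          simp only [Matrix.mul_assoc]

end Phi

/-- The diagonal torus of `SU₂`. -/
def T0 (F : Type*) [Field F] [Fintype F] (q : ℕ) : Subgroup (SU 2 F q) where
  carrier := {A | ((A : Matrix.SpecialLinearGroup (Fin 2) F) : Matrix (Fin 2) (Fin 2) F) 1 0 = 0}
  mul_mem' := by
    intro a b ha hb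
    change (((a : Matrix.SpecialLinearGroup (Fin 2) F) : Matrix (Fin 2) (Fin 2) F) *
      ((b : Matrix.SpecialLinearGroup (Fin 2) F) : Matrix (Fin 2) (Fin 2) F)) 1 0 = 0
    rw [Matrix.mul_apply, Fin.sum_univ_two]
    have ha' : ((a : Matrix.SpecialLinearGroup (Fin 2) F) : Matrix (Fin 2) (Fin 2) F) 1 0 = 0 := ha
    have hb' : ((b : Matrix.SpecialLinearGroup (Fin 2) F) : Matrix (Fin 2) (Fin 2) F) 1 0 = 0 := hb
    rw [ha', hb']
    ring
  one_mem' := by
    change ((1 : Matrix (Fin 2) (Fin 2) F)) 1 0 = 0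
    simp
  inv_mem' := by
    intro a ha
    have ha' : ((a : Matrix.SpecialLinearGroup (Fin 2) F) : Matrix (Fin 2) (Fin 2) F) 1 0 = 0 := ha
    change (Matrix.adjugate ((a : Matrix.SpecialLinearGroup (Fin 2) F) : Matrix (Fin 2) (Fin 2) F)) 1 0 = 0
    rw [Matrix.adjugate_fin_two]
    simp [ha']

theorem mem_T0 (A : SU 2 F q) :
    A ∈ T0 F q ↔ ((A : Matrix.SpecialLinearGroup (Fin 2) F) : Matrix (Fin 2) (Fin 2) F) 1 0 = 0 := Iff.rfl

section Torus

variable (hF : Fintype.card F = q ^ 2)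
include hF

theorem dm_mat (μ : F) (hμ : μ * μ ^ q = 1) :
    ((dm hF μ hμ : Matrix.SpecialLinearGroup (Fin 2) F) : Matrix (Fin 2) (Fin 2) F) = !![μ, 0; 0, μ ^ q] := by
  have hq := two_le hF
  have h : ((dm hF μ hμ : Matrix.SpecialLinearGroup (Fin 2) F) : Matrix (Fin 2) (Fin 2) F) =
      !![μ, -(0:F) ^ q; 0, μ ^ q] := rfl
  rw [h, zero_pow (by omega), neg_zero]

theorem dm_mem (μ : F) (hμ : μ * μ ^ q = 1) : dm hF μ hμ ∈ T0 F q := by
  rw [mem_T0, dm_mat]
  rfl

theorem eq_dm {x : SU 2 F q} (hx : x ∈ T0 F q) : ∃ (μ : F) (hμ : μ * μ ^ q = 1), x = dm hF μ hμ := by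
  have hq := two_le hF
  obtain ⟨h1, h2⟩ := PSUIdx.su2_entries hF x
  set M := ((x : Matrix.SpecialLinearGroup (Fin 2) F) : Matrix (Fin 2) (Fin 2) F) with hM
  have h10 : M 1 0 = 0 := hx
  have h01 : M 0 1 = 0 := by
    rw [h10] at h2
    have h3 : M 0 1 ^ q = 0 := by linear_combination h2
    exact pow_eq_zero_iff (by omega) |>.1 h3
  have hdet : M 0 0 * M 1 1 - M 0 1 * M 1 0 = 1 := by
    have := (x : Matrix.SpecialLinearGroup (Fin 2) F).2
    rw [Matrix.det_fin_two] at this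
    exact this
  have hμ : M 0 0 * M 0 0 ^ q = 1 := by
    rw [h1, h01] at hdet
    linear_combination hdet
  refine ⟨M 0 0, hμ, ?_⟩
  apply Subtype.ext
  apply Subtype.ext
  change M = _
  rw [dm_mat]
  ext i j
  fin_cases i <;> fin_cases j
  · rfl
  · exact h01
  · exact h10
  · exact h1

/-- The norm of the scalar in a formula for an automorphism. -/
theorem nrm_of_formula {θ : SU 2 F q → SU 2 F q} {σ : F ≃+* F} {μ : F} (hμ : μ ≠ 0)
    (h : ∀ (x : SU 2 F q) (i j : Fin 2),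
      ((θ x : Matrix.SpecialLinearGroup (Fin 2) F) : Matrix (Fin 2) (Fin 2) F) i j =
        (![μ, 1] : Fin 2 → F) i * σ (((x : Matrix.SpecialLinearGroup (Fin 2) F) : Matrix (Fin 2) (Fin 2) F) i j) *
          ((![μ, 1] : Fin 2 → F) j)⁻¹) : μ * μ ^ q = 1 := by
  have hq := two_le hF
  have h01 : (0 : F) * (0 : F) ^ q + 1 * 1 ^ q = 1 := by simp
  set x := mk2 hF 0 1 h01 with hx
  have hxm : ((x : Matrix.SpecialLinearGroup (Fin 2) F) : Matrix (Fin 2) (Fin 2) F) = !![0, -(1:F) ^ q; 1, (0:F) ^ q] := rfl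
  obtain ⟨-, h2⟩ := PSUIdx.su2_entries hF (θ x)
  have e10 := h x 1 0
  have e01 := h x 0 1
  rw [hxm] at e10 e01
  simp only [Matrix.of_apply, Matrix.cons_val', Matrix.cons_val_zero, Matrix.cons_val_one, Matrix.cons_val_fin_one,
    one_pow, map_neg, map_one, one_mul, inv_one, mul_one, mul_neg] at e10 e01
  rw [e10, e01, neg_pow_q hF] at h2
  simp only [neg_neg] at h2
  rw [← h2]
  exact mul_inv_cancel₀ hμ

/-- Automorphisms of `SU₂` normalizing the torus, in entries. -/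
theorem aut_su2_T0 (hq : 4 ≤ q) (θ : SU 2 F q ≃* SU 2 F q) (hθ : ∀ x ∈ T0 F q, θ x ∈ T0 F q) :
    ∃ (μ : F) (σ : F ≃+* F), μ * μ ^ q = 1 ∧ ∀ (x : SU 2 F q) (i j : Fin 2),
      ((θ x : Matrix.SpecialLinearGroup (Fin 2) F) : Matrix (Fin 2) (Fin 2) F) i j =
        (![μ, 1] : Fin 2 → F) i * σ (((x : Matrix.SpecialLinearGroup (Fin 2) F) : Matrix (Fin 2) (Fin 2) F) i j) *
          ((![μ, 1] : Fin 2 → F) j)⁻¹ := by
  obtain ⟨M, M', σ, hMM, hM⟩ := aut_su2_mat hF hq θ
  have hM'M : M' * M = 1 := mul_eq_one_comm.1 hMM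
  have hint : ∀ x : SU 2 F q, ((θ x : Matrix.SpecialLinearGroup (Fin 2) F) : Matrix (Fin 2) (Fin 2) F) * M =
      M * ((x : Matrix.SpecialLinearGroup (Fin 2) F) : Matrix (Fin 2) (Fin 2) F).map σ := by
    intro x
    rw [hM, Matrix.mul_assoc, hM'M, Matrix.mul_one]
  obtain ⟨ζ, hζ, hζ2⟩ := UnitarySU.exists_nrm_one_sq_ne_one hF
  have hζ' : ζ * ζ ^ q = 1 := hζ
  have hne : ζ ≠ ζ ^ q := by
    intro h
    apply hζ2
    rw [sq]
    nth_rw 2 [h]
    exact hζ'
  set μ₀ := σ.symm ζ with hμ₀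
  have hσμ₀ : σ μ₀ = ζ := by simp [hμ₀]
  have hμ₀' : μ₀ * μ₀ ^ q = 1 := by
    apply σ.injective
    rw [map_mul, map_pow, hσμ₀, hζ', map_one]
  obtain ⟨ν, hν, hx⟩ := eq_dm hF (hθ _ (dm_mem hF μ₀ hμ₀'))
  have h := hint (dm hF μ₀ hμ₀')
  rw [hx, dm_mat, dm_mat] at h
  have hq0 : q ≠ 0 := by have := two_le hF; omega
  have e00 := congrFun (congrFun h 0) 0
  have e01 := congrFun (congrFun h 0) 1
  have e10 := congrFun (congrFun h 1) 0
  have e11 := congrFun (congrFun h 1) 1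
  simp only [Matrix.mul_apply, Fin.sum_univ_two, Matrix.map_apply, Matrix.of_apply, Matrix.cons_val',
    Matrix.cons_val_zero, Matrix.cons_val_one, Matrix.cons_val_fin_one, map_zero, map_pow, hσμ₀,
    zero_mul, mul_zero, add_zero, zero_add] at e00 e01 e10 e11
  have hdet : M 0 0 * M 1 1 - M 0 1 * M 1 0 ≠ 0 := by
    intro h0
    have h1 := congrArg Matrix.det hMM
    rw [Matrix.det_mul, Matrix.det_one, Matrix.det_fin_two M, h0, zero_mul] at h1
    exact zero_ne_one h1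
  have h0c : M 0 0 = 0 ∨ M 0 1 = 0 := by
    by_contra hc
    push Not at hc
    apply hne
    have h1 : ν = ζ := mul_right_cancel₀ hc.1 (by rw [e00, mul_comm])
    have h2 : ν = ζ ^ q := mul_right_cancel₀ hc.2 (by rw [e01, mul_comm])
    exact h1.symm.trans h2
  have h1c : M 1 0 = 0 ∨ M 1 1 = 0 := by
    by_contra hc
    push Not at hc
    apply hne
    have h1 : ν ^ q = ζ := mul_right_cancel₀ hc.1 (by rw [e10, mul_comm])
    have h2 : ν ^ q = ζ ^ q := mul_right_cancel₀ hc.2 (by rw [e11, mul_comm])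
    exact h1.symm.trans h2
  -- entries of `M * M'`
  have m00 := congrFun (congrFun hMM 0) 0
  have m01 := congrFun (congrFun hMM 0) 1
  have m10 := congrFun (congrFun hMM 1) 0
  have m11 := congrFun (congrFun hMM 1) 1
  simp only [Matrix.mul_apply, Fin.sum_univ_two, Matrix.one_apply_eq] at m00 m11
  simp only [Matrix.mul_apply, Fin.sum_univ_two, Matrix.one_apply_ne (show (0 : Fin 2) ≠ 1 by decide),
    Matrix.one_apply_ne (show (1 : Fin 2) ≠ 0 by decide)] at m01 m10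
  have hform : ∀ x : SU 2 F q, ∀ i j : Fin 2,
      ((θ x : Matrix.SpecialLinearGroup (Fin 2) F) : Matrix (Fin 2) (Fin 2) F) i j =
        (M i 0 * σ (x.1.1 0 0) + M i 1 * σ (x.1.1 1 0)) * M' 0 j +
        (M i 0 * σ (x.1.1 0 1) + M i 1 * σ (x.1.1 1 1)) * M' 1 j := by
    intro x i j
    rw [hM]
    simp only [Matrix.mul_apply, Fin.sum_univ_two, Matrix.map_apply]
  rcases h0c with h00 | h01
  · rcases h1c with h10 | h11
    · exfalso
      apply hdet
      rw [h00, h10]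
      ring
    · -- antidiagonal
      have h01ne : M 0 1 ≠ 0 := by
        intro h0
        apply hdet
        rw [h00, h0]
        ring
      have h10ne : M 1 0 ≠ 0 := by
        intro h0
        apply hdet
        rw [h00, h0]
        ring
      rw [h00, zero_mul, zero_add] at m00 m01
      rw [h11, zero_mul, add_zero] at m10 m11
      have hM'11 : M' 1 1 = 0 := (mul_eq_zero.1 m01).resolve_left h01ne
      have hM'00 : M' 0 0 = 0 := (mul_eq_zero.1 m10).resolve_left h10ne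
      have hM'10 : M' 1 0 = (M 0 1)⁻¹ := eq_inv_of_mul_eq_one_right m00
      have hM'01 : M' 0 1 = (M 1 0)⁻¹ := eq_inv_of_mul_eq_one_right m11
      set μ := -(M 0 1 / M 1 0) with hμdef
      have hμ0 : μ ≠ 0 := neg_ne_zero.2 (div_ne_zero h01ne h10ne)
      have key : ∀ (x : SU 2 F q) (i j : Fin 2),
          ((θ x : Matrix.SpecialLinearGroup (Fin 2) F) : Matrix (Fin 2) (Fin 2) F) i j =
            (![μ, 1] : Fin 2 → F) i * (σ.trans (AutPSU.tauE hF)) (((x : Matrix.SpecialLinearGroup (Fin 2) F) : Matrix (Fin 2) (Fin 2) F) i j) *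
              ((![μ, 1] : Fin 2 → F) j)⁻¹ := by
        intro x
        obtain ⟨hx1, hx2⟩ := PSUIdx.su2_entries hF x
        have hσ1 : σ (x.1.1 1 1) = σ (x.1.1 0 0) ^ q := by
          rw [hx1, map_pow]
        have hσ2 : σ (x.1.1 1 0) = - σ (x.1.1 0 1) ^ q := by
          rw [hx2, map_neg, map_pow]
        refine Fin.forall_fin_two.2 ⟨Fin.forall_fin_two.2 ⟨?_, ?_⟩, Fin.forall_fin_two.2 ⟨?_, ?_⟩⟩ <;>
          rw [hform] <;>
          simp only [RingEquiv.trans_apply, AutPSU.tauE_apply, Matrix.cons_val_zero, Matrix.cons_val_one, Matrix.cons_val_fin_one,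
            h00, h11, hM'00, hM'11, hM'10, hM'01, hσ1, hσ2, neg_pow_q hF, HermCount.pow_q_pow_q hF, inv_one] <;>
          (try simp only [hμdef]) <;> field_simp <;> ring
      exact ⟨μ, σ.trans (AutPSU.tauE hF), nrm_of_formula hF hμ0 key, key⟩
  · rcases h1c with h10 | h11
    · -- diagonal
      have h00ne : M 0 0 ≠ 0 := by
        intro h0
        apply hdet
        rw [h01, h0]
        ring
      have h11ne : M 1 1 ≠ 0 := by
        intro h0
        apply hdet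
        rw [h01, h0]
        ring
      rw [h01, zero_mul, add_zero] at m00 m01
      rw [h10, zero_mul, zero_add] at m10 m11
      have hM'10 : M' 1 0 = 0 := (mul_eq_zero.1 m10).resolve_left h11ne
      have hM'01 : M' 0 1 = 0 := (mul_eq_zero.1 m01).resolve_left h00ne
      have hM'00 : M' 0 0 = (M 0 0)⁻¹ := eq_inv_of_mul_eq_one_right m00
      have hM'11 : M' 1 1 = (M 1 1)⁻¹ := eq_inv_of_mul_eq_one_right m11
      set μ := M 0 0 / M 1 1 with hμdef
      have hμ0 : μ ≠ 0 := div_ne_zero h00ne h11ne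
      have key : ∀ (x : SU 2 F q) (i j : Fin 2),
          ((θ x : Matrix.SpecialLinearGroup (Fin 2) F) : Matrix (Fin 2) (Fin 2) F) i j =
            (![μ, 1] : Fin 2 → F) i * σ (((x : Matrix.SpecialLinearGroup (Fin 2) F) : Matrix (Fin 2) (Fin 2) F) i j) *
              ((![μ, 1] : Fin 2 → F) j)⁻¹ := by
        intro x
        refine Fin.forall_fin_two.2 ⟨Fin.forall_fin_two.2 ⟨?_, ?_⟩, Fin.forall_fin_two.2 ⟨?_, ?_⟩⟩ <;>
          rw [hform] <;>
          simp only [Matrix.cons_val_zero, Matrix.cons_val_one, Matrix.cons_val_fin_one,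
            h01, h10, hM'00, hM'11, hM'10, hM'01, inv_one] <;>
          (try simp only [hμdef]) <;> field_simp <;> ring
      exact ⟨μ, σ, nrm_of_formula hF hμ0 key, key⟩
    · exfalso
      apply hdet
      rw [h01, h11]
      ring

end Torus

section Ext

/-- A diagonal invertible matrix. -/
def dgL {n : ℕ} (d : Fin n → F) (hd : ∀ i, d i ≠ 0) : GL (Fin n) F where
  val := Matrix.diagonal d
  inv := Matrix.diagonal fun i => (d i)⁻¹
  val_inv := by
    rw [Matrix.diagonal_mul_diagonal, ← Matrix.diagonal_one]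
    congr 1
    funext i
    exact mul_inv_cancel₀ (hd i)
  inv_val := by
    rw [Matrix.diagonal_mul_diagonal, ← Matrix.diagonal_one]
    congr 1
    funext i
    exact inv_mul_cancel₀ (hd i)

theorem dgL_mem {n : ℕ} (d : Fin n → F) (hd : ∀ i, d i ≠ 0) (hd' : ∀ i, d i * d i ^ q = 1) :
    dgL d hd ∈ GU n F q :=
  fun u v => UnitarySU.diagonal_unitary (fun i => hd' i) u v

theorem semiMat_dgL {n : ℕ} (d : Fin n → F) (hd : ∀ i, d i ≠ 0) (σ : F ≃+* F) (s : Matrix (Fin n) (Fin n) F)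
    (r t : Fin n) : AutPSU.semiMat (dgL d hd) σ s r t = d r * σ (s r t) * (d t)⁻¹ := by
  have h1 : ((dgL d hd : GL (Fin n) F) : Matrix (Fin n) (Fin n) F) = Matrix.diagonal d := rfl
  have h2 : (((dgL d hd)⁻¹ : GL (Fin n) F) : Matrix (Fin n) (Fin n) F) = Matrix.diagonal fun i => (d i)⁻¹ := rfl
  rw [AutPSU.semiMat, h1, h2, Matrix.mul_diagonal, Matrix.diagonal_mul]
  rfl

variable (hF : Fintype.card F = q ^ 2)
include hF

theorem bl0_mat (A : SU 2 F q) :
    ((bl hF (i := 0) (k := 2) (n := 3) (by norm_num) A : Matrix.SpecialLinearGroup (Fin 3) F) : Matrix (Fin 3) (Fin 3) F) =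
      !![A.1.1 0 0, A.1.1 0 1, 0; A.1.1 1 0, A.1.1 1 1, 0; 0, 0, 1] := by
  ext r s
  change embM _ _ r s = _
  fin_cases r <;> fin_cases s <;>
    simp [embM, JM, RM, sh, Matrix.mul_apply, Fin.sum_univ_succ, Matrix.one_apply, Fin.ext_iff]

theorem bl1_mat (A : SU 2 F q) :
    ((bl hF (i := 1) (k := 2) (n := 3) (by norm_num) A : Matrix.SpecialLinearGroup (Fin 3) F) : Matrix (Fin 3) (Fin 3) F) =
      !![1, 0, 0; 0, A.1.1 0 0, A.1.1 0 1; 0, A.1.1 1 0, A.1.1 1 1] := by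
  have k0 : sh (i := 1) (k := 2) (n := 3) (by norm_num) 0 = 1 := rfl
  have k1 : sh (i := 1) (k := 2) (n := 3) (by norm_num) 1 = 2 := rfl
  ext r s
  change embM _ _ r s = _
  simp only [embM, Matrix.add_apply, Matrix.mul_apply, Fin.sum_univ_two, JM, RM, Matrix.of_apply, k0, k1, Matrix.sub_apply]
  fin_cases r <;> fin_cases s <;> simp

/-- Extension to `SU₃` of an automorphism of `SU₂` normalizing the torus. -/
theorem aut_extend (hq : 4 ≤ q) (θ : SU 2 F q ≃* SU 2 F q) (hθ : ∀ x ∈ T0 F q, θ x ∈ T0 F q) :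
    ∃ (A : SU 3 F q ≃* SU 3 F q) (η : SU 2 F q ≃* SU 2 F q), (∀ x ∈ T0 F q, η x ∈ T0 F q) ∧
      (∀ x, A (bl hF (i := 0) (by norm_num) x) = bl hF (i := 0) (by norm_num) (θ x)) ∧
      (∀ x, A (bl hF (i := 1) (by norm_num) x) = bl hF (i := 1) (by norm_num) (η x)) := by
  obtain ⟨μ, σ, hμ, hform⟩ := aut_su2_T0 hF hq θ hθ
  have hμ0 : μ ≠ 0 := by
    rintro rfl
    rw [zero_mul] at hμ
    exact zero_ne_one hμ
  set d : Fin 3 → F := ![μ, 1, 1] with hd
  have hd0 : ∀ i, d i ≠ 0 := by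
    intro i
    fin_cases i <;> simp [hd, hμ0]
  have hd1 : ∀ i, d i * d i ^ q = 1 := by
    intro i
    fin_cases i <;> simp [hd, hμ]
  have hg := dgL_mem (q := q) d hd0 hd1
  have hg1 : (1 : GL (Fin 2) F) ∈ GU 2 F q := one_mem _
  have hη : ∀ x : SU 2 F q, ∀ i j, ((AutPSU.semiEquiv hg1 σ x : SU 2 F q)).1.1 i j = σ (x.1.1 i j) := by
    intro x i j
    change AutPSU.semiMat 1 σ x.1.1 i j = _
    simp [AutPSU.semiMat]
  refine ⟨AutPSU.semiEquiv hg σ, AutPSU.semiEquiv hg1 σ, ?_, ?_, ?_⟩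
  · intro x hx
    rw [mem_T0] at hx ⊢
    rw [hη, hx, map_zero]
  · intro x
    apply Subtype.ext
    apply Subtype.ext
    change AutPSU.semiMat (dgL d hd0) σ _ = _
    rw [bl0_mat, bl0_mat]
    ext r s
    rw [semiMat_dgL]
    fin_cases r <;> fin_cases s <;> simp [hd, hform x, hμ0]
  · intro x
    apply Subtype.ext
    apply Subtype.ext
    change AutPSU.semiMat (dgL d hd0) σ _ = _
    rw [bl1_mat, bl1_mat]
    ext r s
    rw [semiMat_dgL]
    fin_cases r <;> fin_cases s <;> simp [hd, hη, hμ0]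

end Ext

end Cfsg.Agent.Lib.Phan
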