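import Mathlib
import Cfsg.Agent.Lib.SUGen
import Cfsg.Agent.Lib.PSUIdxD

/-!
# Block embeddings of special unitary groups
-/

set_option autoImplicit false
set_option linter.unusedSectionVars false
set_option linter.unusedSimpArgs false
set_option linter.unusedVariables false

namespace Cfsg.Agent.Lib.Phan

/-- Matrix multiplication, possibly rectangular. -/
local notation:70 a:70 " ⬝ₘ " b:71 => @HMul.hMul _ _ _ Matrix.instHMulOfFintypeOfMulOfAddCommMonoid a b

open Matrix Cfsg Cfsg.Agent.Lib.HermForm Cfsg.Agent.Lib.SUGen Cfsg.Agent.Lib.FFNorm Cfsg.Agent.Lib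

/-- Shift of coordinates. -/
def sh {i k n : ℕ} (h : i + k ≤ n) : Fin k → Fin n := fun a => ⟨i + a.1, by have := a.2; omega⟩

theorem sh_val {i k n : ℕ} (h : i + k ≤ n) (a : Fin k) : (sh h a : ℕ) = i + a.1 := rfl

theorem sh_inj {i k n : ℕ} (h : i + k ≤ n) : Function.Injective (sh h) := by
  intro a b hab
  have := congrArg Fin.val hab
  simp only [sh_val] at this
  exact Fin.ext (by omega)

theorem mem_range_sh {i k n : ℕ} (h : i + k ≤ n) (r : Fin n) :
    r ∈ Set.range (sh h) ↔ i ≤ r.1 ∧ r.1 < i + k := by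
  constructor
  · rintro ⟨a, rfl⟩
    simp only [sh_val]
    have := a.2
    omega
  · rintro ⟨h1, h2⟩
    exact ⟨⟨r.1 - i, by omega⟩, Fin.ext (by simp only [sh_val]; omega)⟩

theorem sh_comp {i j k l n : ℕ} (h : i + k ≤ n) (h' : j + l ≤ k) (h'' : i + j + l ≤ n) :
    sh h ∘ sh h' = sh h'' := by
  funext a
  exact Fin.ext (by simp only [Function.comp, sh_val]; omega)

/-- The shift by one coordinate. -/
abbrev shR (m : ℕ) : Fin m → Fin (m + 1) := sh (i := 1) (k := m) (n := m + 1) (by omega)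

variable {F : Type*} [Field F] [Fintype F] {q k l n : ℕ}

section Mat

variable (κ : Fin k → Fin n)

/-- Restriction as a matrix. -/
def RM : Matrix (Fin k) (Fin n) F := Matrix.of fun a r => if r = κ a then 1 else 0

/-- Extension by zero as a matrix. -/
def JM : Matrix (Fin n) (Fin k) F := Matrix.of fun r a => if r = κ a then 1 else 0

theorem RM_mulVec (x : Fin n → F) : RM κ *ᵥ x = x ∘ κ := by
  ext a
  simp [RM, Matrix.mulVec, dotProduct]

/-- Extension by zero. -/
def ex (y : Fin k → F) : Fin n → F := JM κ *ᵥ y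

theorem ex_apply (y : Fin k → F) (r : Fin n) : ex κ y r = ∑ a, if r = κ a then y a else 0 := by
  simp [ex, JM, Matrix.mulVec, dotProduct]

theorem ex_add (y y' : Fin k → F) : ex κ (y + y') = ex κ y + ex κ y' := Matrix.mulVec_add _ _ _

theorem ex_sub (y y' : Fin k → F) : ex κ (y - y') = ex κ y - ex κ y' := Matrix.mulVec_sub _ _ _

theorem ex_smul (c : F) (y : Fin k → F) : ex κ (c • y) = c • ex κ y := Matrix.mulVec_smul _ _ _

theorem ex_zero : ex κ (0 : Fin k → F) = 0 := Matrix.mulVec_zero _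

variable {κ}

theorem RM_mul_JM (hκ : Function.Injective κ) : (RM κ ⬝ₘ JM κ : Matrix (Fin k) (Fin k) F) = 1 := by
  ext a b
  simp only [RM, JM, Matrix.mul_apply, Matrix.of_apply, Matrix.one_apply]
  rw [Finset.sum_eq_single (κ a)]
  · simp [hκ.eq_iff]
  · intro r _ hr
    simp [hr]
  · simp

theorem ex_comp (hκ : Function.Injective κ) (y : Fin k → F) : ex κ y ∘ κ = y := by
  rw [← RM_mulVec, ex, Matrix.mulVec_mulVec, RM_mul_JM hκ, Matrix.one_mulVec]

theorem ex_self (hκ : Function.Injective κ) (y : Fin k → F) (a : Fin k) : ex κ y (κ a) = y a :=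
  congrFun (ex_comp hκ y) a

theorem ex_off {r : Fin n} (hr : r ∉ Set.range κ) (y : Fin k → F) : ex κ y r = 0 := by
  rw [ex_apply]
  refine Finset.sum_eq_zero fun a _ => ?_
  rw [if_neg]
  rintro rfl
  exact hr ⟨a, rfl⟩

theorem ex_inj (hκ : Function.Injective κ) {y y' : Fin k → F} (h : ex κ y = ex κ y') : y = y' := by
  rw [← ex_comp hκ y, h, ex_comp hκ]

/-- A vector vanishing off the range of `κ` is an extension. -/
theorem eq_ex_of_off (hκ : Function.Injective κ) {x : Fin n → F} (hx : ∀ r, r ∉ Set.range κ → x r = 0) :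
    x = ex κ (x ∘ κ) := by
  ext r
  by_cases hr : r ∈ Set.range κ
  · obtain ⟨a, rfl⟩ := hr
    rw [ex_self hκ]
    rfl
  · rw [hx r hr, ex_off hr]

theorem ex_single (hκ : Function.Injective κ) (a : Fin k) (c : F) :
    ex κ (Pi.single a c) = Pi.single (κ a) c := by
  ext r
  by_cases hr : r ∈ Set.range κ
  · obtain ⟨b, rfl⟩ := hr
    simp only [ex_self hκ, Pi.single_apply, hκ.eq_iff]
  · rw [ex_off hr, Pi.single_apply, if_neg]
    rintro rfl
    exact hr ⟨a, rfl⟩

theorem herm_ex_left (y : Fin k → F) (x : Fin n → F) :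
    hermForm n F q (ex κ y) x = hermForm k F q y (x ∘ κ) := by
  simp only [hermForm, ex_apply, Finset.sum_mul]
  rw [Finset.sum_comm]
  refine Finset.sum_congr rfl fun a _ => ?_
  rw [Finset.sum_eq_single (κ a)]
  · simp
  · intro r _ hr
    simp [hr]
  · simp

theorem herm_ex_right (hF : Fintype.card F = q ^ 2) (x : Fin n → F) (y : Fin k → F) :
    hermForm n F q x (ex κ y) = hermForm k F q (x ∘ κ) y := by
  rw [← hermForm_conj hF, herm_ex_left, hermForm_conj hF]

theorem herm_ex_ex (hκ : Function.Injective κ) (y y' : Fin k → F) :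
    hermForm n F q (ex κ y) (ex κ y') = hermForm k F q y y' := by
  rw [herm_ex_left, ex_comp hκ]

/-- `1 ⊕ A` on the coordinates `κ`. -/
def embM (κ : Fin k → Fin n) (A : Matrix (Fin k) (Fin k) F) : Matrix (Fin n) (Fin n) F :=
  1 + JM κ ⬝ₘ (A - 1) ⬝ₘ RM κ

theorem embM_mulVec (A : Matrix (Fin k) (Fin k) F) (x : Fin n → F) :
    embM κ A *ᵥ x = x + ex κ (A *ᵥ (x ∘ κ) - x ∘ κ) := by
  rw [embM, Matrix.add_mulVec, Matrix.one_mulVec, ex, ← RM_mulVec, ← Matrix.mulVec_mulVec,
    ← Matrix.mulVec_mulVec, Matrix.sub_mulVec, Matrix.one_mulVec]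

theorem embM_mul (hκ : Function.Injective κ) (A B : Matrix (Fin k) (Fin k) F) :
    embM κ (A * B) = embM κ A * embM κ B := by
  have h := RM_mul_JM (F := F) hκ
  simp only [embM, Matrix.add_mul, Matrix.mul_add, Matrix.one_mul, Matrix.mul_one]
  have e : JM κ ⬝ₘ (A - 1) ⬝ₘ RM κ * (JM κ ⬝ₘ (B - 1) ⬝ₘ RM κ) = JM κ ⬝ₘ ((A - 1) * (B - 1)) ⬝ₘ RM κ := by
    calc JM κ ⬝ₘ (A - 1) ⬝ₘ RM κ * (JM κ ⬝ₘ (B - 1) ⬝ₘ RM κ)
        = JM κ ⬝ₘ (A - 1) ⬝ₘ (RM κ ⬝ₘ JM κ) ⬝ₘ (B - 1) ⬝ₘ RM κ := by simp only [Matrix.mul_assoc]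
      _ = _ := by rw [h, Matrix.mul_one]; simp only [Matrix.mul_assoc]
  rw [e]
  have e2 : A * B - 1 = (A - 1) + (B - 1) + (A - 1) * (B - 1) := by noncomm_ring
  rw [e2]
  simp only [Matrix.mul_add, Matrix.add_mul]
  abel

theorem embM_one : embM κ (1 : Matrix (Fin k) (Fin k) F) = 1 := by
  simp [embM]

theorem embM_det (hκ : Function.Injective κ) (A : Matrix (Fin k) (Fin k) F) :
    (embM κ A).det = A.det := by
  have h := RM_mul_JM (F := F) hκ
  rw [embM, Matrix.mul_assoc, Matrix.det_one_add_mul_comm]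
  have e : (A - 1) ⬝ₘ RM κ ⬝ₘ JM κ = A - 1 := by rw [Matrix.mul_assoc, h, Matrix.mul_one]
  rw [e]
  simp

theorem embM_herm (hF : Fintype.card F = q ^ 2) (hκ : Function.Injective κ) {A : Matrix (Fin k) (Fin k) F}
    (hA : ∀ u v, hermForm k F q (A *ᵥ u) (A *ᵥ v) = hermForm k F q u v) (x x' : Fin n → F) :
    hermForm n F q (embM κ A *ᵥ x) (embM κ A *ᵥ x') = hermForm n F q x x' := by
  rw [embM_mulVec, embM_mulVec]
  set p := x ∘ κ with hp
  set p' := x' ∘ κ with hp'
  set a := A *ᵥ p - p with ha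
  set a' := A *ᵥ p' - p' with ha'
  have h1 : hermForm k F q (A *ᵥ p) (A *ᵥ p') = hermForm k F q p p' := hA _ _
  have e1 : A *ᵥ p = p + a := by rw [ha]; abel
  have e2 : A *ᵥ p' = p' + a' := by rw [ha']; abel
  rw [e1, e2, hermForm_add_left, hermForm_add_right hF, hermForm_add_right hF] at h1
  rw [hermForm_add_left, hermForm_add_right hF, hermForm_add_right hF, herm_ex_right hF, herm_ex_left,
    herm_ex_ex hκ, ← hp, ← hp']
  linear_combination h1

end Mat

section Emb

variable {κ : Fin k → Fin n}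

/-- The block embedding. -/
def emb (hF : Fintype.card F = q ^ 2) (hκ : Function.Injective κ) : SU k F q →* SU n F q where
  toFun A := ⟨⟨embM κ ((A : Matrix.SpecialLinearGroup (Fin k) F) : Matrix (Fin k) (Fin k) F), by
      rw [embM_det hκ]
      exact (A : Matrix.SpecialLinearGroup (Fin k) F).2⟩, fun x y => embM_herm hF hκ (fun u v => A.2 u v) x y⟩
  map_one' := by
    apply Subtype.ext
    apply Subtype.ext
    exact embM_one
  map_mul' A B := by
    apply Subtype.ext
    apply Subtype.ext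
    exact embM_mul hκ _ _

variable (hF : Fintype.card F = q ^ 2) (hκ : Function.Injective κ)

theorem emb_coe (A : SU k F q) :
    (((emb hF hκ A : SU n F q) : Matrix.SpecialLinearGroup (Fin n) F) : Matrix (Fin n) (Fin n) F) =
      embM κ ((A : Matrix.SpecialLinearGroup (Fin k) F) : Matrix (Fin k) (Fin k) F) := rfl

theorem act_emb (A : SU k F q) (x : Fin n → F) :
    act (emb hF hκ A) x = x + ex κ (act A (x ∘ κ) - x ∘ κ) := embM_mulVec _ _

theorem act_emb_ex (A : SU k F q) (y : Fin k → F) :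
    act (emb hF hκ A) (ex κ y) = ex κ (act A y) := by
  rw [act_emb, ex_comp hκ, ex_sub]
  abel

theorem act_emb_off (A : SU k F q) {x : Fin n → F} (hx : x ∘ κ = 0) : act (emb hF hκ A) x = x := by
  rw [act_emb, hx, act_zero, sub_zero, ex_zero, add_zero]

theorem act_emb_comp (A : SU k F q) (x : Fin n → F) : act (emb hF hκ A) x ∘ κ = act A (x ∘ κ) := by
  rw [act_emb]
  ext a
  simp only [Function.comp, Pi.add_apply, ex_self hκ, Pi.sub_apply]
  ring

theorem act_emb_apply_off (A : SU k F q) (x : Fin n → F) {r : Fin n} (hr : r ∉ Set.range κ) :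
    act (emb hF hκ A) x r = x r := by
  rw [act_emb, Pi.add_apply, ex_off hr, add_zero]

theorem act_emb_single_off (A : SU k F q) {r : Fin n} (hr : r ∉ Set.range κ) (c : F) :
    act (emb hF hκ A) (Pi.single r c) = Pi.single r c := by
  apply act_emb_off
  ext a
  simp only [Function.comp, Pi.single_apply, Pi.zero_apply]
  rw [if_neg]
  rintro rfl
  exact hr ⟨a, rfl⟩

theorem emb_injective : Function.Injective (emb hF hκ : SU k F q →* SU n F q) := by
  intro A B h
  apply SU_ext
  intro y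
  apply ex_inj hκ
  rw [← act_emb_ex hF hκ, ← act_emb_ex hF hκ, h]

/-- The stabilizer of the coordinates off the range. -/
theorem exists_of_fix {B : SU n F q}
    (hB : ∀ r, r ∉ Set.range κ → act B (Pi.single r 1) = Pi.single r 1) :
    ∃ A : SU k F q, emb hF hκ A = B := by
  classical
  -- `B` preserves vectors supported on the range
  have hsupp : ∀ y : Fin k → F, ∀ r, r ∉ Set.range κ → act B (ex κ y) r = 0 := by
    intro y r hr
    have h1 : hermForm n F q (act B (ex κ y)) (act B (Pi.single r 1)) =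
      hermForm n F q (ex κ y) (Pi.single r 1) := herm_act B _ _
    rw [hB r hr, hermForm_single_right hF, hermForm_single_right hF, ex_off hr] at h1
    exact h1
  have hex : ∀ y : Fin k → F, act B (ex κ y) = ex κ (act B (ex κ y) ∘ κ) :=
    fun y => eq_ex_of_off hκ (hsupp y)
  set Am : Matrix (Fin k) (Fin k) F :=
    RM κ ⬝ₘ ((B : Matrix.SpecialLinearGroup (Fin n) F) : Matrix (Fin n) (Fin n) F) ⬝ₘ JM κ with hAm
  have hAv : ∀ y, Am *ᵥ y = act B (ex κ y) ∘ κ := by
    intro y
    rw [hAm, ← Matrix.mulVec_mulVec, ← Matrix.mulVec_mulVec, RM_mulVec]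
    rfl
  have hAex : ∀ y, ex κ (Am *ᵥ y) = act B (ex κ y) := by
    intro y
    rw [hAv, ← hex]
  have hAh : ∀ u v, hermForm k F q (Am *ᵥ u) (Am *ᵥ v) = hermForm k F q u v := by
    intro u v
    rw [← herm_ex_ex (n := n) hκ (Am *ᵥ u), hAex, hAex, herm_act, herm_ex_ex hκ]
  have hAB : embM κ Am = ((B : Matrix.SpecialLinearGroup (Fin n) F) : Matrix (Fin n) (Fin n) F) := by
    ext r s
    have h2 : ∀ x, x = Pi.single s (1 : F) →
        embM κ Am *ᵥ x = ((B : Matrix.SpecialLinearGroup (Fin n) F) : Matrix (Fin n) (Fin n) F) *ᵥ x := by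
      rintro x rfl
      by_cases hs : s ∈ Set.range κ
      · obtain ⟨a, rfl⟩ := hs
        rw [← ex_single hκ, embM_mulVec, ex_comp hκ, ex_sub, hAex]
        change _ = act B _
        abel
      · rw [embM_mulVec]
        have h0 : (Pi.single s (1 : F) : Fin n → F) ∘ κ = 0 := by
          ext a
          simp only [Function.comp, Pi.single_apply, Pi.zero_apply]
          rw [if_neg]
          rintro rfl
          exact hs ⟨a, rfl⟩
        rw [h0, Matrix.mulVec_zero, sub_zero, ex_zero, add_zero]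
        exact (hB s hs).symm
    have h3 := congrFun (h2 _ rfl) r
    simpa [Matrix.mulVec_single_one, Matrix.col_apply] using h3
  have hdet : Am.det = 1 := by
    rw [← embM_det hκ, hAB]
    exact (B : Matrix.SpecialLinearGroup (Fin n) F).2
  refine ⟨⟨⟨Am, hdet⟩, fun u v => hAh u v⟩, ?_⟩
  apply Subtype.ext
  apply Subtype.ext
  exact hAB

/-- Composition of block embeddings. -/
theorem emb_emb {κ' : Fin l → Fin k} (hκ' : Function.Injective κ') (A : SU l F q) :
    emb hF hκ (emb hF hκ' A) = emb hF (hκ.comp hκ') A := by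
  have hex : ∀ y : Fin l → F, ex κ (ex κ' y) = ex (κ ∘ κ') y := by
    intro y
    ext r
    by_cases hr : r ∈ Set.range (κ ∘ κ')
    · obtain ⟨b, rfl⟩ := hr
      rw [ex_self (hκ.comp hκ')]
      simp only [Function.comp_apply]
      rw [ex_self hκ, ex_self hκ']
    · rw [ex_off hr]
      by_cases hr2 : r ∈ Set.range κ
      · obtain ⟨a, rfl⟩ := hr2
        rw [ex_self hκ, ex_off]
        rintro ⟨b, rfl⟩
        exact hr ⟨b, rfl⟩
      · rw [ex_off hr2]
  apply SU_ext
  intro x
  rw [act_emb, act_emb, act_emb, Function.comp_assoc]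
  set p := x ∘ (κ ∘ κ') with hp
  rw [add_sub_cancel_left, hex]

theorem emb_congr {κ₁ κ₂ : Fin k → Fin n} (h : κ₁ = κ₂) (h₁ : Function.Injective κ₁)
    (h₂ : Function.Injective κ₂) (A : SU k F q) : emb hF h₁ A = emb hF h₂ A := by
  subst h
  rfl

end Emb

section Trans

variable (hF : Fintype.card F = q ^ 2)
include hF

theorem herm_two (x y : Fin 2 → F) : hermForm 2 F q x y = x 0 * y 0 ^ q + x 1 * y 1 ^ q := by
  simp [hermForm, Fin.sum_univ_two]

/-- An explicit element of `SU₂` with given first column. -/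
def mk2 (a b : F) (hab : a * a ^ q + b * b ^ q = 1) : SU 2 F q :=
  UnitarySU.SUofMatrix !![a, -b ^ q; b, a ^ q]
    (by rw [Matrix.det_fin_two_of]; linear_combination hab)
    (fun u v => by
      rw [herm_two hF, herm_two hF]
      simp only [Matrix.mulVec, dotProduct, Fin.sum_univ_two, Matrix.of_apply, Matrix.cons_val',
        Matrix.cons_val_zero, Matrix.cons_val_one, Matrix.cons_val_fin_one, add_pow_q hF, mul_pow,
        neg_pow_q hF, pow_pow_self hF]
      linear_combination (u 0 * v 0 ^ q + u 1 * v 1 ^ q) * hab)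

theorem act_mk2 (a b : F) (hab : a * a ^ q + b * b ^ q = 1) :
    act (mk2 hF a b hab) (Pi.single 0 1) = ![a, b] := by
  ext i
  fin_cases i <;> simp [act, mk2, UnitarySU.SUofMatrix, Matrix.mulVec_single_one]

/-- Simple transitivity on non-isotropic vectors of `F²`. -/
theorem su2_eq_of_act {A B : SU 2 F q} {y : Fin 2 → F} (hy : hermForm 2 F q y y ≠ 0)
    (h : act A y = act B y) : A = B := by
  have h1 : act (B⁻¹ * A) y = y := by rw [act_mul, h, act_inv_act]
  have h2 := PSUIdx.free_su2 hF hy h1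
  exact (inv_mul_eq_one.1 h2).symm

theorem exists_trans_two {u w : Fin 2 → F} (hu : hermForm 2 F q u u = 1)
    (hw : hermForm 2 F q w w = 1) : ∃ A : SU 2 F q, act A u = w := by
  rw [herm_two hF] at hu hw
  refine ⟨mk2 hF (w 0) (w 1) hw * (mk2 hF (u 0) (u 1) hu)⁻¹, ?_⟩
  have h1 : act (mk2 hF (u 0) (u 1) hu) (Pi.single 0 1) = u := by
    rw [act_mk2]
    ext i
    fin_cases i <;> rfl
  have h2 : act (mk2 hF (w 0) (w 1) hw) (Pi.single 0 1) = w := by
    rw [act_mk2]
    ext i
    fin_cases i <;> rfl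
  have h3 : act (mk2 hF (u 0) (u 1) hu)⁻¹ u = Pi.single 0 1 := by
    have := act_inv_act (mk2 hF (u 0) (u 1) hu) (Pi.single 0 1)
    rwa [h1] at this
  rw [act_mul, h3, h2]

/-- Transitivity on unit vectors. -/
theorem exists_trans (hM : 2 ≤ n) {u w : Fin n → F} (hu : hermForm n F q u u = 1)
    (hw : hermForm n F q w w = 1) : ∃ A : SU n F q, act A u = w := by
  rcases hM.eq_or_lt with rfl | h3
  · exact exists_trans_two hF hu hw
  · obtain ⟨A, -, hA⟩ := RR_transitive hF h3 hu hw
    exact ⟨A, hA⟩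

/-- Transitivity on vectors of equal non-zero norm. -/
theorem exists_trans_norm (hM : 2 ≤ n) {u w : Fin n → F} (huw : hermForm n F q u u = hermForm n F q w w)
    (h0 : hermForm n F q u u ≠ 0) : ∃ A : SU n F q, act A u = w := by
  have hcq : (hermForm n F q u u) ^ q = hermForm n F q u u := hermForm_conj hF u u
  obtain ⟨μ, hμ0, hμ⟩ := exists_norm hF _ h0 hcq
  have hμq : μ ^ q ≠ 0 := pow_ne_zero _ hμ0
  have hunit : ∀ x : Fin n → F, hermForm n F q x x = hermForm n F q u u →
      hermForm n F q (μ⁻¹ • x) (μ⁻¹ • x) = 1 := by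
    intro x hx
    rw [hermForm_smul_left, hermForm_smul_right, hx, ← hμ, inv_pow]
    field_simp
  obtain ⟨A, hA⟩ := exists_trans hF hM (hunit u rfl) (hunit w huw.symm)
  refine ⟨A, ?_⟩
  rw [act_smul] at hA
  have := congrArg (fun v => μ • v) hA
  simpa [smul_smul, mul_inv_cancel₀ hμ0] using this

end Trans

section Shift

variable (hF : Fintype.card F = q ^ 2)

/-- The block embedding on the interval starting at `i`. -/
def bl {i : ℕ} (h : i + k ≤ n) : SU k F q →* SU n F q := emb hF (sh_inj h)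

theorem bl_bl {i j : ℕ} (h : i + k ≤ n) (h' : j + l ≤ k) (h'' : i + j + l ≤ n) (A : SU l F q) :
    bl hF h (bl hF h' A) = bl hF h'' A := by
  unfold bl
  rw [emb_emb]
  exact emb_congr hF (sh_comp h h' h'') _ _ _

theorem bl_injective {i : ℕ} (h : i + k ≤ n) : Function.Injective (bl hF h : SU k F q →* SU n F q) :=
  emb_injective hF _

theorem act_bl_off {i : ℕ} (h : i + k ≤ n) (A : SU k F q) {r : Fin n} (hr : ¬ (i ≤ r.1 ∧ r.1 < i + k))
    (c : F) : act (bl hF h A) (Pi.single r c) = Pi.single r c :=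
  act_emb_single_off hF _ A (fun h' => hr ((mem_range_sh h r).1 h')) c

theorem act_bl_ex {i : ℕ} (h : i + k ≤ n) (A : SU k F q) (y : Fin k → F) :
    act (bl hF h A) (ex (sh h) y) = ex (sh h) (act A y) :=
  act_emb_ex hF _ A y

theorem act_bl_apply_off {i : ℕ} (h : i + k ≤ n) (A : SU k F q) (x : Fin n → F) {r : Fin n}
    (hr : ¬ (i ≤ r.1 ∧ r.1 < i + k)) : act (bl hF h A) x r = x r :=
  act_emb_apply_off hF _ A x (fun h' => hr ((mem_range_sh h r).1 h'))

theorem act_bl_comp {i : ℕ} (h : i + k ≤ n) (A : SU k F q) (x : Fin n → F) :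
    act (bl hF h A) x ∘ sh h = act A (x ∘ sh h) :=
  act_emb_comp hF _ A x

/-- An element fixing the coordinates off an interval comes from the block. -/
theorem exists_bl_of_fix {i : ℕ} (h : i + k ≤ n) {B : SU n F q}
    (hB : ∀ r : Fin n, ¬ (i ≤ r.1 ∧ r.1 < i + k) → act B (Pi.single r 1) = Pi.single r 1) :
    ∃ A : SU k F q, bl hF h A = B :=
  exists_of_fix hF _ (fun r hr => hB r (fun h' => hr ((mem_range_sh h r).2 h')))

end Shift

end Cfsg.Agent.Lib.Phan
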