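import Cfsg.Agent.Lib.Phan.AutSU2

/-!
# The main reduction for Phan's theorem: alignment of the `SU₃` charts.
-/

set_option autoImplicit false
set_option linter.unusedSectionVars false
set_option linter.unusedSimpArgs false
set_option linter.unusedVariables false

namespace Cfsg.Agent.Lib.Phan

open Matrix Cfsg Cfsg.Agent.Lib.HermForm Cfsg.Agent.Lib.SUGen Cfsg.Agent.Lib.FFNorm Cfsg.Agent.Lib

variable {F : Type*} [Field F] [Fintype F] {q : ℕ} {G : Type*} [Group G]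

local notation "⟪" x ", " y "⟫" => hermForm _ F q x y

/-- Two injective homomorphisms with the same range differ by an automorphism. -/
theorem exists_aut_of_range {H K : Type*} [Group H] [Group K] {f g : H →* K} (hf : Function.Injective f)
    (hg : Function.Injective g) (h : f.range = g.range) : ∃ θ : H ≃* H, ∀ x, f x = g (θ x) := by
  let ef := MonoidHom.ofInjective hf
  let eg := MonoidHom.ofInjective hg
  refine ⟨ef.trans ((MulEquiv.subgroupCongr h).trans eg.symm), fun x => ?_⟩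
  have h1 : eg (eg.symm (MulEquiv.subgroupCongr h (ef x))) = MulEquiv.subgroupCongr h (ef x) :=
    eg.apply_symm_apply _
  have h2 := congrArg Subtype.val h1
  exact h2.symm

section Align

variable (hF : Fintype.card F = q ^ 2)
include hF

/-- The embedding in the coordinates `0, 1`. -/
abbrev i₀ (hF : Fintype.card F = q ^ 2) : SU 2 F q →* SU 3 F q := bl hF (i := 0) (by norm_num)

/-- The embedding in the coordinates `1, 2`. -/
abbrev i₁ (hF : Fintype.card F = q ^ 2) : SU 2 F q →* SU 3 F q := bl hF (i := 1) (by norm_num)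

theorem act_e0_one (A : SU 2 F q) : act A (Pi.single 0 1) 1 = A.1.1 1 0 := by
  simp [act, Matrix.mulVec_single_one]

/-- Elements of the torus in `(1,2)` normalize the block `(0,1)`. -/
theorem norm_block {x : SU 2 F q} (hx : x ∈ T0 F q) (A : SU 2 F q) :
    ∃ A', i₁ hF x * i₀ hF A * (i₁ hF x)⁻¹ = i₀ hF A' := by
  obtain ⟨μ, hμ, rfl⟩ := eq_dm hF hx
  obtain ⟨A', h1, -⟩ := conj_dd hF (n := 3) (by norm_num) hμ A
  exact ⟨A', h1⟩

/-- The torus of a chart goes to the torus of the next chart. -/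
theorem torus_align (hq : 4 ≤ q) {φ φ' : SU 3 F q →* G} {U U' U'' : Subgroup G}
    (h0 : (φ.comp (i₀ hF)).range = U) (h0i : Function.Injective (φ.comp (i₀ hF)))
    (h1 : (φ.comp (i₁ hF)).range = U')
    (h0' : (φ'.comp (i₀ hF)).range = U') (h1' : (φ'.comp (i₁ hF)).range = U'')
    (hcomm : ∀ x ∈ U, ∀ y ∈ U'', x * y = y * x) :
    ∀ x ∈ T0 F q, ∀ y : SU 2 F q, φ (i₁ hF x) = φ' (i₀ hF y) → y ∈ T0 F q := by
  intro x hx y hxy
  by_contra hy
  have hy' : act y (Pi.single 0 1) 1 ≠ 0 := by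
    rw [act_e0_one hF]
    exact hy
  have hU : ∀ A, φ (i₀ hF A) ∈ U := fun A => by
    rw [← h0]
    exact ⟨A, rfl⟩
  have hU'' : ∀ A, φ' (i₁ hF A) ∈ U'' := fun A => by
    rw [← h1']
    exact ⟨A, rfl⟩
  -- normalization
  have hnorm : ∀ z ∈ T0 F q, ∀ u ∈ U, φ (i₁ hF z) * u * (φ (i₁ hF z))⁻¹ ∈ U := by
    intro z hz u hu
    rw [← h0] at hu
    obtain ⟨A, rfl⟩ := hu
    obtain ⟨A', hA'⟩ := norm_block hF hz A
    have := congrArg φ hA'
    simp only [map_mul, map_inv] at this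
    change φ (i₁ hF z) * φ (i₀ hF A) * (φ (i₁ hF z))⁻¹ ∈ U
    rw [this]
    exact hU A'
  set t := φ (i₁ hF x) with ht
  have hnorm1 : ∀ u ∈ U, t⁻¹ * u * t ∈ U := by
    intro u hu
    have h2 := hnorm x⁻¹ (inv_mem hx) u hu
    simp only [map_inv, inv_inv] at h2
    exact h2
  -- the subgroup
  set X : Subgroup (SU 3 F q) := (Subgroup.centralizer (U : Set G)).comap φ' with hX
  have hmemX : ∀ g : SU 3 F q, g ∈ X ↔ ∀ u ∈ U, u * φ' g = φ' g * u := by
    intro g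
    rw [hX, Subgroup.mem_comap, Subgroup.mem_centralizer_iff]
    rfl
  have he0 : ∀ g : SU 3 F q, act g (Pi.single 0 1) = Pi.single 0 1 → g ∈ X := by
    intro g hg
    obtain ⟨z, rfl⟩ := exists_jR hF (m := 2) hg
    rw [hmemX]
    intro u hu
    exact hcomm u hu _ (hU'' z)
  set g₀ := i₀ hF y with hg₀
  set v : Fin 3 → F := act g₀ (Pi.single 0 1) with hv
  have hv0 : v 0 = act y (Pi.single 0 1) 0 := by
    have h2 := act_bl_comp hF (i := 0) (k := 2) (n := 3) (by norm_num) y (Pi.single 0 1)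
    have h3 := congrFun h2 0
    have h4 : ((Pi.single 0 1 : Fin 3 → F) ∘ sh (i := 0) (k := 2) (n := 3) (by norm_num)) = Pi.single 0 1 := by
      have h5 : (Pi.single 0 1 : Fin 3 → F) = ex (sh (i := 0) (k := 2) (n := 3) (by norm_num)) (Pi.single 0 1) :=
        (ex_e0 (F := F) hF (i := 0) (n := 3) (by norm_num)).symm
      rw [h5, ex_comp (sh_inj _)]
    rw [h4] at h3
    exact h3
  have hvv : ⟪v, v⟫ = 1 := by
    rw [hv, herm_act]
    exact e0_unit (m := 2) hF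
  have hnear : Near q (Pi.single 0 1) v := by
    unfold Near
    rw [hermForm_single_left, hermForm_single_right hF, hv0]
    have h2 := unit_second hF (A := y)
    have h3 : act y (Pi.single 0 1) 1 * act y (Pi.single 0 1) 1 ^ q ≠ 0 := nrm_ne_zero hF hy'
    intro h4
    apply h3
    linear_combination h2 - h4
  have hv1 : ∀ g : SU 3 F q, act g v = v → g ∈ X := by
    intro g hg
    have h2 : g₀⁻¹ * g * g₀ ∈ X := by
      apply he0
      rw [act_mul, act_mul, ← hv, hg, hv, act_inv_act]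
    rw [hmemX] at h2 ⊢
    intro u hu
    have h3 := h2 _ (hnorm1 u hu)
    simp only [map_mul, map_inv] at h3
    rw [← hxy] at h3
    have h4 : φ' g = t * (t⁻¹ * φ' g * t) * t⁻¹ := by group
    rw [h4]
    calc u * (t * (t⁻¹ * φ' g * t) * t⁻¹) = t * ((t⁻¹ * u * t) * (t⁻¹ * φ' g * t)) * t⁻¹ := by group
      _ = t * ((t⁻¹ * φ' g * t) * (t⁻¹ * u * t)) * t⁻¹ := by rw [h3]
      _ = _ := by group
  have htop : X = ⊤ := gen_stab hF (m := 2) (by norm_num) hq hvv hnear he0 hv1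
  -- the contradiction
  obtain ⟨μ, hμ, hμ1⟩ := UnitaryBasic.exists_nrm_one_ne_one hF
  have hμ' : μ * μ ^ q = 1 := hμ
  have h01 : (0 : F) * (0 : F) ^ q + 1 * 1 ^ q = 1 := by simp
  set b := mk2 hF 0 1 h01 with hb
  obtain ⟨b', h2, h3⟩ := conj_dd hF (n := 3) (by norm_num) hμ' b
  have h4 : φ (i₁ hF (dm hF μ hμ')) ∈ U' := by
    rw [← h1]
    exact ⟨_, rfl⟩
  rw [← h0'] at h4
  obtain ⟨w, hw⟩ := h4
  have hw' : φ' (i₀ hF w) = φ (i₁ hF (dm hF μ hμ')) := hw
  have h5 : i₀ hF w ∈ X := by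
    rw [htop]
    exact Subgroup.mem_top _
  rw [hmemX] at h5
  have h6 := h5 _ (hU b)
  rw [hw'] at h6
  have h7 := congrArg φ h2
  simp only [map_mul, map_inv] at h7
  have h8 : φ (i₀ hF b') = φ (i₀ hF b) := by
    change φ (i₁ hF (dm hF μ hμ')) * φ (i₀ hF b) * (φ (i₁ hF (dm hF μ hμ')))⁻¹ = φ (i₀ hF b') at h7
    rw [← h7, ← h6]
    group
  have h9 : b' = b := h0i h8
  rw [h9, act_mk2] at h3
  have h10 := congrFun h3 1
  simp at h10
  exact hμ1 h10.symm

end Align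

section Core

/-- Automorphisms of `SU₂` preserving the torus. -/
abbrev TAut (F : Type*) [Field F] [Fintype F] (q : ℕ) :=
  {θ : SU 2 F q ≃* SU 2 F q // ∀ x ∈ T0 F q, θ x ∈ T0 F q}

/-- Composition. -/
def TAut.comp (a b : TAut F q) : TAut F q :=
  ⟨a.1.trans b.1, fun x hx => b.2 _ (a.2 x hx)⟩

variable (hF : Fintype.card F = q ^ 2)
include hF

/-- The main reduction. -/
theorem phan_core (hq : 4 ≤ q) (n : ℕ) (hn : 2 ≤ n) (U : ℕ → Subgroup G) (φ : ℕ → SU 3 F q →* G)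
    (h0 : ∀ i, i + 1 < n → ((φ i).comp (i₀ hF)).range = U i)
    (h0i : ∀ i, i + 1 < n → Function.Injective ((φ i).comp (i₀ hF)))
    (h1 : ∀ i, i + 1 < n → ((φ i).comp (i₁ hF)).range = U (i + 1))
    (h1i : ∀ i, i + 1 < n → Function.Injective ((φ i).comp (i₁ hF)))
    (hc : ∀ i j, i + 2 ≤ j → j < n → ∀ x ∈ U i, ∀ y ∈ U j, x * y = y * x) :
    ∃ f : SU (n + 1) F q →* G, ∀ i, i + 1 < n → ∀ z, φ i z ∈ f.range := by
  -- the transition automorphisms
  have hθ : ∀ i, ∃ θ : TAut F q, i + 2 < n → ∀ x, φ i (i₁ hF x) = φ (i + 1) (i₀ hF (θ.1 x)) := by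
    intro i
    by_cases hi : i + 2 < n
    · obtain ⟨θ, hθ⟩ := exists_aut_of_range (h1i i (by omega)) (h0i (i + 1) (by omega))
        ((h1 i (by omega)).trans (h0 (i + 1) (by omega)).symm)
      refine ⟨⟨θ, fun x hx => ?_⟩, fun _ x => hθ x⟩
      exact torus_align hF hq (h0 i (by omega)) (h0i i (by omega)) (h1 i (by omega)) (h0 (i + 1) (by omega))
        (h1 (i + 1) (by omega)) (hc i (i + 2) (by omega) (by omega)) x hx _ (hθ x)
    · exact ⟨⟨MulEquiv.refl _, fun x hx => hx⟩, fun h => absurd h hi⟩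
  choose θs hθs using hθ
  -- the extensions
  have hE : ∀ Θ : TAut F q, ∃ (A : SU 3 F q ≃* SU 3 F q) (η : TAut F q),
      (∀ x, A (i₀ hF x) = i₀ hF (Θ.1 x)) ∧ (∀ x, A (i₁ hF x) = i₁ hF (η.1 x)) := by
    intro Θ
    obtain ⟨A, η, hη, h2, h3⟩ := aut_extend hF hq Θ.1 Θ.2
    exact ⟨A, ⟨η, hη⟩, h2, h3⟩
  choose Aa ηa hA0 hA1 using hE
  -- the sequence
  let seq : ℕ → TAut F q := fun i => Nat.rec ⟨MulEquiv.refl _, fun x hx => hx⟩
    (fun k s => ηa (TAut.comp s (θs k))) i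
  have hseq : ∀ k, seq (k + 1) = ηa (TAut.comp (seq k) (θs k)) := fun k => rfl
  let AA : ℕ → SU 3 F q ≃* SU 3 F q := fun i => Nat.casesOn i (MulEquiv.refl _)
    (fun k => Aa (TAut.comp (seq k) (θs k)))
  have hAA : ∀ k, AA (k + 1) = Aa (TAut.comp (seq k) (θs k)) := fun k => rfl
  let ψ : ℕ → SU 3 F q →* G := fun i => (φ i).comp (AA i).toMonoidHom
  have hψ : ∀ i z, ψ i z = φ i (AA i z) := fun i z => rfl
  -- formulas
  have hψ1 : ∀ i x, ψ i (i₁ hF x) = φ i (i₁ hF ((seq i).1 x)) := by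
    intro i x
    cases i with
    | zero => rfl
    | succ k =>
      rw [hψ, hAA, hA1, hseq]
  have hψ0 : ∀ i, ∃ Θ : SU 2 F q ≃* SU 2 F q, ∀ x, ψ i (i₀ hF x) = φ i (i₀ hF (Θ x)) := by
    intro i
    cases i with
    | zero => exact ⟨MulEquiv.refl _, fun x => rfl⟩
    | succ k =>
      refine ⟨(TAut.comp (seq k) (θs k)).1, fun x => ?_⟩
      rw [hψ, hAA, hA0]
  have hcompat : ∀ i, i + 2 < n → ∀ x, ψ i (i₁ hF x) = ψ (i + 1) (i₀ hF x) := by
    intro i hi x
    rw [hψ1, hψ, hAA, hA0, hθs i hi]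
    rfl
  have hU0 : ∀ i, i + 1 < n → ∀ x, ψ i (i₀ hF x) ∈ U i := by
    intro i hi x
    obtain ⟨Θ, hΘ⟩ := hψ0 i
    rw [hΘ, ← h0 i hi]
    exact ⟨_, rfl⟩
  have hU1 : ∀ i, i + 1 < n → ∀ x, ψ i (i₁ hF x) ∈ U (i + 1) := by
    intro i hi x
    rw [hψ1, ← h1 i hi]
    exact ⟨_, rfl⟩
  -- the amalgam
  let ps : ℕ → SU 2 F q →* G := fun i =>
    if i + 1 < n then (ψ i).comp (i₀ hF) else (ψ (i - 1)).comp (i₁ hF)
  have hps0 : ∀ i, i + 1 < n → ∀ x, ps i x = ψ i (i₀ hF x) := by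
    intro i hi x
    have : ps i = (ψ i).comp (i₀ hF) := if_pos hi
    rw [this]
    rfl
  have hps1 : ∀ i, ¬ i + 1 < n → ∀ x, ps i x = ψ (i - 1) (i₁ hF x) := by
    intro i hi x
    have : ps i = (ψ (i - 1)).comp (i₁ hF) := if_neg hi
    rw [this]
    rfl
  have hpsU : ∀ i, 1 ≤ i → i < n → ∀ x, ps i x ∈ U i := by
    intro i hi hin x
    by_cases h2 : i + 1 < n
    · rw [hps0 i h2]
      exact hU0 i h2 x
    · rw [hps1 i h2]
      have h3 := hU1 (i - 1) (by omega) x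
      rwa [Nat.sub_add_cancel hi] at h3
  have hps0U : ∀ i, i + 1 < n → ∀ x, ps i x ∈ U i := by
    intro i hi x
    rw [hps0 i hi]
    exact hU0 i hi x
  obtain ⟨f, hf, -⟩ := completion hF hq (n + 1) (by omega) ps ψ
    (fun i hi x => (hps0 i (by omega) x).symm)
    (fun i hi x => by
      by_cases h2 : i + 2 < n
      · rw [hps0 (i + 1) (by omega), hcompat i h2]
      · rw [hps1 (i + 1) (by omega)]
        rfl)
    (fun i j hij hj x y => hc i j hij (by omega) _ (hps0U i (by omega) x) _ (hpsU j (by omega) (by omega) y))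
  refine ⟨f, fun i hi z => ?_⟩
  have h2 : φ i z = ψ i ((AA i).symm z) := by
    rw [hψ, MulEquiv.apply_symm_apply]
  rw [h2, ← hf i (by omega)]
  exact ⟨_, rfl⟩

end Core

end Cfsg.Agent.Lib.Phan
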