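import Cfsg.Agent.Lib.Phan.Core
import Cfsg.Prelude.Def_PhanSystems

/-!
# The main reduction for Phan's theorem, indexed by `Fin n`.
-/

set_option autoImplicit false
set_option linter.unusedSectionVars false
set_option linter.unusedSimpArgs false
set_option linter.unusedVariables false

namespace Cfsg.Agent.Lib.Phan

open Matrix Cfsg Cfsg.Agent.Lib.HermForm Cfsg.Agent.Lib.SUGen Cfsg.Agent.Lib.FFNorm Cfsg.Agent.Lib

variable {F : Type*} [Field F] [Fintype F] {q : ℕ} {G : Type*} [Group G]

/-- A surjection onto a subgroup isomorphic to a finite source is injective. -/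
theorem inj_of_range {H K : Type*} [Group H] [Group K] [Finite H] {f : H →* K} {W : Subgroup K}
    (h : f.range = W) (e : H ≃* W) : Function.Injective f := by
  subst h
  have hcard : Nat.card H = Nat.card f.range := Nat.card_congr e.toEquiv
  have hbij : Function.Bijective f.rangeRestrict :=
    (Nat.bijective_iff_surjective_and_card _).2 ⟨f.rangeRestrict_surjective, hcard⟩
  intro x y hxy
  exact hbij.1 (Subtype.ext hxy)

theorem phan_fin (hF : Fintype.card F = q ^ 2) (hq : 4 ≤ q) {n : ℕ} (hn : 2 ≤ n) (U : Fin n → Subgroup G)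
    (e : ∀ i, SU 2 F q ≃* U i) (R : Fin n → Fin n → Subgroup G)
    (h1 : ∀ i j : Fin n, (i : ℕ) + 2 ≤ j → ∀ x ∈ U i, ∀ y ∈ U j, x * y = y * x)
    (hφ : ∀ i j : Fin n, (i : ℕ) + 1 = j → ∃ φ : SU 3 F q →* G,
      (φ.comp (i₀ hF)).range = U i ∧ (φ.comp (i₁ hF)).range = U j ∧ φ.range = R i j) :
    ∃ f : SU (n + 1) F q →* G, (∀ i, U i ≤ f.range) ∧ ∀ i j : Fin n, (i : ℕ) + 1 = j → R i j ≤ f.range := by
  let U' : ℕ → Subgroup G := fun i => if h : i < n then U ⟨i, h⟩ else ⊥
  have hU' : ∀ i (h : i < n), U' i = U ⟨i, h⟩ := fun i h => dif_pos h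
  have hφ' : ∀ i : ℕ, ∃ φ : SU 3 F q →* G, ∀ h : i + 1 < n,
      (φ.comp (i₀ hF)).range = U ⟨i, by omega⟩ ∧ (φ.comp (i₁ hF)).range = U ⟨i + 1, h⟩ ∧
        φ.range = R ⟨i, by omega⟩ ⟨i + 1, h⟩ := by
    intro i
    by_cases hi : i + 1 < n
    · obtain ⟨φ, h2⟩ := hφ ⟨i, by omega⟩ ⟨i + 1, hi⟩ rfl
      exact ⟨φ, fun _ => h2⟩
    · exact ⟨1, fun h => absurd h hi⟩
  choose φ hφ0 using hφ'
  obtain ⟨f, hf⟩ := phan_core hF hq n hn U' φ
    (fun i hi => by rw [hU' i (by omega)]; exact (hφ0 i hi).1)
    (fun i hi => inj_of_range (hφ0 i hi).1 (e _))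
    (fun i hi => by rw [hU' (i + 1) hi]; exact (hφ0 i hi).2.1)
    (fun i hi => inj_of_range (hφ0 i hi).2.1 (e _))
    (fun i j hij hj x hx y hy => by
      rw [hU' i (by omega)] at hx
      rw [hU' j hj] at hy
      exact h1 ⟨i, by omega⟩ ⟨j, hj⟩ hij x hx y hy)
  refine ⟨f, fun i => ?_, fun i j hij => ?_⟩
  · by_cases hi : (i : ℕ) + 1 < n
    · have h2 := (hφ0 i hi).1
      have h3 : U i = ((φ i).comp (i₀ hF)).range := h2.symm
      rw [h3]
      rintro _ ⟨x, rfl⟩
      exact hf i hi _
    · have hi1 : (i : ℕ) - 1 + 1 = i := by have := i.2; omega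
      have hi2 : (i : ℕ) - 1 + 1 < n := by rw [hi1]; exact i.2
      have h2 := (hφ0 ((i : ℕ) - 1) hi2).2.1
      have h3 : (⟨(i : ℕ) - 1 + 1, hi2⟩ : Fin n) = i := Fin.ext hi1
      rw [h3] at h2
      rw [← h2]
      rintro _ ⟨x, rfl⟩
      exact hf _ hi2 _
  · have hi : (i : ℕ) + 1 < n := by rw [hij]; exact j.2
    have h2 := (hφ0 i hi).2.2
    have h3 : (⟨(i : ℕ) + 1, hi⟩ : Fin n) = j := Fin.ext hij
    rw [h3] at h2
    rw [← h2]
    rintro _ ⟨x, rfl⟩
    exact hf i hi _

section Block

variable (hF : Fintype.card F = q ^ 2)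
include hF

theorem suBlock01 : suBlock 3 F q {0, 1} = (i₀ hF).range := by
  apply le_antisymm
  · rw [suBlock, Subgroup.closure_le]
    intro A hA
    have hk := hA 2 (by simp)
    obtain ⟨z, hz⟩ := exists_bl_of_fix hF (i := 0) (k := 2) (n := 3) (by norm_num) (B := A) (by
      intro r hr
      have hr2 : r = 2 := by
        have := r.2
        apply Fin.ext
        simp only [zero_add, zero_le, true_and, not_lt] at hr
        change r.1 = 2
        omega
      subst hr2
      ext s
      simp only [act, Matrix.mulVec_single_one, Matrix.col_apply, Pi.single_apply]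
      by_cases hs : s = 2
      · subst hs
        simpa using hk.1
      · rw [if_neg hs]
        exact (hk.2 s hs).2)
    exact ⟨z, hz⟩
  · rintro _ ⟨x, rfl⟩
    apply Subgroup.subset_closure
    intro k hk
    have hk2 : k = 2 := by
      fin_cases k
      · simp at hk
      · simp at hk
      · rfl
    subst hk2
    rw [bl0_mat]
    refine ⟨by simp, fun l hl => ?_⟩
    fin_cases l
    · simp
    · simp
    · exact absurd rfl hl

theorem suBlock12 : suBlock 3 F q {1, 2} = (i₁ hF).range := by
  apply le_antisymm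
  · rw [suBlock, Subgroup.closure_le]
    intro A hA
    have hk := hA 0 (by simp)
    obtain ⟨z, hz⟩ := exists_bl_of_fix hF (i := 1) (k := 2) (n := 3) (by norm_num) (B := A) (by
      intro r hr
      have hr2 : r = 0 := by
        have := r.2
        apply Fin.ext
        simp only [not_and, not_lt] at hr
        change r.1 = 0
        by_contra h0
        have := hr (by omega)
        omega
      subst hr2
      ext s
      simp only [act, Matrix.mulVec_single_one, Matrix.col_apply, Pi.single_apply]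
      by_cases hs : s = 0
      · subst hs
        simpa using hk.1
      · rw [if_neg hs]
        exact (hk.2 s hs).2)
    exact ⟨z, hz⟩
  · rintro _ ⟨x, rfl⟩
    apply Subgroup.subset_closure
    intro k hk
    have hk2 : k = 0 := by
      fin_cases k
      · rfl
      · simp at hk
      · simp at hk
    subst hk2
    rw [bl1_mat]
    refine ⟨by simp, fun l hl => ?_⟩
    fin_cases l
    · exact absurd rfl hl
    · simp
    · simp

end Block

end Cfsg.Agent.Lib.Phan
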