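import Cfsg.Agent.Lib.Phan.Core
import Cfsg.Agent.Lib.SU3Sylow

/-!
# Subgroups of `SU₃` isomorphic to `SU₂` fix a non-isotropic vector
-/

set_option autoImplicit false
set_option linter.unusedSectionVars false
set_option linter.unusedSimpArgs false
set_option linter.unusedVariables false

namespace Cfsg.Agent.Lib.Phan

open Matrix Cfsg Cfsg.Agent.Lib.HermForm Cfsg.Agent.Lib.SUGen Cfsg.Agent.Lib.FFNorm Cfsg.Agent.Lib

variable {F : Type*} [Field F] [Fintype F] {q : ℕ}

local notation "⟪" x ", " y "⟫" => hermForm _ F q x y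

/-- The characteristic and the power. -/
theorem exists_char_pow (hF : Fintype.card F = q ^ 2) :
    ∃ p n : ℕ, p.Prime ∧ 1 ≤ n ∧ CharP F p ∧ q = p ^ n := by
  classical
  obtain ⟨K, _, hK⟩ := exists_subfield hF
  obtain ⟨p, hpc⟩ := CharP.exists K
  obtain ⟨n, hp, hqf⟩ := FiniteField.card K p
  haveI := hpc
  have hc : CharP F p := charP_of_injective_ringHom K.subtype.injective p
  exact ⟨p, n, hp, n.pos, hc, hK.symm.trans hqf⟩

theorem pow_coe_su {n : ℕ} (w : SU n F q) (k : ℕ) :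
    ((w ^ k : SU n F q) : Matrix.SpecialLinearGroup (Fin n) F).1 =
      ((w : Matrix.SpecialLinearGroup (Fin n) F) : Matrix (Fin n) (Fin n) F) ^ k := by
  induction k with
  | zero => rfl
  | succ k ih =>
    rw [pow_succ, pow_succ, ← ih]
    rfl

section Two

variable (hF : Fintype.card F = q ^ 2)
include hF

/-- An element of `SU₂` of order prime to the characteristic has no fixed vector. -/
theorem fix_pow_su2 {w : SU 2 F q} {k : ℕ} (hk : (k : F) ≠ 0) (hw : w ^ k = 1) {y : Fin 2 → F} (hy : y ≠ 0)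
    (hwy : act w y = y) : w = 1 := by
  set M := ((w : Matrix.SpecialLinearGroup (Fin 2) F) : Matrix (Fin 2) (Fin 2) F) with hM
  have hdet : M 0 0 * M 1 1 - M 0 1 * M 1 0 = 1 := by
    have := (w : Matrix.SpecialLinearGroup (Fin 2) F).2
    rw [Matrix.det_fin_two] at this
    exact this
  have h0 : M 0 0 * y 0 + M 0 1 * y 1 = y 0 := by
    have := congrFun hwy 0
    simpa [act, Matrix.mulVec, dotProduct, Fin.sum_univ_two] using this
  have h1 : M 1 0 * y 0 + M 1 1 * y 1 = y 1 := by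
    have := congrFun hwy 1
    simpa [act, Matrix.mulVec, dotProduct, Fin.sum_univ_two] using this
  have hd : (M 0 0 - 1) * (M 1 1 - 1) - M 0 1 * M 1 0 = 0 := by
    by_contra hne
    apply hy
    have e0 : ((M 0 0 - 1) * (M 1 1 - 1) - M 0 1 * M 1 0) * y 0 = 0 := by
      linear_combination (M 1 1 - 1) * h0 - M 0 1 * h1
    have e1 : ((M 0 0 - 1) * (M 1 1 - 1) - M 0 1 * M 1 0) * y 1 = 0 := by
      linear_combination (M 0 0 - 1) * h1 - M 1 0 * h0
    funext i
    fin_cases i
    · exact (mul_eq_zero.1 e0).resolve_left hne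
    · exact (mul_eq_zero.1 e1).resolve_left hne
  have htr : M 0 0 + M 1 1 = 2 := by linear_combination hdet - hd
  set N := M - 1 with hN
  have hNN : N * N = 0 := by
    have n00 : N 0 0 = M 0 0 - 1 := by simp [hN]
    have n01 : N 0 1 = M 0 1 := by simp [hN]
    have n10 : N 1 0 = M 1 0 := by simp [hN]
    have n11 : N 1 1 = M 1 1 - 1 := by simp [hN]
    refine Matrix.ext fun i j => ?_
    revert i j
    refine Fin.forall_fin_two.2 ⟨Fin.forall_fin_two.2 ⟨?_, ?_⟩, Fin.forall_fin_two.2 ⟨?_, ?_⟩⟩ <;>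
      simp only [Matrix.mul_apply, Fin.sum_univ_two, n00, n01, n10, n11, Matrix.zero_apply]
    · linear_combination (-1 : F) * hdet + (M 0 0) * htr
    · linear_combination (M 0 1) * htr
    · linear_combination (M 1 0) * htr
    · linear_combination (-1 : F) * hdet + (M 1 1) * htr
  have hpow : ∀ j : ℕ, M ^ j = 1 + (j : F) • N := by
    intro j
    induction j with
    | zero => simp
    | succ j ih =>
      have hM1 : M = 1 + N := by rw [hN]; abel
      rw [pow_succ, ih]
      nth_rw 1 [hM1]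
      rw [Matrix.mul_add, Matrix.mul_one, Matrix.add_mul, Matrix.one_mul, Matrix.smul_mul, hNN, smul_zero,
        add_zero, Nat.cast_add, Nat.cast_one, add_smul, one_smul, add_assoc]
  have h2 : M ^ k = 1 := by
    rw [← pow_coe_su, hw]
    rfl
  rw [hpow] at h2
  have h3 : (k : F) • N = 0 := by
    have := h2
    exact add_left_cancel (a := (1 : Matrix (Fin 2) (Fin 2) F)) (by rw [this, add_zero])
  have h4 : N = 0 := (smul_eq_zero.1 h3).resolve_left hk
  apply Subtype.ext
  apply Subtype.ext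
  exact sub_eq_zero.1 h4

/-- The fixed vectors of an element of order prime to the characteristic. -/
theorem fix_line {t : SU 3 F q} {a : Fin 3 → F} (ha : ⟪a, a⟫ = 1) (hta : act t a = a) {k : ℕ} (hk : (k : F) ≠ 0)
    (htk : t ^ k = 1) (ht : t ≠ 1) {c : Fin 3 → F} (htc : act t c = c) : c = ⟪c, a⟫ • a := by
  obtain ⟨h, hh⟩ := exists_trans hF (n := 3) (by norm_num) ha (e0_unit (m := 2) hF)
  set t' := h * t * h⁻¹ with ht'
  have hfix : act t' (Pi.single 0 1) = Pi.single 0 1 := by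
    rw [ht', act_mul, act_mul, ← hh, act_inv_act, hta]
  obtain ⟨w, hw⟩ := exists_jR hF (m := 2) hfix
  have hinj := bl_injective hF (i := 1) (k := 2) (n := 3) (q := q) (by norm_num)
  have hwk : w ^ k = 1 := by
    apply hinj
    rw [map_pow, map_one]
    change (jR hF 2 w) ^ k = 1
    rw [hw, ht', conj_pow, htk, mul_one, mul_inv_cancel]
  have hw1 : w ≠ 1 := by
    rintro rfl
    apply ht
    have h2 : t' = 1 := by
      rw [← hw]
      exact map_one _
    rw [ht'] at h2
    have h3 : t = h⁻¹ * (h * t * h⁻¹) * h := by group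
    rw [h3, h2]
    group
  set c₁ := act h c with hc₁
  have hc1 : act t' c₁ = c₁ := by
    rw [ht', act_mul, act_mul, hc₁, act_inv_act, htc]
  have hy : act w (c₁ ∘ shR 2) = c₁ ∘ shR 2 := by
    have h2 := act_bl_comp hF (i := 1) (k := 2) (n := 3) (by norm_num) w c₁
    have h3 : bl hF (i := 1) (k := 2) (n := 3) (by norm_num) w = t' := hw
    rw [h3, hc1] at h2
    exact h2.symm
  have hy0 : c₁ ∘ shR 2 = 0 := by
    by_contra hne
    exact hw1 (fix_pow_su2 hF hk hwk hne hy)
  have hc₁e : c₁ = c₁ 0 • Pi.single 0 1 := by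
    apply vec_split_ext
    · simp
    · rw [hy0]
      funext b
      simp only [Function.comp, Pi.smul_apply, smul_eq_mul, Pi.single_apply, Pi.zero_apply, sh_succ]
      simp [Fin.succ_ne_zero]
  have hca : c = c₁ 0 • a := by
    apply act_inj h
    rw [act_smul, hh]
    exact hc₁e
  rw [hca, hermForm_smul_left, ha, mul_one]

end Two

section Iso

variable {p n : ℕ} [Fact p.Prime] [CharP F p]

/-- An element fixing a non-zero isotropic vector has `p`-power order. -/
theorem iso_fix_eq_one (hF : Fintype.card F = (p ^ n) ^ 2) {y : SU 3 F (p ^ n)} {v : Fin 3 → F} (hv : v ≠ 0)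
    (hvv : hermForm 3 F (p ^ n) v v = 0) (hy : act y v = v) {k : ℕ} (hk : y ^ k = 1) (hc : Nat.Coprime k p) :
    y = 1 := by
  have h1 := SU3Sylow.stabSU_isPGroup hF v hv (by rw [← SU3Sylow.herm_eq]; exact hvv)
  obtain ⟨j, hj⟩ := h1 ⟨y, hy⟩
  have h2 : y ^ (p ^ j) = 1 := congrArg Subtype.val hj
  have h3 := pow_gcd_eq_one.2 ⟨hk, h2⟩
  have h4 : Nat.gcd k (p ^ j) = 1 := Nat.Coprime.pow_right j hc
  rw [h4, pow_one] at h3
  exact h3

/-- In characteristic two, an involution fixing an isotropic vector `r` fixes its perpendicular. -/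
theorem inv_fix_perp (hF : Fintype.card F = (p ^ n) ^ 2) (h2 : (2 : F) = 0) {x : SU 3 F (p ^ n)} (hx : x ^ 2 = 1)
    {r v : Fin 3 → F} (hr : r ≠ 0) (hrr : hermForm 3 F (p ^ n) r r = 0) (hxr : act x r = r)
    (hv : hermForm 3 F (p ^ n) v r = 0) : act x v = v := by
  have hxx : ∀ u, act x (act x u) = u := by
    intro u
    rw [← act_mul, ← sq, hx, act_one]
  have hN : ∀ u, act x (act x u - u) = act x u - u := by
    intro u
    rw [act_sub, hxx]
    funext i
    simp only [Pi.sub_apply]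
    have h3 : (2 : F) * act x u i = 0 := by rw [h2, zero_mul]
    have h4 : (2 : F) * u i = 0 := by rw [h2, zero_mul]
    linear_combination h4 - h3
  have hperp : ∀ u f, act x f = f → hermForm 3 F (p ^ n) (act x u - u) f = 0 := by
    intro u f hf
    rw [hermForm_sub_left]
    have := herm_act x u f
    rw [hf] at this
    rw [this, sub_self]
  have hprop : ∀ u, ∃ k : F, act x u - u = k • r := by
    intro u
    by_cases h0 : act x u - u = 0
    · exact ⟨0, by rw [h0, zero_smul]⟩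
    · obtain ⟨k, -, hk⟩ := SU3Sylow.prop_of_orth hF (act x u - u) r h0 hr
        (by rw [← SU3Sylow.herm_eq]; exact hperp u _ (hN u))
        (by rw [← SU3Sylow.herm_eq]; exact hrr)
        (by rw [← SU3Sylow.herm_eq]; exact hperp u r hxr)
      exact ⟨k, hk⟩
  obtain ⟨i, hi⟩ : ∃ i, r i ≠ 0 := by
    by_contra hall
    push Not at hall
    exact hr (funext hall)
  set w : Fin 3 → F := Pi.single i 1 with hw
  have hrw : hermForm 3 F (p ^ n) r w ≠ 0 := by
    rw [hw, hermForm_single_right hF]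
    simpa using hi
  obtain ⟨l, hl⟩ := hprop v
  obtain ⟨α, hα⟩ := hprop w
  have e1 : act x v = v + l • r := by rw [← hl]; abel
  have e2 : act x w = w + α • r := by rw [← hα]; abel
  have e3 := herm_act x v w
  rw [e1, e2, hermForm_add_left, hermForm_add_right hF, hermForm_add_right hF, hermForm_smul_left,
    hermForm_smul_left, hermForm_smul_right, hermForm_smul_right, hv, hrr] at e3
  have e4 : l * hermForm 3 F (p ^ n) r w = 0 := by linear_combination e3
  have hl0 : l = 0 := (mul_eq_zero.1 e4).resolve_right hrw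
  rw [e1, hl0, zero_smul, add_zero]

end Iso

section Main

variable (hF : Fintype.card F = q ^ 2)
include hF

theorem su2_perfect (hq : 4 ≤ q) : commutator (SU 2 F q) = ⊤ := by
  classical
  obtain ⟨K, _, hK⟩ := exists_subfield hF
  obtain ⟨_, _, Φ, -, -⟩ := exists_Phi hF hK K.subtype
  have hperf := OrthoFourMinus.sl2_perfect (K := K) (by rw [hK]; exact hq)
  rw [eq_top_iff]
  intro x _
  obtain ⟨s, rfl⟩ := Φ.surjective x
  have hs : s ∈ commutator (Matrix.SpecialLinearGroup (Fin 2) K) := by rw [hperf]; trivial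
  have hle : (commutator (Matrix.SpecialLinearGroup (Fin 2) K)).map Φ.toMonoidHom ≤ commutator (SU 2 F q) := by
    rw [commutator_def, Subgroup.map_commutator]
    exact Subgroup.commutator_mono le_top le_top
  exact hle (Subgroup.mem_map_of_mem _ hs)

theorem act_dm_pow (μ : F) (hμ : μ * μ ^ q = 1) (k : ℕ) :
    act ((dm hF μ hμ) ^ k) (Pi.single 0 1) = μ ^ k • Pi.single 0 1 := by
  induction k with
  | zero => simp [act_one]
  | succ k ih =>
    rw [pow_succ', act_mul, ih, act_smul, act_dm_e0, smul_smul, pow_succ]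

theorem dm_pow_q (μ : F) (hμ : μ * μ ^ q = 1) : (dm hF μ hμ) ^ (q + 1) = 1 := by
  apply su2_eq_of_act hF (y := Pi.single 0 1)
  · have := e0_unit (m := 1) (F := F) (q := q) hF
    rw [this]
    exact one_ne_zero
  · rw [act_dm_pow, act_one, pow_succ', hμ, one_smul]

theorem dm_ne_one {μ : F} (hμ : μ * μ ^ q = 1) (h1 : μ ≠ 1) : dm hF μ hμ ≠ 1 := by
  intro h
  have h2 := act_dm_e0 hF μ hμ
  rw [h, act_one] at h2
  have h3 := congrFun h2 0
  simp at h3
  exact h1 h3.symm

/-- Normalization of a fixed vector. -/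
theorem unit_of_fix {m : SU 2 F q →* SU 3 F q} (hm : Function.Injective m) {a : Fin 3 → F} (ha0 : a ≠ 0)
    (hfix : ∀ x, act (m x) a = a) : ∃ a' : Fin 3 → F, ⟪a', a'⟫ = 1 ∧ ∀ x, act (m x) a' = a' := by
  have h0 : ⟪a, a⟫ ≠ 0 := by
    intro h0
    obtain ⟨p, n, hp, hn, hc, rfl⟩ := exists_char_pow hF
    haveI : Fact p.Prime := ⟨hp⟩
    obtain ⟨ζ, hζ, hζ1⟩ := UnitaryBasic.exists_nrm_one_ne_one hF
    have hζ' : ζ * ζ ^ (p ^ n) = 1 := hζ
    have h1 : (m (dm hF ζ hζ')) ^ (p ^ n + 1) = 1 := by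
      rw [← map_pow, dm_pow_q, map_one]
    have hcop : Nat.Coprime (p ^ n + 1) p := by
      apply Nat.Coprime.symm
      rw [Nat.Prime.coprime_iff_not_dvd hp]
      intro hd
      have h2 : p ∣ p ^ n := dvd_pow_self p (by omega)
      have h3 : p ∣ 1 := (Nat.dvd_add_right h2).1 hd
      exact hp.one_lt.ne' (Nat.dvd_one.1 h3)
    have h2 := iso_fix_eq_one hF ha0 h0 (hfix _) h1 hcop
    apply dm_ne_one hF hζ' hζ1
    apply hm
    rw [h2, map_one]
  have hcq : (⟪a, a⟫) ^ q = ⟪a, a⟫ := hermForm_conj hF a a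
  obtain ⟨μ, hμ0, hμ⟩ := exists_norm hF _ h0 hcq
  refine ⟨μ⁻¹ • a, ?_, fun x => ?_⟩
  · rw [hermForm_smul_left, hermForm_smul_right, ← hμ, inv_pow]
    have hμq : μ ^ q ≠ 0 := pow_ne_zero _ hμ0
    change μ⁻¹ * ((μ ^ q)⁻¹ * (μ * μ ^ q)) = 1
    field_simp
  · rw [act_smul, hfix]

/-- The case of odd characteristic. -/
theorem exists_fix_odd (hq : 4 ≤ q) (h2 : (2 : F) ≠ 0) {m : SU 2 F q →* SU 3 F q} (hm : Function.Injective m) :
    ∃ a : Fin 3 → F, a ≠ 0 ∧ ∀ x, act (m x) a = a := by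
  have hm1 : (-1 : F) * (-1 : F) ^ q = 1 := by
    rw [neg_pow_q hF, one_pow]
    ring
  have hm1q : (-1 : F) ^ q = -1 := by rw [neg_pow_q hF, one_pow]
  set z₀ := dm hF (-1) hm1 with hz₀
  have hz₀m : ((z₀ : Matrix.SpecialLinearGroup (Fin 2) F) : Matrix (Fin 2) (Fin 2) F) = -1 := by
    rw [hz₀, dm_mat, hm1q]
    ext i j
    fin_cases i <;> fin_cases j <;> simp
  have hcen : ∀ x : SU 2 F q, x * z₀ = z₀ * x := by
    intro x
    apply Subtype.ext
    apply Subtype.ext
    change ((x : Matrix.SpecialLinearGroup (Fin 2) F) : Matrix (Fin 2) (Fin 2) F) * ((z₀ : Matrix.SpecialLinearGroup (Fin 2) F) : Matrix (Fin 2) (Fin 2) F) =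
      ((z₀ : Matrix.SpecialLinearGroup (Fin 2) F) : Matrix (Fin 2) (Fin 2) F) * ((x : Matrix.SpecialLinearGroup (Fin 2) F) : Matrix (Fin 2) (Fin 2) F)
    rw [hz₀m]
    simp
  have hsq : z₀ ^ 2 = 1 := by
    apply Subtype.ext
    apply Subtype.ext
    rw [pow_coe_su, hz₀m]
    simp
  have hne1 : (-1 : F) ≠ 1 := by
    intro h
    apply h2
    linear_combination -h
  have hz1 : z₀ ≠ 1 := dm_ne_one hF hm1 hne1
  set y := m z₀ with hy
  have hy2 : y ^ 2 = 1 := by rw [hy, ← map_pow, hsq, map_one]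
  have hy1 : y ≠ 1 := by
    intro h
    apply hz1
    apply hm
    rw [map_one]
    exact h
  have hyy : ∀ u, act y (act y u) = u := by
    intro u
    rw [← act_mul, ← sq, hy2, act_one]
  -- a fixed vector
  obtain ⟨v, hv0, hv⟩ : ∃ v : Fin 3 → F, v ≠ 0 ∧ act y v = v := by
    by_contra hno
    push Not at hno
    have hneg : ∀ u, act y u = -u := by
      intro u
      have h3 : act y (u + act y u) = u + act y u := by
        rw [act_add, hyy, add_comm]
      by_contra hne
      have h4 : u + act y u ≠ 0 := by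
        intro h5
        apply hne
        exact eq_neg_of_add_eq_zero_right h5
      exact hno _ h4 h3
    have hmat : ((y : Matrix.SpecialLinearGroup (Fin 3) F) : Matrix (Fin 3) (Fin 3) F) = -1 := by
      ext i j
      have h3 := congrFun (hneg (Pi.single j 1)) i
      simp only [act, Matrix.mulVec_single_one, Matrix.col_apply, Pi.neg_apply, Pi.single_apply] at h3
      rw [h3, Matrix.neg_apply, Matrix.one_apply]
    have hd := (y : Matrix.SpecialLinearGroup (Fin 3) F).2
    rw [hmat, Matrix.det_neg, Matrix.det_one] at hd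
    simp at hd
    apply h2
    have h5 : (-1 : F) ^ 3 * 1 = 1 := by simpa using hd
    linear_combination -h5
  -- it is not isotropic
  have h0 : ⟪v, v⟫ ≠ 0 := by
    intro h0
    obtain ⟨p, n, hp, hn, hc, rfl⟩ := exists_char_pow hF
    haveI : Fact p.Prime := ⟨hp⟩
    have hcop : Nat.Coprime 2 p := by
      rw [Nat.coprime_primes Nat.prime_two hp]
      rintro rfl
      apply h2
      exact_mod_cast CharP.cast_eq_zero F 2
    exact hy1 (iso_fix_eq_one hF hv0 h0 hv hy2 hcop)
  have hcq : (⟪v, v⟫) ^ q = ⟪v, v⟫ := hermForm_conj hF v v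
  obtain ⟨μ, hμ0, hμ⟩ := exists_norm hF _ h0 hcq
  set a := μ⁻¹ • v with ha
  have haa : ⟪a, a⟫ = 1 := by
    rw [ha, hermForm_smul_left, hermForm_smul_right, ← hμ, inv_pow]
    have hμq : μ ^ q ≠ 0 := pow_ne_zero _ hμ0
    change μ⁻¹ * ((μ ^ q)⁻¹ * (μ * μ ^ q)) = 1
    field_simp
  have hya : act y a = a := by rw [ha, act_smul, hv]
  have ha0 : a ≠ 0 := by
    intro h
    rw [h] at haa
    simp [hermForm] at haa
  have hcast : ((2 : ℕ) : F) ≠ 0 := by exact_mod_cast h2
  have hline : ∀ x : SU 2 F q, act (m x) a = ⟪act (m x) a, a⟫ • a := by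
    intro x
    apply fix_line hF haa hya hcast hy2 hy1
    rw [hy, ← act_mul, ← map_mul, ← hcen, map_mul, act_mul, ← hy, hya]
  let χ₀ : SU 2 F q →* F :=
    { toFun := fun x => ⟪act (m x) a, a⟫
      map_one' := by simp [act_one, haa]
      map_mul' := fun x x' => by
        rw [map_mul, act_mul]
        nth_rw 1 [hline x']
        rw [act_smul, hermForm_smul_left, mul_comm] }
  let χ : SU 2 F q →* Fˣ := χ₀.toHomUnits
  have hker : commutator (SU 2 F q) ≤ χ.ker := by
    rw [commutator_def, Subgroup.commutator_le]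
    intro b _ c _
    rw [MonoidHom.mem_ker, map_commutatorElement, commutatorElement_eq_one_iff_mul_comm, mul_comm]
  rw [su2_perfect hF hq] at hker
  refine ⟨a, ha0, fun x => ?_⟩
  have h3 : χ x = 1 := hker (Subgroup.mem_top x)
  have h4 : χ₀ x = 1 := by
    have := congrArg Units.val h3
    simpa [χ] using this
  have h5 : ⟪act (m x) a, a⟫ = 1 := h4
  rw [hline x, h5, one_smul]

omit hF in
theorem Tu_mul {K : Type*} [Field K] (s t : K) :
    OrthoFourPlus.Tu s * OrthoFourPlus.Tu t = OrthoFourPlus.Tu (s + t) := by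
  apply Subtype.ext
  change !![(1 : K), s; 0, 1] * !![1, t; 0, 1] = !![1, s + t; 0, 1]
  ext i j
  fin_cases i <;> fin_cases j <;> simp [Matrix.mul_apply, Fin.sum_univ_two, add_comm]

omit hF in
theorem Tl_mul {K : Type*} [Field K] (s t : K) :
    OrthoFourPlus.Tl s * OrthoFourPlus.Tl t = OrthoFourPlus.Tl (s + t) := by
  apply Subtype.ext
  change !![(1 : K), 0; s, 1] * !![1, 0; t, 1] = !![1, 0; s + t, 1]
  ext i j
  fin_cases i <;> fin_cases j <;> simp [Matrix.mul_apply, Fin.sum_univ_two, add_comm]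

omit hF in
theorem Tu_zero {K : Type*} [Field K] : OrthoFourPlus.Tu (0 : K) = 1 := by
  apply Subtype.ext
  change !![(1 : K), 0; 0, 1] = 1
  ext i j
  fin_cases i <;> fin_cases j <;> simp

omit hF in
theorem Tl_zero {K : Type*} [Field K] : OrthoFourPlus.Tl (0 : K) = 1 := by
  apply Subtype.ext
  change !![(1 : K), 0; 0, 1] = 1
  ext i j
  fin_cases i <;> fin_cases j <;> simp

omit hF in
theorem Tu_one_ne {K : Type*} [Field K] : OrthoFourPlus.Tu (1 : K) ≠ 1 := by
  intro h
  have h1 := congrArg (fun g : Matrix.SpecialLinearGroup (Fin 2) K => g.1 0 1) h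
  simp [OrthoFourPlus.Tu] at h1

omit hF in
theorem Tl_one_ne {K : Type*} [Field K] : OrthoFourPlus.Tl (1 : K) ≠ 1 := by
  intro h
  have h1 := congrArg (fun g : Matrix.SpecialLinearGroup (Fin 2) K => g.1 1 0) h
  simp [OrthoFourPlus.Tl] at h1

omit hF in
/-- The fixed isotropic vector of the image of a root group. -/
theorem exists_root_fixed {p n : ℕ} [Fact p.Prime] [CharP F p] (hF' : Fintype.card F = (p ^ n) ^ 2)
    (h2 : (2 : F) = 0) (hp2 : p = 2) {K : Type*} [Field K] (hK2 : (2 : K) = 0)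
    (ρ : Multiplicative K →* SU 3 F (p ^ n)) (hne : ρ (Multiplicative.ofAdd 1) ≠ 1) :
    ∃ r : Fin 3 → F, r ≠ 0 ∧ hermForm 3 F (p ^ n) r r = 0 ∧
      ∀ (t : K) (v : Fin 3 → F), hermForm 3 F (p ^ n) v r = 0 → act (ρ (Multiplicative.ofAdd t)) v = v := by
  have hsq : ∀ t : Multiplicative K, t ^ 2 = 1 := by
    intro t
    change Multiplicative.ofAdd (2 • Multiplicative.toAdd t) = Multiplicative.ofAdd 0
    congr 1
    rw [two_nsmul, ← two_mul, hK2, zero_mul]
  have hP : IsPGroup p ρ.range := by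
    rintro ⟨_, t, rfl⟩
    refine ⟨1, Subtype.ext ?_⟩
    change (ρ t) ^ (p ^ 1) = 1
    have e : (ρ t) ^ (p ^ 1) = (ρ t) ^ 2 := congrArg _ (by rw [pow_one]; exact hp2)
    rw [e, ← map_pow, hsq, map_one]
  have hbot : ρ.range ≠ ⊥ := by
    intro h
    apply hne
    have h3 : ρ (Multiplicative.ofAdd 1) ∈ ρ.range := ⟨_, rfl⟩
    rw [h] at h3
    exact h3
  obtain ⟨r, hr0, hrr, hfix⟩ := SU3Sylow.exists_isotropic_fixed hF' ρ.range hP hbot
  have hrr' : hermForm 3 F (p ^ n) r r = 0 := by rw [SU3Sylow.herm_eq]; exact hrr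
  refine ⟨r, hr0, hrr', fun t v hv => ?_⟩
  apply inv_fix_perp hF' h2 _ hr0 hrr' _ hv
  · rw [← map_pow, hsq, map_one]
  · exact hfix _ ⟨_, rfl⟩

/-- The case of characteristic two. -/
theorem exists_fix_even (h2 : (2 : F) = 0) {m : SU 2 F q →* SU 3 F q} (hm : Function.Injective m) :
    ∃ a : Fin 3 → F, a ≠ 0 ∧ ∀ x, act (m x) a = a := by
  classical
  obtain ⟨p, n, hp, hn, hc, rfl⟩ := exists_char_pow hF
  haveI : Fact p.Prime := ⟨hp⟩
  have hp2 : p = 2 := by
    have h3 : p ∣ 2 := (CharP.cast_eq_zero_iff F p 2).1 (by exact_mod_cast h2)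
    exact (Nat.prime_dvd_prime_iff_eq hp Nat.prime_two).1 h3
  obtain ⟨K, _, hK⟩ := exists_subfield hF
  obtain ⟨_, _, Φ, -, -⟩ := exists_Phi hF hK K.subtype
  have hK2 : (2 : K) = 0 := by
    apply K.subtype.injective
    rw [map_ofNat, map_zero]
    exact h2
  let μ : Matrix.SpecialLinearGroup (Fin 2) K →* SU 3 F (p ^ n) := m.comp Φ.toMonoidHom
  have hμ : Function.Injective μ := hm.comp Φ.injective
  let ρu : Multiplicative K →* SU 3 F (p ^ n) := MonoidHom.mk' (fun t => μ (OrthoFourPlus.Tu (Multiplicative.toAdd t))) (by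
    intro s t
    rw [← map_mul, Tu_mul]
    rfl)
  let ρl : Multiplicative K →* SU 3 F (p ^ n) := MonoidHom.mk' (fun t => μ (OrthoFourPlus.Tl (Multiplicative.toAdd t))) (by
    intro s t
    rw [← map_mul, Tl_mul]
    rfl)
  have hneu : ρu (Multiplicative.ofAdd 1) ≠ 1 := by
    intro h
    apply Tu_one_ne (K := K)
    apply hμ
    rw [map_one]
    exact h
  have hnel : ρl (Multiplicative.ofAdd 1) ≠ 1 := by
    intro h
    apply Tl_one_ne (K := K)
    apply hμ
    rw [map_one]
    exact h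
  obtain ⟨r₀, -, -, h0⟩ := exists_root_fixed hF h2 hp2 hK2 ρu hneu
  obtain ⟨r₁, -, -, h1⟩ := exists_root_fixed hF h2 hp2 hK2 ρl hnel
  obtain ⟨a, ha0, ha1, ha2⟩ := SU3Sylow.exists_ne_zero_ker (SU3Sylow.conj' p n r₀) (SU3Sylow.conj' p n r₁)
  refine ⟨a, ha0, fun x => ?_⟩
  have htop := OrthoFourPlus.sl2_generated ((SU3Sylow.stabSU p n F a).comap μ)
    (fun t => h0 t a (by rw [SU3Sylow.herm_eq]; exact ha1))
    (fun t => h1 t a (by rw [SU3Sylow.herm_eq]; exact ha2))
  obtain ⟨s, rfl⟩ := Φ.surjective x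
  have h3 : s ∈ (SU3Sylow.stabSU p n F a).comap μ := by rw [htop]; trivial
  exact h3

/-- A subgroup of `SU₃` isomorphic to `SU₂` fixes a vector of norm one. -/
theorem exists_fix_of_hom (hq : 4 ≤ q) {m : SU 2 F q →* SU 3 F q} (hm : Function.Injective m) :
    ∃ a : Fin 3 → F, ⟪a, a⟫ = 1 ∧ ∀ x, act (m x) a = a := by
  have h : ∃ a : Fin 3 → F, a ≠ 0 ∧ ∀ x, act (m x) a = a := by
    by_cases h2 : (2 : F) = 0
    · exact exists_fix_even hF h2 hm
    · exact exists_fix_odd hF hq h2 hm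
  obtain ⟨a, ha0, ha⟩ := h
  exact unit_of_fix hF hm ha0 ha

end Main

end Cfsg.Agent.Lib.Phan
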