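import Cfsg.Agent.Lib.Phan.Basic
import Cfsg.Agent.Lib.HermLines

/-!
# Geometry of unit vectors in a hermitian space
-/

set_option autoImplicit false
set_option linter.unusedSectionVars false
set_option linter.unusedSimpArgs false
set_option linter.unusedVariables false

namespace Cfsg.Agent.Lib.Phan

open Matrix Cfsg Cfsg.Agent.Lib.HermForm Cfsg.Agent.Lib.SUGen Cfsg.Agent.Lib.FFNorm Cfsg.Agent.Lib
open Module

variable {F : Type*} [Field F] [Fintype F] {q n : ℕ}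

local notation "⟪" x ", " y "⟫" => hermForm _ F q x y

/-- Two vectors spanning a nondegenerate plane, for unit vectors. -/
def Near (q : ℕ) (x y : Fin n → F) : Prop := hermForm n F q x y * hermForm n F q y x ≠ 1

theorem Near.symm {x y : Fin n → F} (h : Near q x y) : Near q y x := by
  unfold Near at *
  rwa [mul_comm]

section

variable (hF : Fintype.card F = q ^ 2)
include hF

theorem near_of_orth {x y : Fin n → F} (h : ⟪x, y⟫ = 0) : Near q x y := by
  unfold Near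
  rw [h, zero_mul]
  exact zero_ne_one

theorem herm_zero_symm {x y : Fin n → F} (h : ⟪x, y⟫ = 0) : ⟪y, x⟫ = 0 := SUGen.conj_zero hF h

theorem exists_norm' {t : F} (htq : t ^ q = t) : ∃ c : F, c * c ^ q = t := by
  by_cases ht : t = 0
  · refine ⟨0, ?_⟩
    rw [ht, zero_mul]
  · obtain ⟨c, -, hc⟩ := exists_norm hF t ht htq
    exact ⟨c, hc⟩

theorem conj_nrm (c : F) : (c * c ^ q) ^ q = c * c ^ q := by
  rw [mul_pow, pow_pow_self hF, mul_comm]

theorem nrm_ne_zero {c : F} (hc : c ≠ 0) : c * c ^ q ≠ 0 := mul_ne_zero hc (pow_ne_zero _ hc)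

/-- A norm one vector orthogonal to three orthogonal anisotropic vectors. -/
theorem exists_norm_one_perp₃ (hn : 4 ≤ n) {a b c : Fin n → F} (ha : ⟪a, a⟫ ≠ 0)
    (hb : ⟪b, b⟫ ≠ 0) (hc : ⟪c, c⟫ ≠ 0) (hab : ⟪a, b⟫ = 0) (hac : ⟪a, c⟫ = 0) (hbc : ⟪b, c⟫ = 0) :
    ∃ z, ⟪z, z⟫ = 1 ∧ ⟪z, a⟫ = 0 ∧ ⟪z, b⟫ = 0 ∧ ⟪z, c⟫ = 0 := by
  have hba : ⟪b, a⟫ = 0 := SUGen.conj_zero hF hab
  have hca : ⟪c, a⟫ = 0 := SUGen.conj_zero hF hac
  have hcb : ⟪c, b⟫ = 0 := SUGen.conj_zero hF hbc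
  have hND : HermOrtho.ND q (Submodule.span F {a, b, c}) := by
    intro u hu hperp
    obtain ⟨α, β, γ, rfl⟩ := Submodule.mem_span_triple.1 hu
    have h1 := hperp a (Submodule.subset_span (by simp))
    have h2 := hperp b (Submodule.subset_span (by simp))
    have h3 := hperp c (Submodule.subset_span (by simp))
    simp only [hermForm_add_left, hermForm_smul_left, hba, hca, hab, hcb, hac, hbc, mul_zero, add_zero,
      zero_add] at h1 h2 h3
    have h4 : α = 0 := (mul_eq_zero.1 h1).resolve_right ha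
    have h5 : β = 0 := (mul_eq_zero.1 h2).resolve_right hb
    have h6 : γ = 0 := (mul_eq_zero.1 h3).resolve_right hc
    rw [h4, h5, h6]
    simp
  have hlt : finrank F (Submodule.span F {a, b, c}) < n := by
    classical
    have := finrank_span_finset_le_card (R := F) ({a, b, c} : Finset (Fin n → F))
    have h6 : ((({a, b, c} : Finset (Fin n → F))) : Set (Fin n → F)) = {a, b, c} := by simp
    rw [Set.finrank, h6] at this
    have h5 : ({a, b, c} : Finset (Fin n → F)).card ≤ 3 := Finset.card_le_three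
    omega
  obtain ⟨z, hz, hza⟩ := exists_norm_one_perp hF hND hlt
  exact ⟨z, hz, hza a (Submodule.subset_span (by simp)), hza b (Submodule.subset_span (by simp)),
    hza c (Submodule.subset_span (by simp))⟩

end

/-! ### Projections -/

/-- Projection to the orthogonal complement of a unit vector. -/
def P1 (q : ℕ) (x z : Fin n → F) : Fin n → F := z - hermForm n F q z x • x

/-- Projection to the orthogonal complement of a plane. -/
def pr2 (q : ℕ) (x y z : Fin n → F) : Fin n → F :=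
  P1 q x z - (hermForm n F q (P1 q x z) (P1 q x y) / hermForm n F q (P1 q x y) (P1 q x y)) • P1 q x y

section

variable (hF : Fintype.card F = q ^ 2)
include hF

theorem P1_left (x y w : Fin n → F) : ⟪P1 q x y, w⟫ = ⟪y, w⟫ - ⟪y, x⟫ * ⟪x, w⟫ := by
  rw [P1, hermForm_sub_left, hermForm_smul_left]

theorem P1_right (x y w : Fin n → F) : ⟪w, P1 q x y⟫ = ⟪w, y⟫ - ⟪x, y⟫ * ⟪w, x⟫ := by
  rw [P1, hermForm_sub_right hF, hermForm_smul_right, hermForm_conj hF]

theorem P1_perp {x : Fin n → F} (hx : ⟪x, x⟫ = 1) (z : Fin n → F) : ⟪P1 q x z, x⟫ = 0 := by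
  rw [P1_left hF, hx]
  ring

theorem perp_P1 {x : Fin n → F} (hx : ⟪x, x⟫ = 1) (z : Fin n → F) : ⟪x, P1 q x z⟫ = 0 := by
  rw [P1_right hF, hx]
  ring

theorem P1_norm {x : Fin n → F} (hx : ⟪x, x⟫ = 1) (y : Fin n → F) :
    ⟪P1 q x y, P1 q x y⟫ = ⟪y, y⟫ - ⟪y, x⟫ * ⟪x, y⟫ := by
  rw [P1_left hF, perp_P1 hF hx, P1_right hF]
  ring

theorem P1_norm_ne {x y : Fin n → F} (hx : ⟪x, x⟫ = 1) (hy : ⟪y, y⟫ = 1) (hxy : Near q x y) :
    ⟪P1 q x y, P1 q x y⟫ ≠ 0 := by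
  rw [P1_norm hF hx, hy]
  intro h
  apply hxy
  linear_combination -h

variable {x y : Fin n → F} (hx : hermForm n F q x x = 1) (hy : hermForm n F q y y = 1) (hxy : Near q x y)
include hx hy hxy

theorem pr2_left (z w : Fin n → F) : ⟪pr2 q x y z, w⟫ =
    ⟪P1 q x z, w⟫ - (⟪P1 q x z, P1 q x y⟫ / ⟪P1 q x y, P1 q x y⟫) * ⟪P1 q x y, w⟫ := by
  rw [pr2, hermForm_sub_left, hermForm_smul_left]

theorem pr2_right (z w : Fin n → F) : ⟪w, pr2 q x y z⟫ =
    ⟪w, P1 q x z⟫ - (⟪P1 q x y, P1 q x z⟫ / ⟪P1 q x y, P1 q x y⟫) * ⟪w, P1 q x y⟫ := by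
  rw [pr2, hermForm_sub_right hF, hermForm_smul_right, div_pow, hermForm_conj hF, hermForm_conj hF]

theorem pr2_perp_x (z : Fin n → F) : ⟪pr2 q x y z, x⟫ = 0 := by
  rw [pr2_left hF hx hy hxy, P1_perp hF hx, P1_perp hF hx]
  ring

theorem pr2_perp_y1 (z : Fin n → F) : ⟪pr2 q x y z, P1 q x y⟫ = 0 := by
  rw [pr2_left hF hx hy hxy]
  have := P1_norm_ne hF hx hy hxy
  field_simp
  ring

theorem pr2_perp_y (z : Fin n → F) : ⟪pr2 q x y z, y⟫ = 0 := by
  have h1 := pr2_perp_y1 hF hx hy hxy z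
  rw [P1_right hF, pr2_perp_x hF hx hy hxy, mul_zero, sub_zero] at h1
  exact h1

/-- The main existence statement for a perpendicular unit vector. -/
theorem exists_t (hn : 4 ≤ n) {z : Fin n → F}
    (hz : pr2 q x y z = 0 ∨ ⟪pr2 q x y z, pr2 q x y z⟫ ≠ 0) :
    ∃ t, ⟪t, t⟫ = 1 ∧ ⟪t, x⟫ = 0 ∧ ⟪t, y⟫ = 0 ∧ ⟪t, z⟫ = 0 := by
  have hg := P1_norm_ne hF hx hy hxy
  have hx0 : ⟪x, x⟫ ≠ 0 := by rw [hx]; exact one_ne_zero
  have h01 : ⟪x, P1 q x y⟫ = 0 := perp_P1 hF hx y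
  obtain ⟨t, ht, htx, hty1, htz'⟩ : ∃ t, ⟪t, t⟫ = 1 ∧ ⟪t, x⟫ = 0 ∧ ⟪t, P1 q x y⟫ = 0 ∧ ⟪t, pr2 q x y z⟫ = 0 := by
    rcases hz with hz | hz
    · obtain ⟨t, h1, h2, h3⟩ := exists_norm_one_perp₂ hF (by omega) hx0 hg h01
      refine ⟨t, h1, h2, h3, ?_⟩
      rw [hz, hermForm_zero_right hF]
    · have h02 : ⟪x, pr2 q x y z⟫ = 0 := SUGen.conj_zero hF (pr2_perp_x hF hx hy hxy z)
      have h03 : ⟪P1 q x y, pr2 q x y z⟫ = 0 := SUGen.conj_zero hF (pr2_perp_y1 hF hx hy hxy z)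
      exact exists_norm_one_perp₃ hF hn hx0 hg hz h01 h02 h03
  refine ⟨t, ht, htx, ?_, ?_⟩
  · rw [P1_right hF, htx, mul_zero, sub_zero] at hty1
    exact hty1
  · rw [pr2_right hF hx hy hxy, hty1, mul_zero, sub_zero, P1_right hF, htx, mul_zero, sub_zero] at htz'
    exact htz'

end

/-! ### Vectors near two given vectors -/

/-- The polynomial controlling nearness. -/
noncomputable def PP (q : ℕ) (a b : F) : Polynomial F :=
  Polynomial.C (1 - a * a ^ q) + Polynomial.C (1 - b * b ^ q) * Polynomial.X ^ (q + 1)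
    - Polynomial.C (a * b ^ q) * Polynomial.X ^ q - Polynomial.C (a ^ q * b) * Polynomial.X ^ 1

theorem PP_eval (a b l : F) : (PP q a b).eval l = (1 + l * l ^ q) - (a + l * b) * (a ^ q + l ^ q * b ^ q) := by
  simp only [PP, Polynomial.eval_sub, Polynomial.eval_add, Polynomial.eval_C, Polynomial.eval_mul,
    Polynomial.eval_pow, Polynomial.eval_X]
  ring

theorem PP_natDegree (a b : F) : (PP q a b).natDegree ≤ q + 1 := by
  unfold PP
  compute_degree

theorem PP_ne_zero (hF : Fintype.card F = q ^ 2) (a b : F) : PP q a b ≠ 0 := by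
  intro h
  have hq := two_le hF
  have c0 := congrArg (fun p => Polynomial.coeff p 0) h
  have c1 := congrArg (fun p => Polynomial.coeff p (q + 1)) h
  have c2 := congrArg (fun p => Polynomial.coeff p q) h
  simp only [PP, Polynomial.coeff_sub, Polynomial.coeff_add, Polynomial.coeff_C, Polynomial.coeff_C_mul,
    Polynomial.coeff_X_pow, Polynomial.coeff_zero] at c0 c1 c2
  have n1 : ¬ (0 = q + 1) := by omega
  have n2 : ¬ (0 = q) := by omega
  have n3 : ¬ ((0 : ℕ) = 1) := by omega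
  have n4 : ¬ (q + 1 = 0) := by omega
  have n5 : ¬ (q + 1 = q) := by omega
  have n6 : ¬ (q + 1 = 1) := by omega
  have n7 : ¬ (q = 0) := by omega
  have n8 : ¬ (q = q + 1) := by omega
  have n9 : ¬ (q = 1) := by omega
  rw [if_neg n1, if_neg n2, if_neg n3] at c0
  rw [if_neg n4, if_neg n5, if_neg n6] at c1
  rw [if_neg n7, if_neg n8, if_neg n9] at c2
  rw [if_pos trivial] at c0 c1 c2
  have h1 : a * a ^ q = 1 := by linear_combination -c0
  have h2 : b * b ^ q = 1 := by linear_combination -c1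
  have h3 : a * b ^ q = 0 := by linear_combination -c2
  have h4 : a ≠ 0 := by
    rintro rfl
    rw [zero_mul] at h1
    exact zero_ne_one h1
  have h5 : b ^ q ≠ 0 := by
    intro h0
    rw [h0, mul_zero] at h2
    exact zero_ne_one h2
  exact mul_ne_zero h4 h5 h3

theorem exists_lambda (hF : Fintype.card F = q ^ 2) (hq : 4 ≤ q) (a₁ b₁ a₂ b₂ : F) :
    ∃ l : F, 1 + l * l ^ q ≠ 0 ∧ (1 + l * l ^ q) - (a₁ + l * b₁) * (a₁ ^ q + l ^ q * b₁ ^ q) ≠ 0 ∧
      (1 + l * l ^ q) - (a₂ + l * b₂) * (a₂ ^ q + l ^ q * b₂ ^ q) ≠ 0 := by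
  set f : Polynomial F := PP q 0 0 * PP q a₁ b₁ * PP q a₂ b₂ with hf
  have hne : f ≠ 0 := mul_ne_zero (mul_ne_zero (PP_ne_zero hF _ _) (PP_ne_zero hF _ _)) (PP_ne_zero hF _ _)
  have hdeg : f.natDegree < q ^ 2 := by
    have h1 : f.natDegree ≤ (q + 1) + (q + 1) + (q + 1) := by
      refine Polynomial.natDegree_mul_le.trans (add_le_add (Polynomial.natDegree_mul_le.trans
        (add_le_add (PP_natDegree _ _) (PP_natDegree _ _))) (PP_natDegree _ _))
    nlinarith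
  obtain ⟨l, hl⟩ := Polynomial.exists_eval_ne_zero_of_natDegree_lt_card f hne (by
    rw [Cardinal.mk_fintype, hF]
    exact_mod_cast hdeg)
  refine ⟨l, ?_, ?_, ?_⟩
  · intro h0
    apply hl
    rw [hf, Polynomial.eval_mul, Polynomial.eval_mul, PP_eval]
    have : (1 + l * l ^ q) - ((0 : F) + l * 0) * ((0 : F) ^ q + l ^ q * (0 : F) ^ q) = 1 + l * l ^ q := by ring
    rw [this, h0]
    ring
  · intro h0
    apply hl
    rw [hf, Polynomial.eval_mul, Polynomial.eval_mul, (PP_eval (q := q) a₁ b₁ l).trans h0]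
    ring
  · intro h0
    apply hl
    rw [hf, Polynomial.eval_mul, (PP_eval (q := q) a₂ b₂ l).trans h0]
    ring

section

variable (hF : Fintype.card F = q ^ 2)
include hF

/-- A unit vector in an orthonormal pair near two given vectors. -/
theorem exists_near_in_plane (hq : 4 ≤ q) {f f' : Fin n → F} (hf : ⟪f, f⟫ = 1) (hf' : ⟪f', f'⟫ = 1)
    (hff' : ⟪f, f'⟫ = 0) (x₁ x₂ : Fin n → F) :
    ∃ c d : F, ⟪c • f + d • f', c • f + d • f'⟫ = 1 ∧ Near q (c • f + d • f') x₁ ∧ Near q (c • f + d • f') x₂ := by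
  have hf'f : ⟪f', f⟫ = 0 := SUGen.conj_zero hF hff'
  obtain ⟨l, hl0, hl1, hl2⟩ := exists_lambda hF hq ⟪f, x₁⟫ ⟪f', x₁⟫ ⟪f, x₂⟫ ⟪f', x₂⟫
  have htq : (1 + l * l ^ q) ^ q = 1 + l * l ^ q := by
    rw [add_pow_q hF, one_pow, conj_nrm hF]
  obtain ⟨μ, hμ0, hμ⟩ := exists_norm hF _ hl0 htq
  have hμq : μ ^ q ≠ 0 := pow_ne_zero _ hμ0
  have hnear : ∀ x : Fin n → F, (1 + l * l ^ q) - (⟪f, x⟫ + l * ⟪f', x⟫) * (⟪f, x⟫ ^ q + l ^ q * ⟪f', x⟫ ^ q) ≠ 0 →
      Near q (μ⁻¹ • f + (μ⁻¹ * l) • f') x := by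
    intro x hx h1
    apply hx
    have e1 : ⟪μ⁻¹ • f + (μ⁻¹ * l) • f', x⟫ = μ⁻¹ * (⟪f, x⟫ + l * ⟪f', x⟫) := by
      rw [hermForm_add_left, hermForm_smul_left, hermForm_smul_left]
      ring
    have e2 : ⟪x, μ⁻¹ • f + (μ⁻¹ * l) • f'⟫ = (μ ^ q)⁻¹ * (⟪f, x⟫ ^ q + l ^ q * ⟪f', x⟫ ^ q) := by
      rw [hermForm_add_right hF, hermForm_smul_right, hermForm_smul_right, mul_pow, inv_pow,
        hermForm_conj hF, hermForm_conj hF]
      ring
    rw [e1, e2] at h1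
    rw [← hμ]
    field_simp at h1
    linear_combination -h1
  refine ⟨μ⁻¹, μ⁻¹ * l, ?_, hnear _ hl1, hnear _ hl2⟩
  simp only [hermForm_add_left, hermForm_add_right hF, hermForm_smul_left, hermForm_smul_right, hf, hf',
    hff', hf'f, mul_pow, inv_pow]
  have : μ⁻¹ * (μ ^ q)⁻¹ * (1 + l * l ^ q) = 1 := by
    rw [← hμ]
    field_simp
  linear_combination this

/-- A unit vector near four given vectors, the first two forming a nondegenerate plane. -/
theorem exists_near_four (hn : 4 ≤ n) (hq : 4 ≤ q) {x₁ x₂ : Fin n → F} (h1 : ⟪x₁, x₁⟫ = 1)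
    (h2 : ⟪x₂, x₂⟫ = 1) (h12 : Near q x₁ x₂) (x₃ x₄ : Fin n → F) :
    ∃ w, ⟪w, w⟫ = 1 ∧ ⟪w, x₁⟫ = 0 ∧ ⟪w, x₂⟫ = 0 ∧ Near q w x₃ ∧ Near q w x₄ := by
  have hg := P1_norm_ne hF h1 h2 h12
  have hx0 : ⟪x₁, x₁⟫ ≠ 0 := by rw [h1]; exact one_ne_zero
  have h01 : ⟪x₁, P1 q x₁ x₂⟫ = 0 := perp_P1 hF h1 x₂
  obtain ⟨f, hf, hfx, hfy⟩ := exists_norm_one_perp₂ hF (by omega) hx0 hg h01
  have hf0 : ⟪f, f⟫ ≠ 0 := by rw [hf]; exact one_ne_zero
  obtain ⟨f', hf', hf'x, hf'y, hf'f⟩ := exists_norm_one_perp₃ hF hn hx0 hg hf0 h01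
    (SUGen.conj_zero hF hfx) (SUGen.conj_zero hF hfy)
  rw [P1_right hF, hfx, mul_zero, sub_zero] at hfy
  rw [P1_right hF, hf'x, mul_zero, sub_zero] at hf'y
  obtain ⟨c, d, hw, hw3, hw4⟩ := exists_near_in_plane hF hq hf hf' (SUGen.conj_zero hF hf'f) x₃ x₄
  refine ⟨c • f + d • f', hw, ?_, ?_, hw3, hw4⟩
  · rw [hermForm_add_left, hermForm_smul_left, hermForm_smul_left, hfx, hf'x]
    ring
  · rw [hermForm_add_left, hermForm_smul_left, hermForm_smul_left, hfy, hf'y]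
    ring

/-- A unit vector near two given vectors. -/
theorem exists_near_two (hn : 2 ≤ n) (hq : 4 ≤ q) (x₁ x₂ : Fin n → F) :
    ∃ w, ⟪w, w⟫ = 1 ∧ Near q w x₁ ∧ Near q w x₂ := by
  let r0 : Fin n := ⟨0, by omega⟩
  let r1 : Fin n := ⟨1, by omega⟩
  have h01 : r0 ≠ r1 := by simp [r0, r1, Fin.ext_iff]
  have hs : ∀ r s : Fin n, ⟪(Pi.single r 1 : Fin n → F), Pi.single s 1⟫ = if r = s then 1 else 0 := by
    intro r s
    rw [hermForm_single_right hF]
    simp [Pi.single_apply, eq_comm]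
  obtain ⟨c, d, hw, h3, h4⟩ := exists_near_in_plane hF hq (f := Pi.single r0 1) (f' := Pi.single r1 1)
    (by rw [hs, if_pos rfl]) (by rw [hs, if_pos rfl]) (by rw [hs, if_neg h01]) x₁ x₂
  exact ⟨_, hw, h3, h4⟩

end

/-! ### Triangles -/

/-- A triple of pairwise near unit vectors. -/
def Good (q : ℕ) (x y z : Fin n → F) : Prop :=
  hermForm n F q x x = 1 ∧ hermForm n F q y y = 1 ∧ hermForm n F q z z = 1 ∧ Near q x y ∧ Near q x z ∧ Near q y z

section Tri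

variable (hF : Fintype.card F = q ^ 2)
include hF

theorem exists_two_fixed (hq : 4 ≤ q) : ∃ a b : F, a ^ q = a ∧ b ^ q = b ∧ a ≠ 0 ∧ b ≠ 0 ∧ a ≠ 1 ∧ b ≠ 1 ∧ a ≠ b := by
  classical
  have hc := HermLines.card_fixed hF
  rw [Nat.card_eq_fintype_card, Fintype.card_subtype] at hc
  set S := Finset.univ.filter (fun c : F => c ^ q = c) with hS
  have h1 := Finset.pred_card_le_card_erase (s := S) (a := (0 : F))
  have h2 := Finset.pred_card_le_card_erase (s := S.erase (0 : F)) (a := (1 : F))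
  have h3 : 1 < ((S.erase (0 : F)).erase (1 : F)).card := by omega
  obtain ⟨a, ha, b, hb, hab⟩ := Finset.one_lt_card.1 h3
  simp only [Finset.mem_erase, hS, Finset.mem_filter, Finset.mem_univ, true_and] at ha hb
  exact ⟨a, b, ha.2.2, hb.2.2, ha.2.1, hb.2.1, ha.1, hb.1, hab⟩

/-- The norm of the projection of a vector orthogonal to `x`. -/
theorem pr2_norm {x y w : Fin n → F} (hx : hermForm n F q x x = 1) (hy : hermForm n F q y y = 1) (hxy : Near q x y)
    (hwx : ⟪w, x⟫ = 0) :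
    ⟪pr2 q x y w, pr2 q x y w⟫ = ⟪w, w⟫ - ⟪w, y⟫ * ⟪y, w⟫ / (1 - ⟪y, x⟫ * ⟪x, y⟫) := by
  have hxw : ⟪x, w⟫ = 0 := SUGen.conj_zero hF hwx
  have hg := P1_norm hF hx (y := y)
  rw [hy] at hg
  have h1 : ⟪pr2 q x y w, pr2 q x y w⟫ = ⟪pr2 q x y w, w⟫ := by
    rw [pr2_right hF hx hy hxy, pr2_perp_y1 hF hx hy hxy, mul_zero, sub_zero, P1_right hF, hxw, zero_mul,
      sub_zero]
  rw [h1, pr2_left hF hx hy hxy, hg]
  simp only [P1_left hF, P1_right hF, hwx, hxw]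
  ring

variable {T : (Fin n → F) → (Fin n → F) → (Fin n → F) → Prop}
  (s1 : ∀ x y z, Good q x y z → T x y z → T y x z)
  (s2 : ∀ x y z, Good q x y z → T x y z → T x z y)
  (s3 : ∀ x y z w, Good q x y z → hermForm n F q w w = 1 → Near q w x → Near q w y → Near q w z →
    T x y w → T x w z → T y w z → T x y z)
  (s4 : ∀ x y z t, Good q x y z → hermForm n F q t t = 1 → hermForm n F q t x = 0 → hermForm n F q t y = 0 →
    hermForm n F q t z = 0 → T x y z)

include s2 s3 s4 in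
theorem tri_core (hn : 4 ≤ n) {x y z : Fin n → F} (hG : Good q x y z) {ρ : F} (hρq : ρ ^ q = ρ) (hρ0 : ρ ≠ 0)
    (hρ1 : ρ ≠ 1) (hρx : ρ ≠ 1 - ⟪x, z⟫ * ⟪z, x⟫) (hρy : ρ ≠ 1 - ⟪y, z⟫ * ⟪z, y⟫) : T x y z := by
  obtain ⟨hx, hy, hz, hxy, hxz, hyz⟩ := hG
  by_cases hcase : pr2 q x y z = 0 ∨ ⟪pr2 q x y z, pr2 q x y z⟫ ≠ 0
  · obtain ⟨t, h1, h2, h3, h4⟩ := exists_t hF hx hy hxy hn hcase
    exact s4 x y z t ⟨hx, hy, hz, hxy, hxz, hyz⟩ h1 h2 h3 h4
  · push Not at hcase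
    obtain ⟨hz0, hzz⟩ := hcase
    set z' := pr2 q x y z with hz'
    have hz'x : ⟪z', x⟫ = 0 := pr2_perp_x hF hx hy hxy z
    have hz'y : ⟪z', y⟫ = 0 := pr2_perp_y hF hx hy hxy z
    have hz'y1 : ⟪z', P1 q x y⟫ = 0 := pr2_perp_y1 hF hx hy hxy z
    obtain ⟨v, hv⟩ := HermLines.exists_partner hF hz0
    set s := pr2 q x y v with hs
    have hsx : ⟪s, x⟫ = 0 := pr2_perp_x hF hx hy hxy v
    have hsy : ⟪s, y⟫ = 0 := pr2_perp_y hF hx hy hxy v
    have hsz : ⟪s, z'⟫ = 1 := by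
      rw [hs, pr2_left hF hx hy hxy, SUGen.conj_zero hF hz'y1, P1_left hF, SUGen.conj_zero hF hz'x, hv]
      ring
    have hzs : ⟪z', s⟫ = 1 := by
      rw [← hermForm_conj hF, hsz, one_pow]
    obtain ⟨l, hl0, hl⟩ := exists_norm hF ρ hρ0 hρq
    have hτ : (ρ⁻¹ - ⟪s, s⟫) ^ q = ρ⁻¹ - ⟪s, s⟫ := by
      rw [sub_pow_q hF, inv_pow, hρq, hermForm_conj hF]
    obtain ⟨β, hβ⟩ := HermLines.exists_trace hF hτ
    set w := l • (s + β • z') with hw
    have hwx : ⟪w, x⟫ = 0 := by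
      rw [hw, hermForm_smul_left, hermForm_add_left, hermForm_smul_left, hsx, hz'x]
      ring
    have hwy : ⟪w, y⟫ = 0 := by
      rw [hw, hermForm_smul_left, hermForm_add_left, hermForm_smul_left, hsy, hz'y]
      ring
    have hww : ⟪w, w⟫ = 1 := by
      rw [hw]
      simp only [hermForm_smul_left, hermForm_smul_right, hermForm_add_left, hermForm_add_right hF, hsz, hzs,
        hzz]
      have h5 : ρ * ρ⁻¹ = 1 := mul_inv_cancel₀ hρ0
      linear_combination (⟪s, s⟫ + β + β ^ q) * hl + ρ * hβ + h5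
    have hwz' : ⟪w, z'⟫ = l := by
      rw [hw, hermForm_smul_left, hermForm_add_left, hermForm_smul_left, hsz, hzz]
      ring
    have hwz : ⟪w, z⟫ = l := by
      have hwP : ⟪w, P1 q x z⟫ = ⟪w, z⟫ := by
        rw [P1_right hF, hwx]
        ring
      have hwP2 : ⟪w, P1 q x y⟫ = 0 := by
        rw [P1_right hF, hwx, hwy]
        ring
      have h6 := pr2_right (q := q) hF hx hy hxy z w
      rw [← hz', hwz', hwP, hwP2] at h6
      rw [h6]
      ring
    have hzw : ⟪z, w⟫ = l ^ q := by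
      rw [← hermForm_conj hF, hwz]
    have hnw : ⟪w, z⟫ * ⟪z, w⟫ = ρ := by rw [hwz, hzw, hl]
    have nwz : Near q w z := by
      unfold Near
      rw [hnw]
      exact hρ1
    have nxw : Near q x w := near_of_orth hF (SUGen.conj_zero hF hwx)
    have nyw : Near q y w := near_of_orth hF (SUGen.conj_zero hF hwy)
    -- the three triangles
    have t1 : T x y w := by
      have hn1 : ⟪pr2 q x y w, pr2 q x y w⟫ ≠ 0 := by
        rw [pr2_norm hF hx hy hxy hwx, hww, hwy]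
        simp
      obtain ⟨t, h1, h2, h3, h4⟩ := exists_t hF hx hy hxy hn (Or.inr hn1)
      exact s4 x y w t ⟨hx, hy, hww, hxy, nxw, nyw⟩ h1 h2 h3 h4
    have t2 : T x z w := by
      have hg : 1 - ⟪z, x⟫ * ⟪x, z⟫ ≠ 0 := by
        intro h0
        apply hxz
        linear_combination -h0
      have hn1 : ⟪pr2 q x z w, pr2 q x z w⟫ ≠ 0 := by
        rw [pr2_norm hF hx hz hxz hwx, hww, hnw]
        intro h0
        apply hρx
        field_simp at h0
        linear_combination -h0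
      obtain ⟨t, h1, h2, h3, h4⟩ := exists_t hF hx hz hxz hn (Or.inr hn1)
      exact s4 x z w t ⟨hx, hz, hww, hxz, nxw, nwz.symm⟩ h1 h2 h3 h4
    have t3 : T y z w := by
      have hg : 1 - ⟪z, y⟫ * ⟪y, z⟫ ≠ 0 := by
        intro h0
        apply hyz
        linear_combination -h0
      have hn1 : ⟪pr2 q y z w, pr2 q y z w⟫ ≠ 0 := by
        rw [pr2_norm hF hy hz hyz hwy, hww, hnw]
        intro h0
        apply hρy
        field_simp at h0
        linear_combination -h0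
      obtain ⟨t, h1, h2, h3, h4⟩ := exists_t hF hy hz hyz hn (Or.inr hn1)
      exact s4 y z w t ⟨hy, hz, hww, hyz, nyw, nwz.symm⟩ h1 h2 h3 h4
    exact s3 x y z w ⟨hx, hy, hz, hxy, hxz, hyz⟩ hww nxw.symm nyw.symm nwz t1
      (s2 x z w ⟨hx, hz, hww, hxz, nxw, nwz.symm⟩ t2) (s2 y z w ⟨hy, hz, hww, hyz, nyw, nwz.symm⟩ t3)

include s1 s2 s3 s4 in
/-- All triangles close, given the closure of the triangles with a common perpendicular. -/
theorem tri_all (hn : 4 ≤ n) (hq : 4 ≤ q) {x y z : Fin n → F} (hG : Good q x y z) : T x y z := by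
  obtain ⟨a, b, haq, hbq, ha0, hb0, ha1, hb1, hab⟩ := exists_two_fixed hF hq
  have hG' := hG
  obtain ⟨hx, hy, hz, hxy, hxz, hyz⟩ := hG'
  have hG2 : Good q x z y := ⟨hx, hz, hy, hxz, hxy, hyz.symm⟩
  have hG3 : Good q y z x := ⟨hy, hz, hx, hyz, hxy.symm, hxz.symm⟩
  have hG4 : Good q y x z := ⟨hy, hx, hz, hxy.symm, hyz, hxz⟩
  set G := 1 - ⟪x, y⟫ * ⟪y, x⟫ with hGd
  set H := 1 - ⟪x, z⟫ * ⟪z, x⟫ with hHd
  set K := 1 - ⟪y, z⟫ * ⟪z, y⟫ with hKd
  have R1 : ∀ ρ : F, ρ ^ q = ρ → ρ ≠ 0 → ρ ≠ 1 → ρ ≠ H → ρ ≠ K → T x y z :=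
    fun ρ h1 h2 h3 h4 h5 => tri_core hF s2 s3 s4 hn hG h1 h2 h3 h4 h5
  have R2 : ∀ ρ : F, ρ ^ q = ρ → ρ ≠ 0 → ρ ≠ 1 → ρ ≠ G → ρ ≠ K → T x y z := by
    intro ρ h1 h2 h3 h4 h5
    refine s2 x z y hG2 (tri_core hF s2 s3 s4 hn hG2 h1 h2 h3 h4 ?_)
    rw [mul_comm]
    exact h5
  have R3 : ∀ ρ : F, ρ ^ q = ρ → ρ ≠ 0 → ρ ≠ 1 → ρ ≠ G → ρ ≠ H → T x y z := by
    intro ρ h1 h2 h3 h4 h5
    refine s1 y x z hG4 (s2 y z x hG3 (tri_core hF s2 s3 s4 hn hG3 h1 h2 h3 ?_ ?_))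
    · rw [mul_comm]
      exact h4
    · rw [mul_comm]
      exact h5
  by_cases c1 : a ≠ H ∧ a ≠ K
  · exact R1 a haq ha0 ha1 c1.1 c1.2
  by_cases c2 : b ≠ H ∧ b ≠ K
  · exact R1 b hbq hb0 hb1 c2.1 c2.2
  have c1' : a = H ∨ a = K := by
    by_contra h
    push Not at h
    exact c1 h
  have c2' : b = H ∨ b = K := by
    by_contra h
    push Not at h
    exact c2 h
  rcases c1' with e1 | e1 <;> rcases c2' with e2 | e2
  · exact absurd (e1.trans e2.symm) hab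
  · by_cases c3 : a = G
    · exact R3 b hbq hb0 hb1 (fun h => hab (c3.trans h.symm)) (fun h => hab (e1.trans h.symm))
    · exact R2 a haq ha0 ha1 c3 (fun h => hab (h.trans e2.symm))
  · by_cases c3 : a = G
    · exact R2 b hbq hb0 hb1 (fun h => hab (c3.trans h.symm)) (fun h => hab (e1.trans h.symm))
    · exact R3 a haq ha0 ha1 c3 (fun h => hab (h.trans e2.symm))
  · exact absurd (e1.trans e2.symm) hab

end Tri

/-! ### Moving vectors by elements of `SU` -/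

section Gen

variable (hF : Fintype.card F = q ^ 2) {m : ℕ}

/-- The embedding on the last coordinates. -/
abbrev jR (m : ℕ) : SU m F q →* SU (m + 1) F q := bl hF (i := 1) (by omega)

/-- The embedding on the first coordinates. -/
abbrev jL (m : ℕ) : SU m F q →* SU (m + 1) F q := bl hF (i := 0) (by omega)

theorem sh_succ (a : Fin m) : shR m a = a.succ :=
  Fin.ext (by simp only [sh_val, Fin.val_succ]; omega)

theorem herm_split (x y : Fin (m + 1) → F) :
    ⟪x, y⟫ = x 0 * y 0 ^ q + ⟪x ∘ shR m, y ∘ shR m⟫ := by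
  simp only [hermForm]
  rw [Fin.sum_univ_succ]
  congr 1
  refine Finset.sum_congr rfl fun a _ => ?_
  simp only [Function.comp, sh_succ]

theorem vec_split_ext {x y : Fin (m + 1) → F} (h0 : x 0 = y 0)
    (h1 : x ∘ shR m = y ∘ shR m) : x = y := by
  funext r
  refine Fin.cases h0 (fun a => ?_) r
  have := congrFun h1 a
  simpa only [Function.comp, sh_succ] using this

include hF

theorem exists_jR {B : SU (m + 1) F q} (hB : act B (Pi.single 0 1) = Pi.single 0 1) :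
    ∃ A : SU m F q, jR hF m A = B := by
  refine exists_bl_of_fix hF _ fun r hr => ?_
  have : r = 0 := Fin.ext (by
    have := r.2
    simp only [Fin.val_zero]
    omega)
  rw [this, hB]

theorem exists_jL {B : SU (m + 1) F q} (hB : act B (Pi.single (Fin.last m) 1) = Pi.single (Fin.last m) 1) :
    ∃ A : SU m F q, jL hF m A = B := by
  refine exists_bl_of_fix hF _ fun r hr => ?_
  have : r = Fin.last m := Fin.ext (by
    have := r.2
    simp only [Fin.val_last]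
    omega)
  rw [this, hB]

theorem jR_fix (A : SU m F q) (c : F) : act (jR hF m A) (Pi.single 0 c) = Pi.single 0 c :=
  act_bl_off hF _ A (by simp) c

theorem jL_fix (A : SU m F q) (c : F) : act (jL hF m A) (Pi.single (Fin.last m) c) = Pi.single (Fin.last m) c :=
  act_bl_off hF _ A (by simp) c

theorem e0_unit : ⟪(Pi.single 0 1 : Fin (m + 1) → F), Pi.single 0 1⟫ = 1 := by
  rw [hermForm_single_right hF]
  simp

/-- Moving `y` to `y'` fixing `a`. -/
theorem exists_fix_move (hm : 2 ≤ m) {a y y' : Fin (m + 1) → F} (ha : ⟪a, a⟫ = 1) (hy : ⟪y, y⟫ = 1)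
    (hy' : ⟪y', y'⟫ = 1) (hc : ⟪y, a⟫ = ⟪y', a⟫) (hne : Near q y a) :
    ∃ r : SU (m + 1) F q, act r a = a ∧ act r y = y' := by
  obtain ⟨g, hg⟩ := exists_trans hF (n := m + 1) (by omega) (e0_unit hF (m := m)) ha
  have hgi : act g⁻¹ a = Pi.single 0 1 := by rw [← hg, act_inv_act]
  set y₁ := act g⁻¹ y with hy₁
  set y₂ := act g⁻¹ y' with hy₂
  have h1 : y₁ 0 = ⟪y, a⟫ := by
    rw [← hermForm_single_right hF y₁, ← hgi, hy₁, herm_act]
  have h2 : y₂ 0 = ⟪y', a⟫ := by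
    rw [← hermForm_single_right hF y₂, ← hgi, hy₂, herm_act]
  have h3 : y₁ 0 = y₂ 0 := by rw [h1, h2, hc]
  have n1 : ⟪y₁, y₁⟫ = 1 := by rw [hy₁, herm_act, hy]
  have n2 : ⟪y₂, y₂⟫ = 1 := by rw [hy₂, herm_act, hy']
  rw [herm_split] at n1 n2
  rw [← h3] at n2
  have heq : ⟪y₁ ∘ shR m, y₁ ∘ shR m⟫ = ⟪y₂ ∘ shR m, y₂ ∘ shR m⟫ := by
    linear_combination n1 - n2
  have hne0 : ⟪y₁ ∘ shR m, y₁ ∘ shR m⟫ ≠ 0 := by
    intro h0
    rw [h0, add_zero, h1, hermForm_conj hF] at n1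
    exact hne n1
  obtain ⟨A, hA⟩ := exists_trans_norm hF hm heq hne0
  refine ⟨g * jR hF m A * g⁻¹, ?_, ?_⟩
  · rw [act_mul, act_mul, hgi, jR_fix, hg]
  · rw [act_mul, act_mul, ← hy₁]
    have h4 : act (jR hF m A) y₁ = y₂ := by
      apply vec_split_ext
      · rw [act_bl_apply_off hF _ A y₁ (by simp), h3]
      · rw [act_bl_comp, hA]
    rw [h4, hy₂, act_act_inv]

/-- Two stabilizers of near unit vectors generate. -/
theorem gen_stab (hm : 2 ≤ m) (hq : 4 ≤ q) {X : Subgroup (SU (m + 1) F q)} {v : Fin (m + 1) → F}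
    (hv : ⟪v, v⟫ = 1) (hnear : Near q (Pi.single 0 1) v)
    (h0 : ∀ g : SU (m + 1) F q, act g (Pi.single 0 1) = Pi.single 0 1 → g ∈ X)
    (h1 : ∀ g : SU (m + 1) F q, act g v = v → g ∈ X) : X = ⊤ := by
  set e₀ : Fin (m + 1) → F := Pi.single 0 1 with he₀
  have he : ⟪e₀, e₀⟫ = 1 := e0_unit hF
  let O : (Fin (m + 1) → F) → Prop := fun z => ∃ g ∈ X, act g e₀ = z
  have Ostab : ∀ {u : Fin (m + 1) → F}, O u → ∀ r : SU (m + 1) F q, act r u = u → r ∈ X := by
    rintro u ⟨g, hg, rfl⟩ r hr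
    have h2 : g⁻¹ * r * g ∈ X := by
      apply h0
      rw [act_mul, act_mul, hr, act_inv_act]
    have h3 : r = g * (g⁻¹ * r * g) * g⁻¹ := by group
    rw [h3]
    exact X.mul_mem (X.mul_mem hg h2) (X.inv_mem hg)
  have Omove : ∀ {y : Fin (m + 1) → F}, O y → ∀ r ∈ X, O (act r y) := by
    rintro y ⟨g, hg, rfl⟩ r hr
    exact ⟨r * g, X.mul_mem hr hg, act_mul _ _ _⟩
  have O0 : O e₀ := ⟨1, X.one_mem, act_one _⟩
  have hv' : ⟪P1 q e₀ v, P1 q e₀ v⟫ ≠ 0 := P1_norm_ne hF he hv hnear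
  have step1 : ∀ z : Fin (m + 1) → F, ⟪z, z⟫ = 1 → Near q z e₀ → O z := by
    intro z hz hzn
    set g := ⟪P1 q e₀ v, P1 q e₀ v⟫ with hg
    have hgq : g ^ q = g := hermForm_conj hF _ _
    have he0 : ⟪e₀, e₀⟫ ≠ 0 := by rw [he]; exact one_ne_zero
    obtain ⟨f, hf, hfe, hfv'⟩ := exists_norm_one_perp₂ hF (n := m + 1) (by omega) he0 hv' (perp_P1 hF he v)
    have hfv : ⟪f, v⟫ = 0 := by
      rw [P1_right hF, hfe, mul_zero, sub_zero] at hfv'
      exact hfv'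
    set z₀ := ⟪z, e₀⟫ with hz₀
    set α := ⟪e₀, v⟫ with hα
    set c := α * (1 - z₀) / g with hc
    have hcq : c ^ q = α ^ q * (1 - z₀ ^ q) / g := by
      rw [hc, div_pow, mul_pow, sub_pow_q hF, one_pow, hgq]
    have hτ : (1 - z₀ * z₀ ^ q - c * c ^ q * g) ^ q = 1 - z₀ * z₀ ^ q - c * c ^ q * g := by
      rw [sub_pow_q hF, sub_pow_q hF, one_pow, mul_pow _ g, conj_nrm hF, conj_nrm hF, hgq]
    obtain ⟨s, hs⟩ := exists_norm' hF hτ
    set y := z₀ • e₀ + c • P1 q e₀ v + s • f with hy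
    have hP1e : ⟪P1 q e₀ v, e₀⟫ = 0 := P1_perp hF he v
    have heP1 : ⟪e₀, P1 q e₀ v⟫ = 0 := perp_P1 hF he v
    have hfe' : ⟪e₀, f⟫ = 0 := SUGen.conj_zero hF hfe
    have hfv'' : ⟪P1 q e₀ v, f⟫ = 0 := SUGen.conj_zero hF hfv'
    have hye : ⟪y, e₀⟫ = z₀ := by
      rw [hy]
      simp only [hermForm_add_left, hermForm_smul_left, he, hP1e, hfe]
      ring
    have hP1v : ⟪P1 q e₀ v, v⟫ = g := by
      rw [hg, P1_right hF, hP1e, mul_zero, sub_zero]
    have hyv : ⟪y, v⟫ = α := by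
      rw [hy]
      simp only [hermForm_add_left, hermForm_smul_left, hP1v, hfv, ← hα]
      rw [hc]
      have hg0 : g ≠ 0 := hv'
      field_simp
      ring
    have hyy : ⟪y, y⟫ = 1 := by
      rw [hy]
      simp only [hermForm_add_left, hermForm_add_right hF, hermForm_smul_left, hermForm_smul_right, he, hP1e,
        heP1, hfe, hfe', hfv', hfv'', hf, ← hg]
      linear_combination hs
    obtain ⟨r₁, hr₁, hr₁'⟩ := exists_fix_move hF hm hv he hyy (hyv.symm ▸ hα) hnear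
    have Oy : O y := by
      have := Omove O0 r₁ (h1 r₁ hr₁)
      rwa [hr₁'] at this
    have hnye : Near q y e₀ := by
      unfold Near at hzn ⊢
      rw [← hermForm_conj hF y e₀, hye]
      rw [← hermForm_conj hF z e₀] at hzn
      exact hzn
    obtain ⟨r₂, hr₂, hr₂'⟩ := exists_fix_move hF hm he hyy hz hye hnye
    have := Omove Oy r₂ (h0 r₂ hr₂)
    rwa [hr₂'] at this
  have step2 : ∀ z : Fin (m + 1) → F, ⟪z, z⟫ = 1 → O z := by
    intro z hz
    by_cases hzn : Near q z e₀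
    · exact step1 z hz hzn
    have he0 : ⟪e₀, e₀⟫ ≠ 0 := by rw [he]; exact one_ne_zero
    -- a unit vector orthogonal to `e₀`
    obtain ⟨f₁, hf₁, hf₁e⟩ := exists_norm_one_perp₁ hF (n := m + 1) (by omega) he0
    have hf₁0 : ⟪f₁, f₁⟫ ≠ 0 := by rw [hf₁]; exact one_ne_zero
    obtain ⟨f₂, hf₂, hf₂e, hf₂f₁⟩ := exists_norm_one_perp₂ hF (n := m + 1) (by omega) he0 hf₁0
      (SUGen.conj_zero hF hf₁e)
    obtain ⟨a, b, hu, hnu, -⟩ := exists_near_in_plane hF hq hf₁ hf₂ (SUGen.conj_zero hF hf₂f₁) z z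
    set u := a • f₁ + b • f₂ with hud
    have hue : ⟪u, e₀⟫ = 0 := by
      rw [hud, hermForm_add_left, hermForm_smul_left, hermForm_smul_left, hf₁e, hf₂e]
      ring
    have Ou : O u := step1 u hu (near_of_orth hF hue)
    have hu0 : ⟪u, u⟫ ≠ 0 := by rw [hu]; exact one_ne_zero
    obtain ⟨f, hf, hfe, hfu⟩ := exists_norm_one_perp₂ hF (n := m + 1) (by omega) he0 hu0
      (SUGen.conj_zero hF hue)
    set c := ⟪z, u⟫ with hc
    obtain ⟨s, hs⟩ : ∃ s : F, c * c ^ q + s * s ^ q ≠ 0 := by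
      by_cases hc0 : c = 0
      · refine ⟨1, ?_⟩
        rw [hc0]
        simp [zero_pow (show q ≠ 0 by omega)]
      · refine ⟨0, ?_⟩
        simpa using nrm_ne_zero hF hc0
    have hτ : (1 - (c * c ^ q + s * s ^ q)) ^ q = 1 - (c * c ^ q + s * s ^ q) := by
      rw [sub_pow_q hF, add_pow_q hF, one_pow, conj_nrm hF, conj_nrm hF]
    obtain ⟨y₀, hy₀⟩ := exists_norm' hF hτ
    set y := y₀ • e₀ + c • u + s • f with hy
    have heu : ⟪e₀, u⟫ = 0 := SUGen.conj_zero hF hue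
    have hef : ⟪e₀, f⟫ = 0 := SUGen.conj_zero hF hfe
    have huf : ⟪u, f⟫ = 0 := SUGen.conj_zero hF hfu
    have hyu : ⟪y, u⟫ = c := by
      rw [hy]
      simp only [hermForm_add_left, hermForm_smul_left, heu, hu, hfu]
      ring
    have hye : ⟪y, e₀⟫ = y₀ := by
      rw [hy]
      simp only [hermForm_add_left, hermForm_smul_left, he, hue, hfe]
      ring
    have hyy : ⟪y, y⟫ = 1 := by
      rw [hy]
      simp only [hermForm_add_left, hermForm_add_right hF, hermForm_smul_left, hermForm_smul_right, he, hu, hf,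
        heu, hue, hef, hfe, huf, hfu]
      linear_combination hy₀
    have Oy : O y := by
      refine step1 y hyy ?_
      unfold Near
      rw [← hermForm_conj hF y e₀, hye, hy₀]
      intro h4
      apply hs
      linear_combination -h4
    have hnyu : Near q y u := by
      unfold Near at hnu ⊢
      rw [← hermForm_conj hF y u, hyu]
      rw [← hermForm_conj hF z u, ← hc, mul_comm] at hnu
      exact hnu
    obtain ⟨r, hr, hr'⟩ := exists_fix_move hF hm hu hyy hz (hyu.trans hc) hnyu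
    have := Omove Oy r (Ostab Ou r hr)
    rwa [hr'] at this
  rw [eq_top_iff]
  intro g _
  have hgu : ⟪act g e₀, act g e₀⟫ = 1 := by rw [herm_act, he]
  obtain ⟨g', hg', hgg⟩ := step2 _ hgu
  have h3 : g'⁻¹ * g ∈ X := by
    apply h0
    rw [act_mul, ← hgg, act_inv_act]
  have h4 : g = g' * (g'⁻¹ * g) := by group
  rw [h4]
  exact X.mul_mem hg' h3

/-- The two block subgroups generate. -/
theorem gen_LR (hm : 2 ≤ m) (hq : 4 ≤ q) {X : Subgroup (SU (m + 1) F q)}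
    (hL : ∀ A, jL hF m A ∈ X) (hR : ∀ A, jR hF m A ∈ X) : X = ⊤ := by
  have hs : ∀ r s : Fin (m + 1), ⟪(Pi.single r 1 : Fin (m + 1) → F), Pi.single s 1⟫ = if r = s then 1 else 0 := by
    intro r s
    rw [hermForm_single_right hF]
    simp [Pi.single_apply, eq_comm]
  have hne : (0 : Fin (m + 1)) ≠ Fin.last m := by
    intro h
    have := congrArg Fin.val h
    simp at this
    omega
  refine gen_stab hF hm hq (v := Pi.single (Fin.last m) 1) (by rw [hs, if_pos rfl]) ?_ ?_ ?_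
  · apply near_of_orth hF
    rw [hs, if_neg hne]
  · intro g hg
    obtain ⟨A, rfl⟩ := exists_jR hF hg
    exact hR A
  · intro g hg
    obtain ⟨A, rfl⟩ := exists_jL hF hg
    exact hL A

/-- Adjacent `SU₂` blocks generate `SU`. -/
theorem gen_blocks (hq : 4 ≤ q) : ∀ (m : ℕ), 2 ≤ m → ∀ X : Subgroup (SU m F q),
    (∀ (i : ℕ) (h : i + 2 ≤ m) (A : SU 2 F q), bl hF h A ∈ X) → X = ⊤ := by
  intro m hm
  induction m, hm using Nat.le_induction with
  | base =>
    intro X hX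
    rw [eq_top_iff]
    intro g _
    obtain ⟨A, rfl⟩ := exists_bl_of_fix hF (i := 0) (k := 2) (n := 2) (by omega) (B := g)
      (fun r hr => absurd (by have := r.2; omega) hr)
    exact hX 0 _ A
  | succ m hm ih =>
    intro X hX
    have hL : X.comap (jL hF m) = ⊤ := by
      apply ih
      intro i h A
      rw [Subgroup.mem_comap, bl_bl hF (by omega) h (by omega)]
      exact hX _ _ A
    have hR : X.comap (jR hF m) = ⊤ := by
      apply ih
      intro i h A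
      rw [Subgroup.mem_comap, bl_bl hF (by omega) h (by omega)]
      exact hX _ _ A
    refine gen_LR hF hm hq (fun A => ?_) (fun A => ?_)
    · have : A ∈ X.comap (jL hF m) := by rw [hL]; trivial
      exact this
    · have : A ∈ X.comap (jR hF m) := by rw [hR]; trivial
      exact this

end Gen

end Cfsg.Agent.Lib.Phan
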