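import Cfsg.Agent.Lib.Phan.Geom

/-!
# The inductive step of the completion theorem
-/

set_option autoImplicit false
set_option linter.unusedSectionVars false
set_option linter.unusedSimpArgs false
set_option linter.unusedVariables false

namespace Cfsg.Agent.Lib.Phan

open Matrix Cfsg Cfsg.Agent.Lib.HermForm Cfsg.Agent.Lib.SUGen Cfsg.Agent.Lib.FFNorm Cfsg.Agent.Lib

variable {F : Type*} [Field F] [Fintype F] {q : ℕ}

local notation "⟪" x ", " y "⟫" => hermForm _ F q x y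

section Coord

variable (hF : Fintype.card F = q ^ 2)
include hF

/-- The diagonal element of `SU₂`. -/
def dm (μ : F) (hμ : μ * μ ^ q = 1) : SU 2 F q :=
  mk2 hF μ 0 (by
    have hq := two_le hF
    rw [zero_pow (by omega), mul_zero, add_zero]
    exact hμ)

theorem act_dm_e0 (μ : F) (hμ : μ * μ ^ q = 1) : act (dm hF μ hμ) (Pi.single 0 1) = μ • Pi.single 0 1 := by
  rw [dm, act_mk2]
  ext i
  fin_cases i <;> simp

theorem act_dm_apply0 (μ : F) (hμ : μ * μ ^ q = 1) (y : Fin 2 → F) : act (dm hF μ hμ) y 0 = μ * y 0 := by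
  have hq := two_le hF
  simp [act, dm, mk2, UnitarySU.SUofMatrix, Matrix.mulVec, dotProduct, Fin.sum_univ_two,
    zero_pow (show q ≠ 0 by omega)]

theorem single_two (y : Fin 2 → F) : y = y 0 • Pi.single 0 1 + y 1 • Pi.single 1 1 := by
  ext i
  fin_cases i <;> simp

/-- Vectors in the plane of the first coordinates. -/
theorem ex_two {i n : ℕ} (h : i + 2 ≤ n) (y : Fin 2 → F) :
    ex (sh h) y = y 0 • Pi.single (⟨i, by omega⟩ : Fin n) 1 + y 1 • Pi.single (⟨i + 1, by omega⟩ : Fin n) 1 := by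
  conv_lhs => rw [single_two hF y]
  rw [ex_add, ex_smul, ex_smul, ex_single (sh_inj h), ex_single (sh_inj h)]
  rfl

theorem ex_e0 {i n : ℕ} (h : i + 2 ≤ n) :
    ex (sh h) (Pi.single 0 1) = (Pi.single (⟨i, by omega⟩ : Fin n) 1 : Fin n → F) := by
  rw [ex_single (sh_inj h)]
  rfl

theorem ex_e1 {i n : ℕ} (h : i + 2 ≤ n) :
    ex (sh h) (Pi.single 1 1) = (Pi.single (⟨i + 1, by omega⟩ : Fin n) 1 : Fin n → F) := by
  rw [ex_single (sh_inj h)]
  rfl

/-- Conjugation of the block `(0,1)` by a diagonal element of the block `(1,2)`. -/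
theorem conj_dd {n : ℕ} (hn : 3 ≤ n) {μ : F} (hμ : μ * μ ^ q = 1) (A : SU 2 F q) :
    ∃ A' : SU 2 F q,
      bl hF (i := 1) (by omega) (dm hF μ hμ) * bl hF (i := 0) (by omega) A *
        (bl hF (i := 1) (k := 2) (n := n) (by omega) (dm hF μ hμ))⁻¹ = bl hF (i := 0) (by omega) A' ∧
      act A' (Pi.single 0 1) = ![act A (Pi.single 0 1) 0, μ * act A (Pi.single 0 1) 1] := by
  have h0 : 0 + 2 ≤ n := by omega
  have h1 : 1 + 2 ≤ n := by omega
  set x : SU n F q := bl hF h1 (dm hF μ hμ) with hx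
  have hμ0 : μ ≠ 0 := by
    rintro rfl
    rw [zero_mul] at hμ
    exact zero_ne_one hμ
  have hc1 : ∀ v : Fin n → F, act x v ⟨1, by omega⟩ = μ * v ⟨1, by omega⟩ := by
    intro v
    have h2 := congrFun (act_bl_comp hF h1 (dm hF μ hμ) v) 0
    rw [Function.comp, act_dm_apply0] at h2
    exact h2
  have hc0 : ∀ v : Fin n → F, act x v ⟨0, by omega⟩ = v ⟨0, by omega⟩ := fun v =>
    act_bl_apply_off hF h1 _ v (by simp)
  obtain ⟨A', hA'⟩ := exists_bl_of_fix hF h0 (B := x * bl hF h0 A * x⁻¹) (by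
    intro r hr
    have hr2 : 2 ≤ r.1 := by omega
    rw [act_mul, act_mul]
    set v := act x⁻¹ (Pi.single r 1) with hv
    have hxv : act x v = Pi.single r 1 := by rw [hv, act_act_inv]
    have hv0 : v ⟨0, by omega⟩ = 0 := by
      have h3 := hc0 v
      rw [hxv, Pi.single_apply, if_neg] at h3
      · exact h3.symm
      · intro h
        rw [← h] at hr2
        simp at hr2
    have hv1 : v ⟨1, by omega⟩ = 0 := by
      have h3 := hc1 v
      rw [hxv, Pi.single_apply, if_neg] at h3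
      · exact (mul_eq_zero.1 h3.symm).resolve_left hμ0
      · intro h
        rw [← h] at hr2
        simp at hr2
    have hv2 : v ∘ sh h0 = 0 := by
      funext a
      fin_cases a
      · exact hv0
      · exact hv1
    have h4 : act (bl hF h0 A) v = v := act_emb_off hF _ A hv2
    rw [h4, hxv])
  refine ⟨A', hA'.symm, ?_⟩
  apply ex_inj (sh_inj h0)
  rw [← act_bl_ex hF h0, hA', act_mul, act_mul, ex_e0 hF h0]
  have hxe0 : act x⁻¹ (Pi.single (⟨0, by omega⟩ : Fin n) 1) = Pi.single (⟨0, by omega⟩ : Fin n) 1 := by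
    have h5 : act x (Pi.single (⟨0, by omega⟩ : Fin n) 1) = Pi.single (⟨0, by omega⟩ : Fin n) 1 :=
      act_bl_off hF h1 _ (by simp) 1
    conv_lhs => rw [← h5]
    rw [act_inv_act]
  rw [hxe0, ← ex_e0 hF h0, act_bl_ex, ex_two hF h0, ex_two hF h0, act_add, act_smul, act_smul]
  have h6 : act x (Pi.single (⟨0, by omega⟩ : Fin n) 1) = (Pi.single (⟨0, by omega⟩ : Fin n) 1 : Fin n → F) :=
    act_bl_off hF h1 _ (by simp) 1
  have h7 : act x (Pi.single (⟨0 + 1, by omega⟩ : Fin n) 1) = μ • (Pi.single (⟨0 + 1, by omega⟩ : Fin n) 1 : Fin n → F) := by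
    have h8 := ex_e0 (n := n) (i := 1) hF h1
    have h9 : (Pi.single (⟨0 + 1, by omega⟩ : Fin n) 1 : Fin n → F) = ex (sh h1) (Pi.single 0 1) := h8.symm
    rw [h9, hx, act_bl_ex, act_dm_e0, ex_smul]
  rw [h6, h7, smul_smul]
  simp
  rw [mul_comm]

/-- Putting a vector in normal form in the first two coordinates. -/
theorem exists_normal {m : ℕ} (hm : 2 ≤ m) {v : Fin (m + 1) → F} (hv : ⟪v, v⟫ = 1)
    (hn : Near q (Pi.single 0 1) v) :
    ∃ (β : F) (hβ : β ≠ 0) (hu : v 0 * v 0 ^ q + β * β ^ q = 1) (x : SU m F q),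
      act (jR hF m x) (ex (sh (i := 0) (k := 2) (n := m + 1) (by omega)) ![v 0, β]) = v := by
  have hs := herm_split (q := q) v v
  rw [hv] at hs
  have hne : 1 - v 0 * v 0 ^ q ≠ 0 := by
    intro h0
    apply hn
    rw [hermForm_single_left, hermForm_single_right hF]
    linear_combination -h0
  have hq1 : (1 - v 0 * v 0 ^ q) ^ q = 1 - v 0 * v 0 ^ q := by
    rw [sub_pow_q hF, one_pow, conj_nrm hF]
  obtain ⟨β, hβ0, hβ⟩ := exists_norm hF _ hne hq1
  refine ⟨β, hβ0, by rw [hβ]; ring, ?_⟩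
  let r0 : Fin m := ⟨0, by omega⟩
  have ht : ⟪β • (Pi.single r0 1 : Fin m → F), β • Pi.single r0 1⟫ = 1 - v 0 * v 0 ^ q := by
    rw [hermForm_smul_left, hermForm_smul_right, hermForm_single_right hF]
    simp only [Pi.single_eq_same, mul_one]
    exact hβ
  have hw : ⟪v ∘ shR m, v ∘ shR m⟫ = 1 - v 0 * v 0 ^ q := by
    linear_combination -hs
  obtain ⟨x, hx⟩ := exists_trans_norm hF (by omega) (ht.trans hw.symm) (by rw [ht]; exact hne)
  refine ⟨x, ?_⟩
  apply vec_split_ext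
  · rw [act_bl_apply_off hF _ x _ (by simp), ex_two hF]
    simp [Pi.single_apply, Fin.ext_iff]
  · rw [act_bl_comp, ← hx]
    congr 1
    rw [ex_two hF]
    funext a
    simp only [Function.comp, Pi.add_apply, Pi.smul_apply, smul_eq_mul, Pi.single_apply, sh_succ, Fin.ext_iff,
      Fin.val_succ, Matrix.cons_val_zero, Matrix.cons_val_one, r0]
    have h1 : ¬ (a.1 + 1 = 0) := by omega
    simp [h1]

theorem second_inv_ne {A : SU 2 F q} (h : act A (Pi.single 0 1) 1 ≠ 0) :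
    act A⁻¹ (Pi.single 0 1) 1 ≠ 0 := by
  intro h0
  set y' := act A⁻¹ (Pi.single 0 1) with hy'
  have h1 : y' = y' 0 • Pi.single 0 1 := by
    conv_lhs => rw [single_two hF y', h0]
    simp
  have h2 : act A y' = Pi.single 0 1 := by rw [hy', act_act_inv]
  rw [h1, act_smul] at h2
  have h3 := congrFun h2 1
  simp only [Pi.smul_apply, smul_eq_mul, Pi.single_apply] at h3
  rw [if_neg (by decide)] at h3
  have h4 : y' 0 = 0 := (mul_eq_zero.1 h3).resolve_right h
  have h5 : (Pi.single 0 1 : Fin 2 → F) = 0 := by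
    rw [← h2, h4, zero_smul]
  have h6 := congrFun h5 0
  simp at h6

theorem unit_second {A : SU 2 F q} : act A (Pi.single 0 1) 0 * act A (Pi.single 0 1) 0 ^ q +
    act A (Pi.single 0 1) 1 * act A (Pi.single 0 1) 1 ^ q = 1 := by
  have h1 := herm_act A (Pi.single 0 1 : Fin 2 → F) (Pi.single 0 1)
  rw [herm_two hF, herm_two hF] at h1
  simp only [Pi.single_apply] at h1
  simp at h1
  exact h1

/-- The decomposition of an element of `SU₂` into two non-diagonal ones. -/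
theorem exists_nondiag_decomp (hq : 4 ≤ q) (A : SU 2 F q) : ∃ A₁ A₂ : SU 2 F q, A = A₁ * A₂ ∧
    act A₁ (Pi.single 0 1) 1 ≠ 0 ∧ act A₂ (Pi.single 0 1) 1 ≠ 0 := by
  set y := act A (Pi.single 0 1) with hy
  have hy0 : y ≠ 0 := by
    intro h0
    have h1 := act_inj A (h0.trans (act_zero A).symm)
    have h2 := congrFun h1 0
    simp at h2
  have key : ∀ B : SU 2 F q, act B⁻¹ y 1 = 0 → ∃ s : F, y = s • act B (Pi.single 0 1) := by
    intro B hB
    refine ⟨act B⁻¹ y 0, ?_⟩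
    have h1 : act B⁻¹ y = act B⁻¹ y 0 • Pi.single 0 1 := by
      conv_lhs => rw [single_two hF (act B⁻¹ y), hB]
      simp
    have h2 := congrArg (act B) h1
    rw [act_act_inv, act_smul] at h2
    exact h2
  have fin : ∀ B : SU 2 F q, act B (Pi.single 0 1) 1 ≠ 0 → act B⁻¹ y 1 ≠ 0 →
      ∃ A₁ A₂ : SU 2 F q, A = A₁ * A₂ ∧ act A₁ (Pi.single 0 1) 1 ≠ 0 ∧ act A₂ (Pi.single 0 1) 1 ≠ 0 := by
    intro B h1 h2
    refine ⟨B, B⁻¹ * A, by group, h1, ?_⟩
    rw [act_mul]
    exact h2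
  by_cases ha : y 0 = 0
  · obtain ⟨t, -, htq, -, ht0, -, ht1, -, -⟩ := exists_two_fixed hF hq
    obtain ⟨c, hc0, hc⟩ := exists_norm hF t ht0 htq
    have h1t : 1 - t ≠ 0 := fun h => ht1 (by linear_combination -h)
    have hq1 : (1 - t) ^ q = 1 - t := by rw [sub_pow_q hF, one_pow, htq]
    obtain ⟨d, hd0, hd⟩ := exists_norm hF _ h1t hq1
    have hu : c * c ^ q + d * d ^ q = 1 := by rw [hc, hd]; ring
    refine fin (mk2 hF c d hu) (by rw [act_mk2]; simpa using hd0) ?_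
    intro h0
    obtain ⟨s, hs⟩ := key _ h0
    rw [act_mk2] at hs
    have h3 := congrFun hs 0
    simp only [Pi.smul_apply, smul_eq_mul, Matrix.cons_val_zero] at h3
    rw [ha] at h3
    have hs0 : s = 0 := (mul_eq_zero.1 h3.symm).resolve_right hc0
    apply hy0
    rw [hs, hs0, zero_smul]
  · have hu : (0 : F) * 0 ^ q + 1 * 1 ^ q = 1 := by rw [zero_mul, one_pow, mul_one, zero_add]
    refine fin (mk2 hF 0 1 hu) (by rw [act_mk2]; simp) ?_
    intro h0
    obtain ⟨s, hs⟩ := key _ h0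
    rw [act_mk2] at hs
    have h3 := congrFun hs 0
    simp only [Pi.smul_apply, smul_eq_mul, Matrix.cons_val_zero, mul_zero] at h3
    exact ha h3

end Coord

section Step

variable (hF : Fintype.card F = q ^ 2)

/-- The data of the inductive step. -/
structure StepDat (k : ℕ) (Γ : Type*) [Group Γ] where
  π : Γ →* SU (k + 3 + 1) F q
  τL : SU (k + 3) F q →* Γ
  τR : SU (k + 3) F q →* Γ
  hL : ∀ x, π (τL x) = jL hF (k + 3) x
  hR : ∀ x, π (τR x) = jR hF (k + 3) x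
  hLR : ∀ x y, jL hF (k + 3) x = jR hF (k + 3) y → τL x = τR y
  hcomm : ∀ (u : SU 2 F q) (y : SU (k + 3) F q), act y (Pi.single 0 1) = Pi.single 0 1 →
    τL (bl hF (i := 0) (by omega) u) * τR y = τR y * τL (bl hF (i := 0) (by omega) u)
  hgen : ∀ X : Subgroup Γ, (∀ x, τL x ∈ X) → (∀ x, τR x ∈ X) → X = ⊤

variable {hF} {k : ℕ} {Γ : Type*} [Group Γ] (D : StepDat hF k Γ)

namespace StepDat

/-- The block `(0,1)` in `Γ`. -/
def U (A : SU 2 F q) : Γ := D.τL (bl hF (i := 0) (by omega) A)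

theorem π_U (A : SU 2 F q) : D.π (D.U A) = bl hF (i := 0) (k := 2) (n := k + 3 + 1) (by omega) A := by
  rw [U, D.hL, bl_bl hF (by omega) (by omega) (by omega)]

/-- The cosets. -/
abbrev E := Γ ⧸ D.τR.range

/-- The unit vector of a coset. -/
def pb (a : D.E) : Fin (k + 3 + 1) → F :=
  Quotient.liftOn' a (fun g => act (D.π g) (Pi.single 0 1)) (by
    intro g g' h
    rw [QuotientGroup.leftRel_apply] at h
    obtain ⟨x, hx⟩ := h
    have h1 : g' = g * D.τR x := by rw [hx]; group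
    rw [h1, map_mul, act_mul, D.hR, jR_fix hF])

theorem pb_mk (g : Γ) : D.pb (g : D.E) = act (D.π g) (Pi.single 0 1) := rfl

theorem mk_tauR (g : Γ) (x : SU (k + 3) F q) : ((g * D.τR x : Γ) : D.E) = (g : D.E) :=
  QuotientGroup.mk_mul_of_mem _ ⟨x, rfl⟩

theorem smul_mk (c g : Γ) : c • (g : D.E) = ((c * g : Γ) : D.E) := rfl

include hF in
theorem pb_unit (a : D.E) : ⟪D.pb a, D.pb a⟫ = 1 := by
  obtain ⟨g, rfl⟩ := QuotientGroup.mk_surjective a
  rw [pb_mk, herm_act, e0_unit hF]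

theorem pb_smul (c : Γ) (a : D.E) : D.pb (c • a) = act (D.π c) (D.pb a) := by
  obtain ⟨g, rfl⟩ := QuotientGroup.mk_surjective a
  change D.pb (c • (g : D.E)) = act (D.π c) (D.pb (g : D.E))
  rw [smul_mk, pb_mk, pb_mk, map_mul, act_mul]

/-- Adjacency of cosets. -/
def Adj (a b : D.E) : Prop :=
  ∃ (g : Γ) (A : SU 2 F q), a = (g : D.E) ∧ b = ((g * D.U A : Γ) : D.E) ∧ act A (Pi.single 0 1) 1 ≠ 0

theorem Adj.smul {a b : D.E} (h : D.Adj a b) (c : Γ) : D.Adj (c • a) (c • b) := by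
  obtain ⟨g, A, rfl, rfl, hA⟩ := h
  refine ⟨c * g, A, rfl, ?_, hA⟩
  rw [smul_mk, mul_assoc]

theorem pb_U (g : Γ) (A : SU 2 F q) : D.pb ((g * D.U A : Γ) : D.E) =
    act (D.π g) (ex (sh (i := 0) (k := 2) (n := k + 3 + 1) (by omega)) (act A (Pi.single 0 1))) := by
  rw [pb_mk, map_mul, act_mul, π_U]
  congr 1
  have h := act_bl_ex hF (i := 0) (k := 2) (n := k + 3 + 1) (by omega) A (Pi.single 0 1)
  rw [ex_e0 hF] at h
  exact h

theorem Adj.symm {a b : D.E} (h : D.Adj a b) : D.Adj b a := by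
  obtain ⟨g, A, rfl, rfl, hA⟩ := h
  refine ⟨g * D.U A, A⁻¹, rfl, ?_, second_inv_ne hF hA⟩
  have : D.U A⁻¹ = (D.U A)⁻¹ := by rw [U, U, map_inv, map_inv]
  rw [this, mul_inv_cancel_right]

/-- Adjacent cosets have near vectors. -/
theorem Adj.near {a b : D.E} (h : D.Adj a b) : Near q (D.pb a) (D.pb b) := by
  obtain ⟨g, A, rfl, rfl, hA⟩ := h
  rw [pb_U, pb_mk]
  unfold Near
  rw [herm_act, herm_act]
  have he : (Pi.single 0 1 : Fin (k + 3 + 1) → F) =
      ex (sh (i := 0) (k := 2) (n := k + 3 + 1) (by omega)) (Pi.single 0 1) := (ex_e0 hF _).symm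
  rw [he, herm_ex_ex (sh_inj _), herm_ex_ex (sh_inj _), hermForm_single_left, hermForm_single_right hF]
  intro h0
  have h1 := unit_second hF (A := A)
  have h2 : act A (Pi.single 0 1) 1 * act A (Pi.single 0 1) 1 ^ q = 0 := by
    linear_combination h1 - h0
  exact nrm_ne_zero hF hA h2

theorem exists_adj {a : D.E} {y : Fin (k + 3 + 1) → F} (hy : ⟪y, y⟫ = 1) (hn : Near q (D.pb a) y) :
    ∃ b, D.Adj a b ∧ D.pb b = y := by
  obtain ⟨g, rfl⟩ := QuotientGroup.mk_surjective a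
  change Near q (D.pb (g : D.E)) y at hn
  rw [pb_mk] at hn
  set z := act (D.π g)⁻¹ y with hz
  have hgz : act (D.π g) z = y := by rw [hz, act_act_inv]
  have hzz : ⟪z, z⟫ = 1 := by rw [hz, herm_act, hy]
  have hnz : Near q (Pi.single 0 1) z := by
    unfold Near at hn ⊢
    rw [← hgz, herm_act, herm_act] at hn
    exact hn
  obtain ⟨β, hβ, hu, x, hx⟩ := exists_normal hF (m := k + 3) (by omega) hzz hnz
  set A := mk2 hF (z 0) β hu with hA
  refine ⟨((g * D.τR x * D.U A : Γ) : D.E), ⟨g * D.τR x, A, (D.mk_tauR g x).symm, rfl, ?_⟩, ?_⟩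
  · rw [hA, act_mk2]
    simpa using hβ
  · rw [pb_U, hA, act_mk2, map_mul, act_mul, D.hR, hx, hgz]

include hF in
/-- Uniqueness of the adjacent coset over a vector. -/
theorem adj_uniq {a b c : D.E} (hb : D.Adj a b) (hc : D.Adj a c) (hbc : D.pb b = D.pb c) : b = c := by
  obtain ⟨g, A, rfl, rfl, hA⟩ := hb
  obtain ⟨g', A', hgg', rfl, hA'⟩ := hc
  rw [QuotientGroup.eq] at hgg'
  obtain ⟨x, hx⟩ := hgg'
  have hg' : g' = g * D.τR x := by rw [hx]; group
  subst hg'
  rw [pb_U, pb_U, map_mul, act_mul, D.hR] at hbc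
  have hbc' := act_inj _ hbc
  set r := jR hF (k + 3) x with hr
  set y := act A (Pi.single 0 1) with hy
  set y' := act A' (Pi.single 0 1) with hy'
  have hnorm : y 0 * y 0 ^ q + y 1 * y 1 ^ q = 1 := unit_second hF
  have hnorm' : y' 0 * y' 0 ^ q + y' 1 * y' 1 ^ q = 1 := unit_second hF
  have hre0 : act r (Pi.single 0 1) = Pi.single 0 1 := jR_fix hF x 1
  set e₁ : Fin (k + 3 + 1) → F := Pi.single (⟨1, by omega⟩ : Fin (k + 3 + 1)) 1 with he₁
  have hpl : ∀ w : Fin 2 → F, ex (sh (i := 0) (k := 2) (n := k + 3 + 1) (by omega)) w =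
      w 0 • Pi.single 0 1 + w 1 • e₁ := fun w => ex_two hF _ w
  rw [hpl, hpl, act_add, act_smul, act_smul, hre0] at hbc'
  have hr0 : act r e₁ 0 = 0 := by
    have h1 : act r e₁ 0 = e₁ 0 := act_bl_apply_off hF _ x e₁ (by simp)
    rw [h1, he₁]
    simp [Pi.single_apply, Fin.ext_iff]
  have hy0 : y 0 = y' 0 := by
    have he10 : e₁ 0 = 0 := by
      rw [he₁]
      simp [Pi.single_apply, Fin.ext_iff]
    have h1 := congrFun hbc' 0
    simp only [Pi.add_apply, Pi.smul_apply, smul_eq_mul, hr0, he10, Pi.single_eq_same] at h1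
    simpa using h1
  rw [← hy0] at hbc'
  have h2 : y 1 • e₁ = y' 1 • act r e₁ := add_left_cancel hbc'
  set μ := y 1 / y' 1 with hμd
  have hμq : μ * μ ^ q = 1 := by
    rw [hμd, div_pow, div_mul_div_comm, div_eq_one_iff_eq (nrm_ne_zero hF hA')]
    rw [hy0] at hnorm
    linear_combination hnorm - hnorm'
  have hre1 : act r e₁ = μ • e₁ := by
    have h3 := congrArg (fun v => (y' 1)⁻¹ • v) h2
    simp only [smul_smul, inv_mul_cancel₀ hA', one_smul] at h3
    rw [← h3, hμd, div_eq_inv_mul]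
  set dd := dm hF μ hμq with hdd
  set dR : SU (k + 3) F q := bl hF (i := 0) (by omega) dd with hdR
  set dL : SU (k + 3) F q := bl hF (i := 1) (by omega) dd with hdL
  have hLR' : jL hF (k + 3) dL = jR hF (k + 3) dR := by
    rw [hdL, hdR, bl_bl hF (by omega) (by omega) (h'' := by omega),
      bl_bl hF (by omega) (by omega) (h'' := by omega)]
  have hρ : D.τL dL = D.τR dR := D.hLR _ _ hLR'
  -- `jR dR` on `e₁`
  have hdRe : act (jR hF (k + 3) dR) e₁ = μ • e₁ := by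
    rw [← hLR', hdL, bl_bl hF (by omega) (by omega) (h'' := by omega)]
    have h8 := ex_e0 (n := k + 3 + 1) (i := 1) hF (by omega)
    have h9 : e₁ = ex (sh (i := 1) (k := 2) (n := k + 3 + 1) (by omega)) (Pi.single 0 1) := h8.symm
    rw [h9, act_bl_ex, hdd, act_dm_e0, ex_smul]
  set x' := dR⁻¹ * x with hx'
  have hxx' : x = dR * x' := by rw [hx']; group
  have hx'e : act x' (Pi.single 0 1) = Pi.single 0 1 := by
    apply ex_inj (sh_inj (i := 1) (k := k + 3) (n := k + 3 + 1) (by omega))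
    have h10 : ex (sh (i := 1) (k := k + 3) (n := k + 3 + 1) (by omega)) (Pi.single 0 1) = e₁ := by
      rw [ex_single (sh_inj _)]
      rfl
    have h11 : act (bl hF (i := 1) (by omega) x') e₁ = e₁ := by
      rw [hx', map_mul, map_inv, act_mul]
      change act (jR hF (k + 3) dR)⁻¹ (act r e₁) = e₁
      rw [hre1, ← hdRe, act_inv_act]
    rw [← act_bl_ex hF, h10, h11]
  have hc : D.U A' * D.τR x' = D.τR x' * D.U A' := D.hcomm A' x' hx'e
  obtain ⟨A'', hA'', hA''e⟩ := conj_dd hF (n := k + 3) (by omega) hμq A'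
  have hAeq : A'' = A := by
    apply su2_eq_of_act hF (y := Pi.single 0 1)
    · rw [hermForm_single_right hF]
      simp
    · rw [hA''e, ← hy', ← hy, ← hy0, hμd, div_mul_cancel₀ _ hA']
      ext i
      fin_cases i <;> rfl
  subst hAeq
  have hconj : D.τL dL * D.U A' = D.U A'' * D.τL dL := by
    rw [U, U, ← map_mul, ← map_mul, mul_inv_eq_iff_eq_mul.1 hA'']
  have key : g * D.τR x * D.U A' = g * D.U A'' * D.τR dR * D.τR x' := by
    calc g * D.τR x * D.U A' = g * D.τR dR * (D.U A' * D.τR x') := by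
          rw [hc, hxx', map_mul]; group
      _ = g * (D.τL dL * D.U A') * D.τR x' := by rw [hρ]; group
      _ = g * (D.U A'' * D.τL dL) * D.τR x' := by rw [hconj]
      _ = _ := by rw [hρ]; group
  rw [key, mk_tauR, mk_tauR]


/-- The coset over `y` adjacent to `a`. -/
noncomputable def L (a : D.E) (y : Fin (k + 3 + 1) → F) : D.E := by
  classical
  exact if h : ∃ b, D.Adj a b ∧ D.pb b = y then h.choose else a

theorem L_spec {a : D.E} {y : Fin (k + 3 + 1) → F} (hy : ⟪y, y⟫ = 1) (hn : Near q (D.pb a) y) :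
    D.Adj a (D.L a y) ∧ D.pb (D.L a y) = y := by
  classical
  have h := D.exists_adj hy hn
  unfold L
  simp only [dif_pos h]
  exact h.choose_spec

include hF in
theorem L_eq {a b : D.E} (h : D.Adj a b) : D.L a (D.pb b) = b := by
  have hb := D.pb_unit b
  obtain ⟨h1, h2⟩ := D.L_spec hb h.near
  exact D.adj_uniq h1 h h2

include hF in
theorem L_inv {a : D.E} {y : Fin (k + 3 + 1) → F} (hy : ⟪y, y⟫ = 1) (hn : Near q (D.pb a) y) :
    D.L (D.L a y) (D.pb a) = a := by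
  obtain ⟨h1, h2⟩ := D.L_spec hy hn
  exact D.L_eq h1.symm

include hF in
theorem L_smul (c : Γ) {a : D.E} {y : Fin (k + 3 + 1) → F} (hy : ⟪y, y⟫ = 1) (hn : Near q (D.pb a) y) :
    D.L (c • a) (act (D.π c) y) = c • D.L a y := by
  obtain ⟨h1, h2⟩ := D.L_spec hy hn
  have h3 := D.L_eq (h1.smul D c)
  rw [pb_smul, h2] at h3
  exact h3

/-- Triangles. -/
def Tr (x y z : Fin (k + 3 + 1) → F) : Prop := ∀ a : D.E, D.pb a = x → D.L (D.L a y) z = D.L a z

include hF in
theorem Tr_s1 {x y z : Fin (k + 3 + 1) → F} (hG : Good q x y z) (h : D.Tr x y z) : D.Tr y x z := by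
  obtain ⟨hx, hy, hz, hxy, hxz, hyz⟩ := hG
  intro b hb
  have h1 := D.L_inv hx (by rw [hb]; exact hxy.symm)
  obtain ⟨-, h2⟩ := D.L_spec (a := b) hx (by rw [hb]; exact hxy.symm)
  have h3 := h (D.L b x) h2
  rw [hb] at h1
  rw [h1] at h3
  exact h3.symm

include hF in
theorem Tr_s2 {x y z : Fin (k + 3 + 1) → F} (hG : Good q x y z) (h : D.Tr x y z) : D.Tr x z y := by
  obtain ⟨hx, hy, hz, hxy, hxz, hyz⟩ := hG
  intro a ha
  have h3 := h a ha
  rw [← h3]
  obtain ⟨-, h2⟩ := D.L_spec (a := a) hy (by rw [ha]; exact hxy)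
  have h4 := D.L_inv (a := D.L a y) hz (by rw [h2]; exact hyz)
  rw [h2] at h4
  exact h4

include hF in
theorem Tr_s3 {x y z w : Fin (k + 3 + 1) → F} (hG : Good q x y z) (hxyw : D.Tr x y w) (hxwz : D.Tr x w z)
    (hywz : D.Tr y w z) : D.Tr x y z := by
  obtain ⟨hx, hy, hz, hxy, hxz, hyz⟩ := hG
  intro a ha
  obtain ⟨-, h2⟩ := D.L_spec (a := a) hy (by rw [ha]; exact hxy)
  rw [← hywz _ h2, hxyw a ha, hxwz a ha]

/-! ### Triangles with a common perpendicular -/

include hF in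
/-- Elements of `τL` fixing the first vector lie in `H`. -/
theorem tauL_mem {z : SU (k + 3) F q} (hz : act z (Pi.single 0 1) = Pi.single 0 1) :
    D.τL z ∈ D.τR.range := by
  obtain ⟨z', rfl⟩ := exists_jR hF (m := k + 2) hz
  refine ⟨bl hF (i := 0) (by omega) z', (D.hLR _ _ ?_).symm⟩
  rw [bl_bl hF (by omega) (by omega) (h'' := by omega), bl_bl hF (by omega) (by omega) (h'' := by omega)]

include hF in
/-- Cosets of `τL` with near vectors are adjacent. -/
theorem adjK {x₁ x₂ : SU (k + 3) F q}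
    (hn : Near q (act (jL hF (k + 3) x₁) (Pi.single 0 1)) (act (jL hF (k + 3) x₂) (Pi.single 0 1))) :
    D.Adj (D.τL x₁ : D.E) (D.τL x₂ : D.E) := by
  set z := x₁⁻¹ * x₂ with hz
  set w₀ := act z (Pi.single 0 1) with hw₀
  have he0 : (Pi.single 0 1 : Fin (k + 3 + 1) → F) =
      ex (sh (i := 0) (k := k + 3) (n := k + 3 + 1) (by omega)) (Pi.single 0 1) := by
    rw [ex_single (sh_inj _)]
    rfl
  have hu0 : ⟪(Pi.single 0 1 : Fin (k + 2 + 1) → F), Pi.single 0 1⟫ = 1 := e0_unit hF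
  have hw₀u : ⟪w₀, w₀⟫ = 1 := by
    rw [hw₀, herm_act]
    exact hu0
  have hx₂ : x₂ = x₁ * z := by rw [hz]; group
  have hnw : Near q (Pi.single 0 1) w₀ := by
    unfold Near at hn ⊢
    rw [he0, act_bl_ex hF _ x₁, act_bl_ex hF _ x₂, herm_ex_ex (sh_inj _), herm_ex_ex (sh_inj _),
      hx₂, act_mul, herm_act, herm_act] at hn
    exact hn
  obtain ⟨β, hβ, hu, r', hr'⟩ := exists_normal hF (m := k + 2) (by omega) hw₀u hnw
  set A := mk2 hF (w₀ 0) β hu with hA
  set r : SU (k + 3) F q := jR hF (k + 2) r' with hr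
  have hre : act r (Pi.single 0 1) = Pi.single 0 1 := jR_fix hF r' 1
  have hbA : act (bl hF (i := 0) (k := 2) (n := k + 3) (by omega) A) (Pi.single 0 1) =
      ex (sh (i := 0) (k := 2) (n := k + 3) (by omega)) ![w₀ 0, β] := by
    have h1 := act_bl_ex hF (i := 0) (k := 2) (n := k + 3) (by omega) A (Pi.single 0 1)
    rw [ex_e0 hF] at h1
    have h0 : act A (Pi.single 0 1) = ![w₀ 0, β] := by rw [hA, act_mk2]
    rw [h0] at h1
    exact h1
  set b₀ : SU (k + 3) F q := bl hF (i := 0) (by omega) A with hb₀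
  set u := b₀⁻¹ * r⁻¹ * z with hu'
  have hue : act u (Pi.single 0 1) = Pi.single 0 1 := by
    rw [hu', act_mul, act_mul, ← hw₀]
    have h2 : act r⁻¹ w₀ = ex (sh (i := 0) (k := 2) (n := k + 3) (by omega)) ![w₀ 0, β] := by
      conv_lhs => rw [← hr']
      exact act_inv_act _ _
    rw [h2, ← hbA, act_inv_act]
  have hzd : z = r * b₀ * u := by rw [hu']; group
  have hτr : D.τL r ∈ D.τR.range := D.tauL_mem hre
  have hτu : D.τL u ∈ D.τR.range := D.tauL_mem hue
  obtain ⟨x₃, hx₃⟩ := hτr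
  obtain ⟨x₄, hx₄⟩ := hτu
  refine ⟨D.τL x₁ * D.τL r, A, ?_, ?_, ?_⟩
  · rw [← hx₃, mk_tauR]
  · have h3 : D.τL x₂ = D.τL x₁ * D.τL r * D.U A * D.τR x₄ := by
      rw [hx₂, hzd, hx₄, show D.U A = D.τL b₀ from rfl]
      simp only [map_mul]
      group
    rw [h3, mk_tauR]
  · rw [hA, act_mk2]
    simpa using hβ

include hF in
theorem exists_tauL {y : Fin (k + 3 + 1) → F} (hy : ⟪y, y⟫ = 1)
    (hl : ⟪y, Pi.single (Fin.last (k + 3)) 1⟫ = 0) :
    ∃ x : SU (k + 3) F q, act (jL hF (k + 3) x) (Pi.single 0 1) = y := by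
  rw [hermForm_single_right hF] at hl
  have hinj : Function.Injective (sh (i := 0) (k := k + 3) (n := k + 3 + 1) (by omega)) := sh_inj _
  have hyex : y = ex (sh (i := 0) (k := k + 3) (n := k + 3 + 1) (by omega))
      (y ∘ sh (i := 0) (k := k + 3) (n := k + 3 + 1) (by omega)) := by
    apply eq_ex_of_off hinj
    intro r hr
    rw [mem_range_sh] at hr
    have : r = Fin.last (k + 3) := Fin.ext (by
      have := r.2
      simp only [Fin.val_last]
      omega)
    rw [this, hl]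
  have hu : ⟪y ∘ sh (i := 0) (k := k + 3) (n := k + 3 + 1) (by omega),
      y ∘ sh (i := 0) (k := k + 3) (n := k + 3 + 1) (by omega)⟫ = 1 := by
    rw [← herm_ex_ex (n := k + 3 + 1) hinj, ← hyex, hy]
  have hu0 : ⟪(Pi.single 0 1 : Fin (k + 2 + 1) → F), Pi.single 0 1⟫ = 1 := e0_unit hF
  obtain ⟨x, hx⟩ := exists_trans hF (n := k + 3) (by omega) hu0 hu
  refine ⟨x, ?_⟩
  have he0 : (Pi.single 0 1 : Fin (k + 3 + 1) → F) =
      ex (sh (i := 0) (k := k + 3) (n := k + 3 + 1) (by omega)) (Pi.single 0 1) := by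
    rw [ex_single hinj]
    rfl
  rw [he0, act_bl_ex, hx, ← hyex]

include hF in
theorem pb_tauL (x : SU (k + 3) F q) : D.pb (D.τL x : D.E) = act (jL hF (k + 3) x) (Pi.single 0 1) := by
  rw [pb_mk, D.hL]

theorem pb_one : D.pb ((1 : Γ) : D.E) = Pi.single 0 1 := by
  rw [pb_mk, map_one, act_one]

include hF in
theorem tr_perp0 {y z : Fin (k + 3 + 1) → F} (hy : ⟪y, y⟫ = 1) (hz : ⟪z, z⟫ = 1)
    (hyl : ⟪y, Pi.single (Fin.last (k + 3)) 1⟫ = 0) (hzl : ⟪z, Pi.single (Fin.last (k + 3)) 1⟫ = 0)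
    (h0y : Near q (Pi.single 0 1) y) (hyz : Near q y z) (h0z : Near q (Pi.single 0 1) z) :
    D.L (D.L ((1 : Γ) : D.E) y) z = D.L ((1 : Γ) : D.E) z := by
  obtain ⟨xy, hxy⟩ := exists_tauL (hF := hF) hy hyl
  obtain ⟨xz, hxz⟩ := exists_tauL (hF := hF) hz hzl
  have h1 : (D.τL 1 : D.E) = ((1 : Γ) : D.E) := by rw [map_one]
  have e1 : act (jL hF (k + 3) 1) (Pi.single 0 1) = (Pi.single 0 1 : Fin (k + 3 + 1) → F) := by
    rw [map_one, act_one]
  have a1 : D.Adj (D.τL 1 : D.E) (D.τL xy : D.E) := D.adjK (by rw [e1, hxy]; exact h0y)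
  have a2 : D.Adj (D.τL xy : D.E) (D.τL xz : D.E) := D.adjK (by rw [hxy, hxz]; exact hyz)
  have a3 : D.Adj (D.τL 1 : D.E) (D.τL xz : D.E) := D.adjK (by rw [e1, hxz]; exact h0z)
  have l1 := D.L_eq a1
  have l2 := D.L_eq a2
  have l3 := D.L_eq a3
  rw [D.pb_tauL, hxy, h1] at l1
  rw [D.pb_tauL, hxz] at l2 l3
  rw [h1] at l3
  rw [l1, l2, l3]

include hF in
theorem tr_perp {x y z t : Fin (k + 3 + 1) → F} (hG : Good q x y z) (ht : ⟪t, t⟫ = 1) (htx : ⟪t, x⟫ = 0)
    (hty : ⟪t, y⟫ = 0) (htz : ⟪t, z⟫ = 0) : D.Tr x y z := by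
  obtain ⟨hx, hy, hz, hxy, hxz, hyz⟩ := hG
  intro a ha
  obtain ⟨g, rfl⟩ := QuotientGroup.mk_surjective a
  rw [pb_mk] at ha
  set t' := act (D.π g)⁻¹ t with ht'
  have ht'u : ⟪t', t'⟫ = 1 := by rw [ht', herm_act, ht]
  have ht'0 : t' 0 = 0 := by
    rw [← hermForm_single_right hF t' 0]
    have h1 : (Pi.single 0 1 : Fin (k + 3 + 1) → F) = act (D.π g)⁻¹ x := by rw [← ha, act_inv_act]
    rw [h1, ht', herm_act, htx]
  have hinj : Function.Injective (shR (k + 3)) := sh_inj _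
  have hex : t' = ex (shR (k + 3)) (t' ∘ shR (k + 3)) := by
    apply eq_ex_of_off hinj
    intro r hr
    rw [mem_range_sh] at hr
    have : r = 0 := Fin.ext (by
      have := r.2
      simp only [Fin.val_zero]
      omega)
    rw [this, ht'0]
  have hu : ⟪t' ∘ shR (k + 3), t' ∘ shR (k + 3)⟫ = 1 := by
    rw [← herm_ex_ex (n := k + 3 + 1) hinj, ← hex, ht'u]
  have hu0 : ⟪(Pi.single (Fin.last (k + 2)) 1 : Fin (k + 2 + 1) → F), Pi.single (Fin.last (k + 2)) 1⟫ = 1 := by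
    rw [hermForm_single_right hF]
    simp
  obtain ⟨x₁, hx₁⟩ := exists_trans hF (n := k + 3) (by omega) hu0 hu
  have hel : act (jR hF (k + 3) x₁) (Pi.single (Fin.last (k + 3)) 1) = t' := by
    have h2 : (Pi.single (Fin.last (k + 3)) 1 : Fin (k + 3 + 1) → F) =
        ex (shR (k + 3)) (Pi.single (Fin.last (k + 2)) 1) := by
      rw [ex_single hinj]
      congr 1
      exact Fin.ext (by simp [sh_val]; omega)
    rw [h2, act_bl_ex, hx₁, ← hex]
  set g₂ := g * D.τR x₁ with hg₂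
  have hmk : (g : D.E) = (g₂ : D.E) := (D.mk_tauR g x₁).symm
  have hπ0 : act (D.π g₂) (Pi.single 0 1) = x := by
    rw [hg₂, map_mul, act_mul, D.hR, jR_fix hF, ha]
  have hπl : act (D.π g₂) (Pi.single (Fin.last (k + 3)) 1) = t := by
    rw [hg₂, map_mul, act_mul, D.hR, hel, ht', act_act_inv]
  set y' := act (D.π g₂)⁻¹ y with hy'
  set z' := act (D.π g₂)⁻¹ z with hz'
  have hgy : act (D.π g₂) y' = y := by rw [hy', act_act_inv]
  have hgz : act (D.π g₂) z' = z := by rw [hz', act_act_inv]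
  have uy : ⟪y', y'⟫ = 1 := by rw [hy', herm_act, hy]
  have uz : ⟪z', z'⟫ = 1 := by rw [hz', herm_act, hz]
  have hol : ∀ v : Fin (k + 3 + 1) → F, ⟪t, v⟫ = 0 →
      ⟪act (D.π g₂)⁻¹ v, Pi.single (Fin.last (k + 3)) 1⟫ = 0 := by
    intro v hv
    have h3 : (Pi.single (Fin.last (k + 3)) 1 : Fin (k + 3 + 1) → F) = act (D.π g₂)⁻¹ t := by
      rw [← hπl, act_inv_act]
    rw [h3, herm_act]
    exact SUGen.conj_zero hF hv
  have h00 : act (D.π g₂)⁻¹ x = Pi.single 0 1 := by rw [← hπ0, act_inv_act]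
  have n1 : Near q (Pi.single 0 1) y' := by
    unfold Near at hxy ⊢
    rw [← h00, hy', herm_act, herm_act]
    exact hxy
  have n2 : Near q y' z' := by
    unfold Near at hyz ⊢
    rw [hy', hz', herm_act, herm_act]
    exact hyz
  have n3 : Near q (Pi.single 0 1) z' := by
    unfold Near at hxz ⊢
    rw [← h00, hz', herm_act, herm_act]
    exact hxz
  have main := D.tr_perp0 uy uz (hol y hty) (hol z htz) n1 n2 n3
  have one_smul' : g₂ • ((1 : Γ) : D.E) = (g₂ : D.E) := by rw [smul_mk, mul_one]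
  have l1 := D.L_smul g₂ (a := ((1 : Γ) : D.E)) uy (by rw [pb_one]; exact n1)
  have l3 := D.L_smul g₂ (a := ((1 : Γ) : D.E)) uz (by rw [pb_one]; exact n3)
  obtain ⟨-, hp⟩ := D.L_spec (a := ((1 : Γ) : D.E)) uy (by rw [pb_one]; exact n1)
  have l2 := D.L_smul g₂ (a := D.L ((1 : Γ) : D.E) y') uz (by rw [hp]; exact n2)
  rw [one_smul', hgy] at l1
  rw [one_smul', hgz] at l3
  rw [hgz, ← l1] at l2
  rw [hmk, l2, main, l3]

include hF in
/-- All triangles close. -/
theorem tr_all (hq : 4 ≤ q) {x y z : Fin (k + 3 + 1) → F} (hG : Good q x y z) : D.Tr x y z :=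
  tri_all hF (T := D.Tr) (fun _ _ _ h => D.Tr_s1 h) (fun _ _ _ h => D.Tr_s2 h)
    (fun _ _ _ _ h _ _ _ _ a b c => D.Tr_s3 h a b c)
    (fun _ _ _ _ h a b c d => D.tr_perp h a b c d) (by omega) hq hG

include hF in
/-- Independence of the choice of the middle point. -/
theorem L2_indep (hq : 4 ≤ q) {x w w' : Fin (k + 3 + 1) → F} (hx : ⟪x, x⟫ = 1) (hw : ⟪w, w⟫ = 1)
    (hw' : ⟪w', w'⟫ = 1) (h0w : Near q (Pi.single 0 1) w) (hwx : Near q w x)
    (h0w' : Near q (Pi.single 0 1) w') (hw'x : Near q w' x) :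
    D.L (D.L ((1 : Γ) : D.E) w) x = D.L (D.L ((1 : Γ) : D.E) w') x := by
  have he : ⟪(Pi.single 0 1 : Fin (k + 3 + 1) → F), Pi.single 0 1⟫ = 1 := e0_unit hF
  obtain ⟨v, hv, hv0, hvw, hvx, hvw'⟩ := exists_near_four hF (by omega) hq he hw h0w x w'
  have n0v : Near q (Pi.single 0 1) v := near_of_orth hF (SUGen.conj_zero hF hv0)
  have nwv : Near q w v := near_of_orth hF (SUGen.conj_zero hF hvw)
  have G1 : Good q (Pi.single 0 1) w v := ⟨he, hw, hv, h0w, n0v, nwv⟩
  have G2 : Good q w v x := ⟨hw, hv, hx, nwv, hwx, hvx⟩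
  have G3 : Good q (Pi.single 0 1) w' v := ⟨he, hw', hv, h0w', n0v, hvw'.symm⟩
  have G4 : Good q w' v x := ⟨hw', hv, hx, hvw'.symm, hw'x, hvx⟩
  obtain ⟨-, p1⟩ := D.L_spec (a := ((1 : Γ) : D.E)) hw (by rw [pb_one]; exact h0w)
  obtain ⟨-, p2⟩ := D.L_spec (a := ((1 : Γ) : D.E)) hw' (by rw [pb_one]; exact h0w')
  rw [← D.tr_all hq G2 _ p1, D.tr_all hq G1 _ D.pb_one, ← D.tr_all hq G4 _ p2, D.tr_all hq G3 _ D.pb_one]

/-- The cosets which are given by the section. -/
def InA (a : D.E) : Prop :=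
  ∀ w : Fin (k + 3 + 1) → F, ⟪w, w⟫ = 1 → Near q (Pi.single 0 1) w → Near q w (D.pb a) →
    a = D.L (D.L ((1 : Γ) : D.E) w) (D.pb a)

include hF in
theorem inA_one : D.InA ((1 : Γ) : D.E) := by
  intro w hw h0w _
  rw [pb_one]
  have h := D.L_inv (a := ((1 : Γ) : D.E)) hw (by rw [pb_one]; exact h0w)
  rw [pb_one] at h
  exact h.symm

include hF in
theorem InA.adj (hq : 4 ≤ q) {a b : D.E} (ha : D.InA a) (h : D.Adj a b) : D.InA b := by
  intro w hw h0w hwb
  have he : ⟪(Pi.single 0 1 : Fin (k + 3 + 1) → F), Pi.single 0 1⟫ = 1 := e0_unit hF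
  have ua := D.pb_unit (hF := hF) a
  have ub := D.pb_unit (hF := hF) b
  have nab := h.near
  obtain ⟨w₁, hw₁, h1a, h1b, h10, -⟩ := exists_near_four hF (by omega) hq ua ub nab
    (Pi.single 0 1) (Pi.single 0 1)
  have n1a : Near q w₁ (D.pb a) := near_of_orth hF h1a
  have n1b : Near q w₁ (D.pb b) := near_of_orth hF h1b
  have e1 := ha w₁ hw₁ h10.symm n1a
  have e2 := D.L_eq h
  obtain ⟨-, p1⟩ := D.L_spec (a := ((1 : Γ) : D.E)) hw₁ (by rw [pb_one]; exact h10.symm)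
  have G : Good q w₁ (D.pb a) (D.pb b) := ⟨hw₁, ua, ub, n1a, n1b, nab⟩
  have e3 := D.tr_all hq G _ p1
  rw [← e1, e2] at e3
  exact e3.trans (D.L2_indep hq ub hw₁ hw h10.symm n1b h0w hwb)

include hF in
/-- The main theorem of the inductive step. -/
theorem π_injective (hq : 4 ≤ q) : Function.Injective D.π := by
  let Y : Subgroup Γ :=
    { carrier := {g | ∀ c : Γ, D.InA (c : D.E) ↔ D.InA ((c * g : Γ) : D.E)}
      one_mem' := by
        intro c
        rw [mul_one]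
      mul_mem' := by
        intro g g' hg hg' c
        rw [hg c, hg' (c * g), mul_assoc]
      inv_mem' := by
        intro g hg c
        have := hg (c * g⁻¹)
        rw [inv_mul_cancel_right] at this
        exact this.symm }
  have hYU : ∀ A : SU 2 F q, D.U A ∈ Y := by
    intro A
    have hnd : ∀ A₁ : SU 2 F q, act A₁ (Pi.single 0 1) 1 ≠ 0 → D.U A₁ ∈ Y := by
      intro A₁ h1 c
      have hadj : D.Adj (c : D.E) ((c * D.U A₁ : Γ) : D.E) := ⟨c, A₁, rfl, rfl, h1⟩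
      exact ⟨fun h => InA.adj D hq h hadj, fun h => InA.adj D hq h hadj.symm⟩
    obtain ⟨A₁, A₂, rfl, h1, h2⟩ := exists_nondiag_decomp hF hq A
    have : D.U (A₁ * A₂) = D.U A₁ * D.U A₂ := by rw [U, U, U, map_mul, map_mul]
    rw [this]
    exact Y.mul_mem (hnd A₁ h1) (hnd A₂ h2)
  have hYR : ∀ x, D.τR x ∈ Y := by
    intro x c
    rw [mk_tauR]
  have hYL : ∀ x, D.τL x ∈ Y := by
    have hX : Y.comap D.τL = ⊤ := by
      apply gen_blocks hF hq (k + 3) (by omega)
      intro i h A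
      rw [Subgroup.mem_comap]
      rcases Nat.eq_zero_or_pos i with rfl | hi
      · exact hYU A
      · have h1 : act (bl hF h A) (Pi.single 0 1) = Pi.single 0 1 :=
          act_bl_off hF h A (by simp; omega) 1
        obtain ⟨x, hx⟩ := D.tauL_mem h1
        rw [← hx]
        exact hYR x
    intro x
    have : x ∈ Y.comap D.τL := by rw [hX]; trivial
    exact this
  have hY : Y = ⊤ := D.hgen Y hYL hYR
  rw [injective_iff_map_eq_one]
  intro g hg
  have hgY : g ∈ Y := by rw [hY]; trivial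
  have h1 := (hgY 1).1 (D.inA_one (hF := hF))
  rw [one_mul] at h1
  have hpb : D.pb (g : D.E) = Pi.single 0 1 := by rw [pb_mk, hg, act_one]
  obtain ⟨w, hw, hw1, -⟩ := exists_near_two (n := k + 3 + 1) hF (by omega) hq (Pi.single 0 1) (Pi.single 0 1)
  have h2 := h1 w hw hw1.symm (by rw [hpb]; exact hw1)
  rw [hpb] at h2
  have h3 := D.L_inv (a := ((1 : Γ) : D.E)) hw (by rw [pb_one]; exact hw1.symm)
  rw [pb_one] at h3
  rw [h3] at h2
  rw [QuotientGroup.eq] at h2
  obtain ⟨x, hx⟩ := h2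
  have h4 : D.π (D.τR x) = 1 := by rw [hx, map_mul, map_inv, hg, map_one, inv_one, one_mul]
  rw [D.hR] at h4
  have hx1 : x = 1 := bl_injective hF _ (h4.trans (map_one _).symm)
  rw [hx1, map_one, mul_one] at hx
  exact inv_eq_one.1 hx.symm

end StepDat

end Step

end Cfsg.Agent.Lib.Phan
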