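import Cfsg.Agent.Lib.Phan.FixVec
import Cfsg.Agent.Lib.Phan.FinCore

/-!
# Recognition of standard pairs in `SU₃`
-/

set_option autoImplicit false
set_option linter.unusedSectionVars false
set_option linter.unusedSimpArgs false
set_option linter.unusedVariables false

namespace Cfsg.Agent.Lib.Phan

open Matrix Cfsg Cfsg.Agent.Lib.HermForm Cfsg.Agent.Lib.SUGen Cfsg.Agent.Lib.FFNorm Cfsg.Agent.Lib

variable {F : Type*} [Field F] [Fintype F] {q : ℕ} {G : Type*} [Group G]

local notation "⟪" x ", " y "⟫" => hermForm _ F q x y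

theorem card_range_inj {H K : Type*} [Group H] [Group K] {f : H →* K} (hf : Function.Injective f) :
    Nat.card f.range = Nat.card H :=
  (Nat.card_congr (MonoidHom.ofInjective hf).toEquiv).symm

section Pair

variable (hF : Fintype.card F = q ^ 2)
include hF

theorem q_cast_zero : (q : F) = 0 := by
  have h1 := FiniteField.cast_card_eq_zero F
  rw [hF] at h1
  have h2 : (q : F) ^ 2 = 0 := by exact_mod_cast h1
  exact pow_eq_zero_iff (by norm_num) |>.1 h2

theorem succ_cast_ne : ((q + 1 : ℕ) : F) ≠ 0 := by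
  rw [Nat.cast_add, q_cast_zero hF]
  simp

/-- The fixed vectors are perpendicular. -/
theorem fixed_orth (hq : 4 ≤ q) {mA mB : SU 2 F q →* SU 3 F q} {a b : Fin 3 → F}
    (ha : ⟪a, a⟫ = 1) (hb : ⟪b, b⟫ = 1) (hfa : ∀ x, act (mA x) a = a) (hfb : ∀ x, act (mB x) b = b)
    {tA tB : SU 3 F q} (htA : tA ∈ mA.range) (htB : tB ∈ mB.range) (h1 : tA ≠ 1) (h2 : tB ≠ 1)
    (htA' : tA ^ (q + 1) = 1) (htB' : tB ^ (q + 1) = 1) (hcomm : tA * tB = tB * tA)
    (hsup : mA.range ⊔ mB.range = ⊤) : ⟪a, b⟫ = 0 := by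
  have hA : act tA a = a := by
    obtain ⟨x, rfl⟩ := htA
    exact hfa x
  have hB : act tB b = b := by
    obtain ⟨x, rfl⟩ := htB
    exact hfb x
  have hfix : act tA (act tB a) = act tB a := by
    rw [← act_mul, hcomm, act_mul, hA]
  have hline := fix_line hF ha hA (succ_cast_ne hF) htA' h1 hfix
  set l := ⟪act tB a, a⟫ with hl
  have e1 : ⟪a, b⟫ = l * ⟪a, b⟫ := by
    have := herm_act tB a b
    rw [hB, hline, hermForm_smul_left] at this
    exact this.symm
  by_contra hne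
  have hl1 : l = 1 := by
    have h3 : (l - 1) * ⟪a, b⟫ = 0 := by linear_combination -e1
    have h4 := (mul_eq_zero.1 h3).resolve_right hne
    linear_combination h4
  have hsa : act tB a = a := by rw [hline, hl1, one_smul]
  have hab : a = ⟪a, b⟫ • b := fix_line hF hb hB (succ_cast_ne hF) htB' h2 hsa
  -- the stabilizer of `a` is everything
  let S : Subgroup (SU 3 F q) :=
    { carrier := {g | act g a = a}
      mul_mem' := fun {x y} hx hy => by
        change act (x * y) a = a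
        rw [act_mul]
        rw [show act y a = a from hy, show act x a = a from hx]
      one_mem' := act_one a
      inv_mem' := fun {x} hx => by
        change act x⁻¹ a = a
        conv_lhs => rw [← show act x a = a from hx]
        rw [act_inv_act] }
  have hSt : S = ⊤ := by
    rw [eq_top_iff, ← hsup]
    apply sup_le
    · rintro _ ⟨x, rfl⟩
      exact hfa x
    · rintro _ ⟨x, rfl⟩
      change act (mB x) a = a
      rw [hab, act_smul, hfb]
  obtain ⟨ζ, hζ, hζ1⟩ := UnitaryBasic.exists_nrm_one_ne_one hF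
  have hζ' : ζ * ζ ^ q = 1 := hζ
  have hu : ⟪ζ • a, ζ • a⟫ = 1 := by
    rw [hermForm_smul_left, hermForm_smul_right, ha, mul_one, hζ']
  obtain ⟨g, hg⟩ := exists_trans hF (n := 3) (by norm_num) ha hu
  have hg2 : act g a = a := by
    have : g ∈ S := by rw [hSt]; trivial
    exact this
  rw [hg2] at hg
  have h5 : (ζ - 1) • a = 0 := by
    rw [sub_smul, one_smul, ← hg, sub_self]
  have h6 : a = 0 := (smul_eq_zero.1 h5).resolve_left (sub_ne_zero.2 hζ1)
  rw [h6] at ha
  simp [hermForm] at ha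

/-- Moving an orthonormal pair to the standard position. -/
theorem exists_move {a b : Fin 3 → F} (ha : ⟪a, a⟫ = 1) (hb : ⟪b, b⟫ = 1) (hab : ⟪a, b⟫ = 0) :
    ∃ g : SU 3 F q, act g a = Pi.single 2 1 ∧ act g b = Pi.single 0 1 := by
  have he2 : ⟪(Pi.single 2 1 : Fin 3 → F), Pi.single 2 1⟫ = 1 := by
    rw [hermForm_single_right hF]
    simp
  obtain ⟨h₁, hh₁⟩ := exists_trans hF (n := 3) (by norm_num) ha he2
  set b₁ := act h₁ b with hb₁
  have hba : ⟪b, a⟫ = 0 := herm_zero_symm hF hab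
  have hb2 : b₁ 2 = 0 := by
    have h2 : ⟪b₁, Pi.single 2 1⟫ = 0 := by
      rw [← hh₁, hb₁, herm_act, hba]
    rw [hermForm_single_right hF] at h2
    simpa using h2
  set κ := sh (i := 0) (k := 2) (n := 3) (by norm_num) with hκ
  have hκi : Function.Injective κ := sh_inj _
  have hoff : ∀ r, r ∉ Set.range κ → b₁ r = 0 := by
    intro r hr
    have hr2 : r = 2 := by
      rw [hκ, mem_range_sh] at hr
      apply Fin.ext
      have := r.2
      change r.1 = 2
      omega
    rw [hr2, hb2]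
  have hb₁e : b₁ = ex κ (b₁ ∘ κ) := eq_ex_of_off hκi hoff
  set y := b₁ ∘ κ with hy
  have hyy : hermForm 2 F q y y = 1 := by
    rw [← herm_ex_ex (n := 3) hκi, ← hb₁e, hb₁, herm_act, hb]
  have he0 : hermForm 2 F q (Pi.single 0 1 : Fin 2 → F) (Pi.single 0 1) = 1 := e0_unit (m := 1) hF
  obtain ⟨w, hw⟩ := exists_trans_two hF hyy he0
  refine ⟨i₀ hF w * h₁, ?_, ?_⟩
  · rw [act_mul, hh₁]
    exact act_bl_off hF (i := 0) (k := 2) (n := 3) (by norm_num) w (r := 2) (by decide) 1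
  · rw [act_mul, ← hb₁, hb₁e]
    have h3 := act_bl_ex hF (i := 0) (k := 2) (n := 3) (by norm_num) w y
    have h4 : act (i₀ hF w) (ex κ y) = ex κ (act w y) := h3
    rw [h4, hw]
    exact ex_e0 (F := F) hF (i := 0) (n := 3) (by norm_num)

/-- Standard position of two copies of `SU₂` in `SU₃` generating it. -/
theorem std_pair (hq : 4 ≤ q) {mA mB : SU 2 F q →* SU 3 F q} (hmA : Function.Injective mA)
    (hmB : Function.Injective mB) {tA tB : SU 3 F q} (htA : tA ∈ mA.range) (htB : tB ∈ mB.range)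
    (h1 : tA ≠ 1) (h2 : tB ≠ 1) (htA' : tA ^ (q + 1) = 1) (htB' : tB ^ (q + 1) = 1)
    (hcomm : tA * tB = tB * tA) (hsup : mA.range ⊔ mB.range = ⊤) :
    ∃ g : SU 3 F q, ((MulAut.conj g).toMonoidHom.comp mA).range = (i₀ hF).range ∧
      ((MulAut.conj g).toMonoidHom.comp mB).range = (i₁ hF).range := by
  obtain ⟨a, ha, hfa⟩ := exists_fix_of_hom hF hq hmA
  obtain ⟨b, hb, hfb⟩ := exists_fix_of_hom hF hq hmB
  have hab := fixed_orth hF hq ha hb hfa hfb htA htB h1 h2 htA' htB' hcomm hsup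
  obtain ⟨g, hga, hgb⟩ := exists_move hF ha hb hab
  have hconjinj : Function.Injective (MulAut.conj g).toMonoidHom := (MulAut.conj g).injective
  refine ⟨g, ?_, ?_⟩
  · apply Subgroup.eq_of_le_of_card_ge
    · rintro _ ⟨x, rfl⟩
      obtain ⟨z, hz⟩ := exists_jL hF (m := 2) (B := g * mA x * g⁻¹) (by
        have h3 : (Fin.last 2) = 2 := rfl
        rw [h3, act_mul, act_mul, ← hga, act_inv_act, hfa])
      exact ⟨z, hz⟩
    · rw [card_range_inj (f := (MulAut.conj g).toMonoidHom.comp mA) (hconjinj.comp hmA),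
        card_range_inj (f := i₀ hF) (bl_injective hF _)]
  · apply Subgroup.eq_of_le_of_card_ge
    · rintro _ ⟨x, rfl⟩
      obtain ⟨z, hz⟩ := exists_jR hF (m := 2) (B := g * mB x * g⁻¹) (by
        rw [act_mul, act_mul, ← hgb, act_inv_act, hfb])
      exact ⟨z, hz⟩
    · rw [card_range_inj (f := (MulAut.conj g).toMonoidHom.comp mB) (hconjinj.comp hmB),
        card_range_inj (f := i₁ hF) (bl_injective hF _)]

/-- The chart of a pair of subgroups. -/
theorem chart_of_sup (hq : 4 ≤ q) (U V : Subgroup G) (eU : SU 2 F q ≃* U) (eV : SU 2 F q ≃* V)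
    (DU DV : Subgroup G) (hDU : DU ≤ U) (hDV : DV ≤ V) (cDU : Nat.card DU = q + 1) (cDV : Nat.card DV = q + 1)
    (hc : ∀ x ∈ DU, ∀ y ∈ DV, x * y = y * x) (ψ : ↥(U ⊔ V) ≃* SU 3 F q) :
    ∃ φ : SU 3 F q →* G, (φ.comp (i₀ hF)).range = U ∧ (φ.comp (i₁ hF)).range = V ∧ φ.range = U ⊔ V := by
  have hqq := two_le hF
  let inU : U →* ↥(U ⊔ V) := Subgroup.inclusion le_sup_left
  let inV : V →* ↥(U ⊔ V) := Subgroup.inclusion le_sup_right
  have hinU : Function.Injective inU := Subgroup.inclusion_injective _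
  have hinV : Function.Injective inV := Subgroup.inclusion_injective _
  let mA : SU 2 F q →* SU 3 F q := ψ.toMonoidHom.comp (inU.comp eU.toMonoidHom)
  let mB : SU 2 F q →* SU 3 F q := ψ.toMonoidHom.comp (inV.comp eV.toMonoidHom)
  have hmA : Function.Injective mA := ψ.injective.comp (hinU.comp eU.injective)
  have hmB : Function.Injective mB := ψ.injective.comp (hinV.comp eV.injective)
  have hsup : mA.range ⊔ mB.range = ⊤ := by
    set S := mA.range ⊔ mB.range with hS
    let S' : Subgroup G := (S.map ψ.symm.toMonoidHom).map (U ⊔ V).subtype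
    have hU : U ≤ S' := by
      intro u hu
      refine ⟨inU ⟨u, hu⟩, ⟨ψ (inU ⟨u, hu⟩), ?_, ?_⟩, rfl⟩
      · apply Subgroup.mem_sup_left
        exact ⟨eU.symm ⟨u, hu⟩, by simp [mA]⟩
      · simp
    have hV : V ≤ S' := by
      intro u hu
      refine ⟨inV ⟨u, hu⟩, ⟨ψ (inV ⟨u, hu⟩), ?_, ?_⟩, rfl⟩
      · apply Subgroup.mem_sup_right
        exact ⟨eV.symm ⟨u, hu⟩, by simp [mB]⟩
      · simp
    rw [eq_top_iff]
    intro y _
    have h3 : ((ψ.symm y : ↥(U ⊔ V)) : G) ∈ S' := (sup_le hU hV) (ψ.symm y).2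
    obtain ⟨w, ⟨z, hz, rfl⟩, hw⟩ := h3
    have h4 : ψ.symm z = ψ.symm y := Subtype.ext hw
    rw [← ψ.symm.injective h4]
    exact hz
  -- the torus elements
  have hex : ∀ D : Subgroup G, Nat.card D = q + 1 → ∃ t ∈ D, t ≠ 1 ∧ t ^ (q + 1) = 1 := by
    intro D hD
    haveI : Finite D := Nat.finite_of_card_ne_zero (by omega)
    haveI : Nontrivial D := Finite.one_lt_card_iff_nontrivial.1 (by omega)
    obtain ⟨t, ht⟩ := exists_ne (1 : D)
    refine ⟨t.1, t.2, fun h => ht (Subtype.ext h), ?_⟩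
    have h3 := pow_card_eq_one' (x := t)
    rw [hD] at h3
    exact congrArg Subtype.val h3
  obtain ⟨t, ht, ht1, ht2⟩ := hex DU cDU
  obtain ⟨s, hs, hs1, hs2⟩ := hex DV cDV
  set tA := ψ (inU ⟨t, hDU ht⟩) with htA
  set tB := ψ (inV ⟨s, hDV hs⟩) with htB
  have hmemA : tA ∈ mA.range := ⟨eU.symm ⟨t, hDU ht⟩, by simp [mA, htA]⟩
  have hmemB : tB ∈ mB.range := ⟨eV.symm ⟨s, hDV hs⟩, by simp [mB, htB]⟩
  have hA1 : tA ≠ 1 := by
    intro h
    apply ht1
    have h3 : inU ⟨t, hDU ht⟩ = 1 := by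
      apply ψ.injective
      rw [map_one]
      exact h
    exact congrArg (fun z : ↥(U ⊔ V) => (z : G)) h3
  have hB1 : tB ≠ 1 := by
    intro h
    apply hs1
    have h3 : inV ⟨s, hDV hs⟩ = 1 := by
      apply ψ.injective
      rw [map_one]
      exact h
    exact congrArg (fun z : ↥(U ⊔ V) => (z : G)) h3
  have hA2 : tA ^ (q + 1) = 1 := by
    rw [htA, ← map_pow, ← map_pow]
    have h3 : (⟨t, hDU ht⟩ : U) ^ (q + 1) = 1 := Subtype.ext ht2
    rw [h3, map_one, map_one]
  have hB2 : tB ^ (q + 1) = 1 := by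
    rw [htB, ← map_pow, ← map_pow]
    have h3 : (⟨s, hDV hs⟩ : V) ^ (q + 1) = 1 := Subtype.ext hs2
    rw [h3, map_one, map_one]
  have hcomm : tA * tB = tB * tA := by
    rw [htA, htB, ← map_mul, ← map_mul]
    congr 1
    exact Subtype.ext (hc t ht s hs)
  obtain ⟨g, hg1, hg2⟩ := std_pair hF hq hmA hmB hmemA hmemB hA1 hB1 hA2 hB2 hcomm hsup
  let φ : SU 3 F q →* G := (U ⊔ V).subtype.comp (ψ.symm.toMonoidHom.comp (MulAut.conj g⁻¹).toMonoidHom)
  have hφ : ∀ y, φ (g * y * g⁻¹) = ((ψ.symm y : ↥(U ⊔ V)) : G) := by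
    intro y
    have h3 : (MulAut.conj g⁻¹) (g * y * g⁻¹) = y := by
      rw [MulAut.conj_apply]
      group
    change ((ψ.symm ((MulAut.conj g⁻¹) (g * y * g⁻¹)) : ↥(U ⊔ V)) : G) = _
    rw [h3]
  refine ⟨φ, ?_, ?_, ?_⟩
  · rw [MonoidHom.range_comp, ← hg1, ← MonoidHom.range_comp]
    ext u
    constructor
    · rintro ⟨x, rfl⟩
      change φ (g * mA x * g⁻¹) ∈ U
      rw [hφ]
      simp [mA, inU]
    · intro hu
      refine ⟨eU.symm ⟨u, hu⟩, ?_⟩
      change φ (g * mA _ * g⁻¹) = u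
      rw [hφ]
      simp [mA, inU]
  · rw [MonoidHom.range_comp, ← hg2, ← MonoidHom.range_comp]
    ext u
    constructor
    · rintro ⟨x, rfl⟩
      change φ (g * mB x * g⁻¹) ∈ V
      rw [hφ]
      simp [mB, inV]
    · intro hu
      refine ⟨eV.symm ⟨u, hu⟩, ?_⟩
      change φ (g * mB _ * g⁻¹) = u
      rw [hφ]
      simp [mB, inV]
  · ext u
    constructor
    · rintro ⟨x, rfl⟩
      exact (ψ.symm _).2
    · intro hu
      refine ⟨g * ψ ⟨u, hu⟩ * g⁻¹, ?_⟩
      rw [hφ]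
      simp

end Pair

end Cfsg.Agent.Lib.Phan
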